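import Cfsg.Agent.H997.Rg.Irr

/-!
# Residual cases F-A, F-U (odd dimension), F-D- (helper997; S3691): abstract forms
-/

set_option autoImplicit false

open Subgroup Cfsg

namespace Cfsg.Agent.H997.Rg

universe u

theorem order_card {p r f k : ℕ} (hf : 0 < f) (ha : orderOf (p : ZMod r) = f * k) :
    orderOf (((p ^ f : ℕ)) : ZMod r) = k := by
  rw [Nat.cast_pow, orderOf_pow' _ hf.ne', ha, Nat.gcd_eq_right (dvd_mul_right f k)]
  exact Nat.mul_div_cancel_left k hf

theorem ne_of_orderOf {p r a : ℕ} (hp : p.Prime) (ha : orderOf (p : ZMod r) = a) (ha0 : a ≠ 0) : r ≠ p := by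
  rintro rfl
  rw [CharP.cast_eq_zero, orderOf_eq_zero_iff'.2 (fun n hn => by
    have := Fact.mk hp
    rw [zero_pow hn.ne']; exact zero_ne_one)] at ha
  exact ha0 ha.symm

/-- `ord_r(p) = 2 e`, `|K|_{p'} ≤ C (p ^ e + 1)` -/
theorem res_minus (hJ : OutJ1.{u}) {K : Type u} [Group K] [Finite K] {F V : Type*} [Field F] [Finite F] [AddCommGroup V]
    [Module F V] [FiniteDimensional F V] [Nontrivial V] {p r : ℕ} [CharP F p] (ρ : K →* Module.End F V)
    (hinj : Function.Injective ρ) (hp : p.Prime) (h : Fpf p ρ) (hr : r.Prime)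
    (hord : orderOf ((Nat.card F : ℕ) : ZMod r) = Module.finrank F V) (hrK : r ∣ Nat.card K)
    {e C w w' : ℕ} (he : 2 ≤ e) (ha : orderOf (p : ZMod r) = 2 * e) (hQ : (C + 1) ^ 2 < p ^ e)
    (hM : Nat.card K / p ^ (Nat.card K).factorization p ≤ C * (p ^ e + 1))
    (hv : (Nat.card K).factorization p < 2 * e) (hw : w ≤ (Nat.card K).factorization p + w')
    (hA0 : (Module.finrank F V).factorization p + w' < w)
    (hA1 : r ≤ 2 * Module.finrank F V + 1 →
      p ^ w' * (p ^ (Module.finrank F V).factorization p * (2 * Module.finrank F V + 2)) < p ^ w)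
    (hA2 : r ≤ 19 → p ^ w' * (p ^ (Module.finrank F V).factorization p * 9) < p ^ w) : False := by
  have hrp : r ≠ p := ne_of_orderOf hp ha (by omega)
  have har := lt_of_orderOf hr hrp hp ha
  have hcanc : ∀ x : ℕ, p ^ w' * x < p ^ w → x < p ^ (Nat.card K).factorization p := by
    intro x hx
    have h1 : p ^ w ≤ p ^ w' * p ^ (Nat.card K).factorization p := by
      rw [← pow_add]; exact Nat.pow_le_pow_right hp.pos (by omega)
    exact Nat.lt_of_mul_lt_mul_left (lt_of_lt_of_le hx h1)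
  refine res_irr hJ ρ hinj hp h hr (by omega) hrp hord hrK (by omega) (by omega) (fun h1 => hcanc _ (hA1 h1))
    (fun h1 => hcanc _ (hA2 h1)) ?_ ?_
  · intro b hrb hb
    rw [minus_B hp ha hQ hM hrb hb]
    omega
  · intro h2 b hrb hb
    subst h2
    rw [minus_C ha hQ hM hrb hb]
    omega

/-- `ord_r(p) = e`, `|K|_{p'} ≤ C (p ^ e + 1)` -/
theorem res_plus (hJ : OutJ1.{u}) {K : Type u} [Group K] [Finite K] {F V : Type*} [Field F] [Finite F] [AddCommGroup V]
    [Module F V] [FiniteDimensional F V] [Nontrivial V] {p r : ℕ} [CharP F p] (ρ : K →* Module.End F V)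
    (hinj : Function.Injective ρ) (hp : p.Prime) (h : Fpf p ρ) (hr : r.Prime)
    (hord : orderOf ((Nat.card F : ℕ) : ZMod r) = Module.finrank F V) (hrK : r ∣ Nat.card K)
    {e C w w' : ℕ} (he : 3 ≤ e) (ha : orderOf (p : ZMod r) = e) (hQ : (C + 1) ^ 2 < p ^ e)
    (hM : Nat.card K / p ^ (Nat.card K).factorization p ≤ C * (p ^ e + 1))
    (hv : (Nat.card K).factorization p < e) (hw : w ≤ (Nat.card K).factorization p + w')
    (hB : 2 * (Module.finrank F V).factorization p + e + 2 * w' < 2 * w)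
    (hA1 : r ≤ 2 * Module.finrank F V + 1 →
      p ^ w' * (p ^ (Module.finrank F V).factorization p * (2 * Module.finrank F V + 2)) < p ^ w)
    (hA2 : r ≤ 19 → p ^ w' * (p ^ (Module.finrank F V).factorization p * 9) < p ^ w) : False := by
  have hrp : r ≠ p := ne_of_orderOf hp ha (by omega)
  have har := lt_of_orderOf hr hrp hp ha
  have hr5 : 5 ≤ r := by
    by_contra hcon
    have : r = 4 := by omega
    rw [this] at hr
    norm_num at hr
  have hcanc : ∀ x : ℕ, p ^ w' * x < p ^ w → x < p ^ (Nat.card K).factorization p := by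
    intro x hx
    have h1 : p ^ w ≤ p ^ w' * p ^ (Nat.card K).factorization p := by
      rw [← pow_add]; exact Nat.pow_le_pow_right hp.pos (by omega)
    exact Nat.lt_of_mul_lt_mul_left (lt_of_lt_of_le hx h1)
  refine res_irr hJ ρ hinj hp h hr hr5 hrp hord hrK (by omega) (by omega) (fun h1 => hcanc _ (hA1 h1))
    (fun h1 => hcanc _ (hA2 h1)) ?_ ?_
  · intro b hrb hb
    have := plus_B hp ha hQ hM hrb hb
    omega
  · intro h2 b hrb hb
    subst h2
    have := plus_C ha hQ hM hrb hb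
    omega

/-! ### Numbers -/

/-- the size table of `PSL_N(q)`, `PSU_N(q)` -/
def SzL (n q : ℕ) : Prop :=
  (n = 3 → 8471 < q) ∧ (n = 4 → 124 < q) ∧ (n = 5 → 20 < q) ∧ (n = 6 → 7 < q) ∧
      (n = 7 → 4 < q) ∧ (n = 8 → 3 < q) ∧ (n ≤ 10 → 2 < q)

theorem sq_le_two_pow (f : ℕ) : f ^ 2 ≤ 2 ^ (f + 1) := by
  induction f with
  | zero => norm_num
  | succ n ih =>
    rcases Nat.lt_or_ge n 3 with h | h
    · interval_cases n <;> norm_num
    · rw [pow_succ 2 (n + 1)]
      nlinarith

theorem tail {A k f f1 : ℕ} (hk : 1 ≤ k) (hA : 2 * A < 2 ^ (f1 * (k - 1))) (hf1 : f1 ≤ f) : A * f ^ 2 < 2 ^ (f * k) := by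
  have h1 := sq_le_two_pow f
  have h2 : 2 ^ (f1 * (k - 1)) ≤ 2 ^ (f * (k - 1)) := Nat.pow_le_pow_right two_pos (Nat.mul_le_mul_right _ hf1)
  obtain ⟨j, rfl⟩ : ∃ j, k = j + 1 := ⟨k - 1, by omega⟩
  rw [Nat.add_sub_cancel] at hA h2
  calc A * f ^ 2 ≤ A * 2 ^ (f + 1) := Nat.mul_le_mul_left _ h1
    _ = 2 ^ f * (2 * A) := by rw [pow_succ]; ring
    _ < 2 ^ f * 2 ^ (f * j) := Nat.mul_lt_mul_of_pos_left (lt_of_lt_of_le hA h2) (by positivity)
    _ = 2 ^ (f * (j + 1)) := by rw [← pow_add]; congr 1; ring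

theorem head {A k q c f f1 : ℕ} (hA : A * f1 ^ 2 < (c + 1) ^ k) (hc : c < q) (hf : f ≤ f1) : A * f ^ 2 < q ^ k := by
  have h1 : f ^ 2 ≤ f1 ^ 2 := Nat.pow_le_pow_left hf 2
  have h2 : (c + 1) ^ k ≤ q ^ k := Nat.pow_le_pow_left hc k
  calc A * f ^ 2 ≤ A * f1 ^ 2 := Nat.mul_le_mul_left _ h1
    _ < (c + 1) ^ k := hA
    _ ≤ q ^ k := h2

theorem star {N q f : ℕ} (hN : 3 ≤ N) (hf : 1 ≤ f) (hq : 2 ^ f ≤ q) (hS : SzL N q) :
    4 * f ^ 2 * N ^ 2 < q ^ (N - 2) := by
  obtain ⟨h3, h4, h5, h6, h7, h8, h10⟩ := hS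
  have hsq := sq_le_two_pow f
  have hpow : ∀ k : ℕ, 2 ^ (f * k) ≤ q ^ k := fun k => by rw [pow_mul]; exact Nat.pow_le_pow_left hq k
  rcases Nat.lt_or_ge N 11 with hN' | hN'
  · interval_cases N
    · -- N = 3
      have hq' := h3 rfl
      norm_num
      rcases Nat.lt_or_ge f 16 with hf' | hf'
      · have : f ^ 2 ≤ 15 ^ 2 := Nat.pow_le_pow_left (by omega) 2
        omega
      · have : 36 * f ^ 2 < 2 ^ f := by
          clear hq hpow hsq
          induction f, hf' using Nat.le_induction with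
          | base => norm_num
          | succ n hn ih =>
            have := ih (by omega)
            rw [pow_succ 2 n]
            nlinarith
        omega
    · rcases Nat.lt_or_ge f 8 with hf' | hf'
      · exact lt_of_eq_of_lt (by ring) (head (A := 64) (k := 2) (f1 := 7) (by norm_num) (h4 rfl) (by omega))
      · exact lt_of_eq_of_lt (by ring) (lt_of_lt_of_le (tail (A := 64) (k := 2) (by norm_num) (by norm_num) hf') (hpow 2))
    · rcases Nat.lt_or_ge f 4 with hf' | hf'
      · exact lt_of_eq_of_lt (by ring) (head (A := 100) (k := 3) (f1 := 3) (by norm_num) (h5 rfl) (by omega))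
      · exact lt_of_eq_of_lt (by ring) (lt_of_lt_of_le (tail (A := 100) (k := 3) (by norm_num) (by norm_num) hf') (hpow 3))
    · rcases Nat.lt_or_ge f 3 with hf' | hf'
      · exact lt_of_eq_of_lt (by ring) (head (A := 144) (k := 4) (f1 := 2) (by norm_num) (h6 rfl) (by omega))
      · exact lt_of_eq_of_lt (by ring) (lt_of_lt_of_le (tail (A := 144) (k := 4) (by norm_num) (by norm_num) hf') (hpow 4))
    · rcases Nat.lt_or_ge f 3 with hf' | hf'
      · exact lt_of_eq_of_lt (by ring) (head (A := 196) (k := 5) (f1 := 2) (by norm_num) (h7 rfl) (by omega))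
      · exact lt_of_eq_of_lt (by ring) (lt_of_lt_of_le (tail (A := 196) (k := 5) (by norm_num) (by norm_num) hf') (hpow 5))
    · rcases Nat.lt_or_ge f 3 with hf' | hf'
      · exact lt_of_eq_of_lt (by ring) (head (A := 256) (k := 6) (f1 := 2) (by norm_num) (h8 rfl) (by omega))
      · exact lt_of_eq_of_lt (by ring) (lt_of_lt_of_le (tail (A := 256) (k := 6) (by norm_num) (by norm_num) hf') (hpow 6))
    · rcases Nat.lt_or_ge f 3 with hf' | hf'
      · exact lt_of_eq_of_lt (by ring) (head (A := 324) (k := 7) (f1 := 2) (by norm_num) (h10 (by norm_num)) (by omega))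
      · exact lt_of_eq_of_lt (by ring) (lt_of_lt_of_le (tail (A := 324) (k := 7) (by norm_num) (by norm_num) hf') (hpow 7))
    · rcases Nat.lt_or_ge f 3 with hf' | hf'
      · exact lt_of_eq_of_lt (by ring) (head (A := 400) (k := 8) (f1 := 2) (by norm_num) (h10 (by norm_num)) (by omega))
      · exact lt_of_eq_of_lt (by ring) (lt_of_lt_of_le (tail (A := 400) (k := 8) (by norm_num) (by norm_num) hf') (hpow 8))
  · have h1 : 4 * N ^ 2 < 2 ^ (N - 2) := by
      clear hpow h3 h4 h5 h6 h7 h8 h10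
      induction N, hN' using Nat.le_induction with
      | base => norm_num
      | succ n hn ih =>
        have := ih (by omega)
        obtain ⟨j, rfl⟩ : ∃ j, n = j + 2 := ⟨n - 2, by omega⟩
        rw [Nat.add_sub_cancel] at this
        have h9 : 4 * (j + 2 + 1) ^ 2 ≤ 2 * (4 * (j + 2) ^ 2) := by nlinarith
        calc 4 * (j + 2 + 1) ^ 2 ≤ 2 * (4 * (j + 2) ^ 2) := h9
          _ < 2 * 2 ^ j := by omega
          _ = 2 ^ (j + 2 + 1 - 2) := by rw [show j + 2 + 1 - 2 = j + 1 by omega, pow_succ]; ring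
    have h2 : f ^ 2 ≤ 2 ^ ((f - 1) * (N - 2)) := by
      obtain ⟨g, rfl⟩ : ∃ g, f = g + 1 := ⟨f - 1, by omega⟩
      rw [Nat.add_sub_cancel]
      have h3 : g + 1 ≤ 2 ^ g := Nat.lt_two_pow_self
      calc (g + 1) ^ 2 ≤ (2 ^ g) ^ 2 := Nat.pow_le_pow_left h3 2
        _ = 2 ^ (g * 2) := by rw [← pow_mul]
        _ ≤ 2 ^ (g * (N - 2)) := Nat.pow_le_pow_right two_pos (Nat.mul_le_mul_left _ (by omega))
    calc 4 * f ^ 2 * N ^ 2 = f ^ 2 * (4 * N ^ 2) := by ring
      _ ≤ 2 ^ ((f - 1) * (N - 2)) * (4 * N ^ 2) := Nat.mul_le_mul_right _ h2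
      _ < 2 ^ ((f - 1) * (N - 2)) * 2 ^ (N - 2) := Nat.mul_lt_mul_of_pos_left h1 (by positivity)
      _ = 2 ^ (f * (N - 2)) := by
        rw [← pow_add]
        congr 1
        obtain ⟨g, rfl⟩ : ∃ g, f = g + 1 := ⟨f - 1, by omega⟩
        rw [Nat.add_sub_cancel]; ring
      _ ≤ q ^ (N - 2) := hpow _

theorem pow_fac_le {p n : ℕ} (hn : n ≠ 0) : p ^ n.factorization p ≤ n := Nat.le_of_dvd (Nat.pos_of_ne_zero hn) (Nat.ordProj_dvd n p)

theorem szl_n2 {p f N : ℕ} (hp : p.Prime) (hf : 1 ≤ f) (hN : 3 ≤ N) (hS : SzL N (p ^ f)) :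
    2 * (2 * f).factorization p + 2 * N.factorization p < f * (N - 2) := by
  by_contra hcon
  push Not at hcon
  have h1 := star hN hf (Nat.pow_le_pow_left hp.two_le f) hS
  have h2 : p ^ (f * (N - 2)) ≤ (p ^ (2 * f).factorization p * p ^ N.factorization p) ^ 2 := by
    rw [← pow_add, ← pow_mul]
    exact Nat.pow_le_pow_right hp.pos (by omega)
  have h3 : p ^ (2 * f).factorization p * p ^ N.factorization p ≤ 2 * f * N :=
    Nat.mul_le_mul (pow_fac_le (by omega)) (pow_fac_le (by omega))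
  have h4 := Nat.pow_le_pow_left h3 2
  rw [← pow_mul] at h1
  have h5 : (2 * f * N) ^ 2 = 4 * f ^ 2 * N ^ 2 := by ring
  omega

theorem szl_n1 {p f N c : ℕ} (hp : p.Prime) (hf : 1 ≤ f) (hN : 3 ≤ N) (hS : SzL N (p ^ f)) (hc : c ≤ 4 * N) :
    p ^ (2 * f).factorization p * (p ^ N.factorization p * c) < p ^ (f * (N - 1)) := by
  have h1 := star hN hf (Nat.pow_le_pow_left hp.two_le f) hS
  have h3 : p ^ (2 * f).factorization p * (p ^ N.factorization p * c) ≤ 2 * f * (N * (4 * N)) :=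
    Nat.mul_le_mul (pow_fac_le (by omega)) (Nat.mul_le_mul (pow_fac_le (by omega)) hc)
  have h4 : 2 * f * (N * (4 * N)) ≤ 2 * (4 * f ^ 2 * N ^ 2) := by
    have : f ≤ f ^ 2 := by nlinarith
    calc 2 * f * (N * (4 * N)) = 8 * N ^ 2 * f := by ring
      _ ≤ 8 * N ^ 2 * f ^ 2 := Nat.mul_le_mul_left _ this
      _ = _ := by ring
  have h5 : 2 ≤ p ^ f := by
    calc 2 ≤ p := hp.two_le
      _ = p ^ 1 := (pow_one p).symm
      _ ≤ p ^ f := Nat.pow_le_pow_right hp.pos hf
  have h6 : p ^ (f * (N - 1)) = p ^ f * (p ^ f) ^ (N - 2) := by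
    rw [← pow_succ', ← pow_mul]; congr 2; omega
  calc _ ≤ 2 * (4 * f ^ 2 * N ^ 2) := h3.trans h4
    _ < 2 * (p ^ f) ^ (N - 2) := by omega
    _ ≤ p ^ f * (p ^ f) ^ (N - 2) := Nat.mul_le_mul_right _ h5
    _ = _ := h6.symm

theorem szl_nQ {p f N : ℕ} (hp : p.Prime) (hf : 1 ≤ f) (hN : 3 ≤ N) (hS : SzL N (p ^ f)) :
    (N + 1) ^ 2 < p ^ (f * N) := by
  have h1 := star hN hf (Nat.pow_le_pow_left hp.two_le f) hS
  have h2 : (N + 1) ^ 2 ≤ 4 * f ^ 2 * N ^ 2 := by
    have h3 : 1 ≤ f ^ 2 := Nat.one_le_pow _ _ hf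
    calc (N + 1) ^ 2 ≤ 4 * 1 * N ^ 2 := by nlinarith
      _ ≤ 4 * f ^ 2 * N ^ 2 := Nat.mul_le_mul_right _ (Nat.mul_le_mul_left _ h3)
  refine lt_of_le_of_lt h2 (lt_of_lt_of_le h1 ?_)
  rw [← pow_mul]
  exact Nat.pow_le_pow_right hp.pos (Nat.mul_le_mul_left _ (by omega))

/-- the numbers from the order equation -/
theorem card_num {p n c g T w w' : ℕ} (hp : p.Prime) (hn : n ≠ 0) (hc : c ≠ 0) (h : n * c = g * (p ^ w * T)) (hg : ¬ p ∣ g)
    (hT : ¬ p ∣ T) (hcw : c.factorization p ≤ w') :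
    n.factorization p ≤ w ∧ w ≤ n.factorization p + w' ∧ n / p ^ n.factorization p ≤ g * T := by
  have hg0 : g ≠ 0 := by rintro rfl; exact hg (dvd_zero p)
  have hT0 : T ≠ 0 := by rintro rfl; exact hT (dvd_zero p)
  have hpw : p ^ w ≠ 0 := pow_ne_zero _ hp.ne_zero
  have h1 : n.factorization p + c.factorization p = w := by
    have h2 : (n * c).factorization p = (g * (p ^ w * T)).factorization p := by rw [h]
    rw [Nat.factorization_mul hn hc, Nat.factorization_mul hg0 (mul_ne_zero hpw hT0), Nat.factorization_mul hpw hT0,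
      Nat.factorization_pow] at h2
    simp only [Finsupp.add_apply, Finsupp.smul_apply, hp.factorization_self, smul_eq_mul, mul_one,
      Nat.factorization_eq_zero_of_not_dvd hg, Nat.factorization_eq_zero_of_not_dvd hT] at h2
    omega
  refine ⟨by omega, by omega, ?_⟩
  have h2 : n / p ^ n.factorization p ∣ g * T := by
    have h3 : n / p ^ n.factorization p ∣ p ^ w * (g * T) := by
      have h4 : n / p ^ n.factorization p ∣ n * c := (Nat.div_dvd_of_dvd (Nat.ordProj_dvd _ _)).mul_right _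
      rw [h] at h4
      rwa [show p ^ w * (g * T) = g * (p ^ w * T) by ring]
    exact Nat.Coprime.dvd_of_dvd_mul_left (Nat.Coprime.pow_left _ (Nat.coprime_ordCompl hp hn)).symm h3
  exact Nat.le_of_dvd (Nat.mul_pos (Nat.pos_of_ne_zero hg0) (Nat.pos_of_ne_zero hT0)) h2

/-- the `p`-part of the multiplier -/
theorem fac_mul_le {p a b x y z : ℕ} (hp : p.Prime) (hx : x ≠ 0) (ha : a ∣ x * y) (hb : b ∣ z) (hy : ¬ p ∣ y) (hz : ¬ p ∣ z) :
    (a * b).factorization p ≤ x.factorization p := by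
  have hy0 : y ≠ 0 := by rintro rfl; exact hy (dvd_zero p)
  have hz0 : z ≠ 0 := by rintro rfl; exact hz (dvd_zero p)
  have h1 : a * b ∣ x * (y * z) := by rw [← mul_assoc]; exact Nat.mul_dvd_mul ha hb
  have h2 := fac_le (p := p) h1 (mul_ne_zero hx (mul_ne_zero hy0 hz0))
  rw [Nat.factorization_mul hx (mul_ne_zero hy0 hz0), Finsupp.add_apply] at h2
  have h3 : ¬ p ∣ y * z := fun h => (hp.dvd_mul.1 h).elim hy hz
  rw [Nat.factorization_eq_zero_of_not_dvd h3] at h2
  omega

theorem not_dvd_sub_one {p k : ℕ} (hp : p.Prime) (hk : k ≠ 0) : ¬ p ∣ p ^ k - 1 :=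
  (Nat.Prime.coprime_iff_not_dvd hp).1 (coprime_pow_sub_one hp hk)

theorem not_dvd_add_one {p k : ℕ} (hp : p.Prime) (hk : k ≠ 0) : ¬ p ∣ p ^ k + 1 := by
  intro h
  have h1 : p ∣ p ^ k := dvd_pow_self p hk
  exact hp.one_lt.ne' (Nat.dvd_one.1 ((Nat.dvd_add_right h1).1 h))

/-! ### The families -/

/-- **F-A**: linear groups -/
theorem fa_abs (hJ : OutJ1.{u}) {K : Type u} [Group K] [Finite K] {F V : Type*} [Field F] [Finite F] [AddCommGroup V]
    [Module F V] [FiniteDimensional F V] {p f N r : ℕ} [CharP F p] (ρ : K →* Module.End F V)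
    (hinj : Function.Injective ρ) (hp : p.Prime) (hf : 1 ≤ f) (hN : 3 ≤ N) (hS : SzL N (p ^ f))
    (hF : Nat.card F = p ^ f) (hdim : Module.finrank F V = N) (h : Fpf p ρ) (hr : r.Prime)
    (ha : orderOf (p : ZMod r) = f * N) (hrK : r ∣ Nat.card K) {c g : ℕ} (hc0 : c ≠ 0)
    (hcard : Nat.card K * c = g * (p ^ (f * (N - 1)) * (p ^ (f * N) - 1)))
    (hc : c.factorization p ≤ (2 * f).factorization p) (hg : ¬ p ∣ g) (hgN : g ≤ N) : False := by
  have hnt : Nontrivial V := Module.nontrivial_of_finrank_pos (R := F) (by omega)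
  have hfN : f * N ≠ 0 := by positivity
  obtain ⟨h1, h2, h3⟩ := card_num hp Nat.card_pos.ne' hc0 hcard hg (not_dvd_sub_one hp hfN) hc
  have hfN1 : f * (N - 1) + f = f * N := by
    obtain ⟨k, rfl⟩ : ∃ k, N = k + 1 := ⟨N - 1, by omega⟩
    rw [Nat.add_sub_cancel]; ring
  have hfN2 : f * (N - 2) + 2 * f = f * N := by
    obtain ⟨k, rfl⟩ : ∃ k, N = k + 2 := ⟨N - 2, by omega⟩
    rw [Nat.add_sub_cancel]; ring
  have hfN3 : 3 ≤ f * N := by nlinarith
  have hn2 := szl_n2 hp hf hN hS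
  subst hdim
  refine res_plus hJ ρ hinj hp h hr (by rw [hF]; exact order_card hf ha) hrK hfN3 ha (szl_nQ hp hf hN hS)
    (h3.trans (Nat.mul_le_mul hgN (by omega))) (by omega) h2 (by omega) (fun _ => szl_n1 hp hf hN hS (by omega))
    (fun _ => szl_n1 hp hf hN hS (by omega))

/-- **F-U**, odd dimension -/
theorem fu_odd_abs (hJ : OutJ1.{u}) {K : Type u} [Group K] [Finite K] {F V : Type*} [Field F] [Finite F] [AddCommGroup V]
    [Module F V] [FiniteDimensional F V] {p f N r : ℕ} [CharP F p] (ρ : K →* Module.End F V)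
    (hinj : Function.Injective ρ) (hp : p.Prime) (hf : 1 ≤ f) (hN : 3 ≤ N) (hS : SzL N (p ^ f))
    (hF : Nat.card F = (p ^ f) ^ 2) (hdim : Module.finrank F V = N) (h : Fpf p ρ) (hr : r.Prime)
    (ha : orderOf (p : ZMod r) = 2 * (f * N)) (hrK : r ∣ Nat.card K) {c g : ℕ} (hc0 : c ≠ 0)
    (hcard : Nat.card K * c = g * (p ^ (f * (N - 1)) * (p ^ (f * N) + 1)))
    (hc : c.factorization p ≤ (2 * f).factorization p) (hg : ¬ p ∣ g) (hgN : g ≤ N) : False := by
  have hnt : Nontrivial V := Module.nontrivial_of_finrank_pos (R := F) (by omega)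
  have hfN : f * N ≠ 0 := by positivity
  obtain ⟨h1, h2, h3⟩ := card_num hp Nat.card_pos.ne' hc0 hcard hg (not_dvd_add_one hp hfN) hc
  have hfN1 : f * (N - 1) + f = f * N := by
    obtain ⟨k, rfl⟩ : ∃ k, N = k + 1 := ⟨N - 1, by omega⟩
    rw [Nat.add_sub_cancel]; ring
  have hfN2 : f * (N - 2) + 2 * f = f * N := by
    obtain ⟨k, rfl⟩ : ∃ k, N = k + 2 := ⟨N - 2, by omega⟩
    rw [Nat.add_sub_cancel]; ring
  have hfN3 : 3 ≤ f * N := by nlinarith
  have hn2 := szl_n2 hp hf hN hS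
  subst hdim
  refine res_minus hJ ρ hinj hp h hr (by
      rw [hF, ← pow_mul]
      exact order_card (by omega) (by rw [ha]; ring)) hrK (by omega) ha (szl_nQ hp hf hN hS)
    (h3.trans (Nat.mul_le_mul hgN le_rfl)) (by omega) h2 (by omega) (fun _ => szl_n1 hp hf hN hS (by omega))
    (fun _ => szl_n1 hp hf hN hS (by omega))

/-- the size table of `PΩ⁻_{2m}(q)` -/
def SzM (m q : ℕ) : Prop := (m = 4 → 13 < q) ∧ (m = 5 → 4 < q) ∧ (m ≤ 7 → 2 < q)

theorem fac_le_of {p n k : ℕ} (hp : p.Prime) (hn : n ≠ 0) (h : ¬ p ^ (k + 1) ∣ n) : n.factorization p ≤ k := by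
  by_contra hcon
  exact h ((hp.pow_dvd_iff_le_factorization hn).2 (by omega))

theorem tail1 {A k f f1 : ℕ} (hk : 1 ≤ k) (hA : A < 2 ^ (f1 * (k - 1))) (hf1 : f1 ≤ f) : A * f < 2 ^ (f * k) := by
  have h1 : f < 2 ^ f := Nat.lt_two_pow_self
  have h2 : 2 ^ (f1 * (k - 1)) ≤ 2 ^ (f * (k - 1)) := Nat.pow_le_pow_right two_pos (Nat.mul_le_mul_right _ hf1)
  obtain ⟨j, rfl⟩ : ∃ j, k = j + 1 := ⟨k - 1, by omega⟩
  rw [Nat.add_sub_cancel] at hA h2
  calc A * f ≤ A * 2 ^ f := Nat.mul_le_mul_left _ h1.le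
    _ = 2 ^ f * A := by ring
    _ < 2 ^ f * 2 ^ (f * j) := Nat.mul_lt_mul_of_pos_left (lt_of_lt_of_le hA h2) (by positivity)
    _ = 2 ^ (f * (j + 1)) := by rw [← pow_add]; congr 1; ring

theorem head1 {A k q c f f1 : ℕ} (hA : A * f1 < (c + 1) ^ k) (hc : c < q) (hf : f ≤ f1) : A * f < q ^ k := by
  have h2 : (c + 1) ^ k ≤ q ^ k := Nat.pow_le_pow_left hc k
  calc A * f ≤ A * f1 := Nat.mul_le_mul_left _ hf
    _ < (c + 1) ^ k := hA
    _ ≤ q ^ k := h2

theorem head2 {A k q c : ℕ} (hA : A < (c + 1) ^ k) (hc : c < q) : A < q ^ k :=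
  lt_of_lt_of_le hA (Nat.pow_le_pow_left hc k)

/-- the crude bound -/
theorem crude {p f m : ℕ} (_hp : p.Prime) (hf : 1 ≤ f) (hm : 4 ≤ m)
    (h : (2 * f) * ((2 * m) * (4 * m + 2)) < (p ^ f) ^ (m - 1)) :
    p ^ (2 * f).factorization p * (p ^ (2 * m).factorization p * (4 * m + 2)) < p ^ (f * (m - 1)) := by
  rw [pow_mul p f]
  exact lt_of_le_of_lt (Nat.mul_le_mul (pow_fac_le (by omega)) (Nat.mul_le_mul (pow_fac_le (by omega)) le_rfl)) h

theorem exact_case {p f m a b : ℕ} (hp : p.Prime) (hf : f ≠ 0) (hm : m ≠ 0) (ha : ¬ p ^ (a + 1) ∣ 2 * f)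
    (hb : ¬ p ^ (b + 1) ∣ 2 * m) (h : p ^ a * (p ^ b * (4 * m + 2)) < p ^ (f * (m - 1))) :
    p ^ (2 * f).factorization p * (p ^ (2 * m).factorization p * (4 * m + 2)) < p ^ (f * (m - 1)) := by
  refine lt_of_le_of_lt (Nat.mul_le_mul ?_ (Nat.mul_le_mul ?_ le_rfl)) h
  · exact Nat.pow_le_pow_right hp.pos (fac_le_of hp (by omega) ha)
  · exact Nat.pow_le_pow_right hp.pos (fac_le_of hp (by omega) hb)

theorem szm_n1 {p f m : ℕ} (hp : p.Prime) (hf : 1 ≤ f) (hm : 4 ≤ m) (hS : SzM m (p ^ f))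
    (hex : ¬ (p = 2 ∧ f = 1 ∧ m = 8)) :
    p ^ (2 * f).factorization p * (p ^ (2 * m).factorization p * (4 * m + 2)) < p ^ (f * (m - 1)) := by
  obtain ⟨h4, h5, h7⟩ := hS
  have hq2 : 2 ^ f ≤ p ^ f := Nat.pow_le_pow_left hp.two_le f
  have hpow : ∀ k : ℕ, 2 ^ (f * k) ≤ (p ^ f) ^ k := fun k => by rw [pow_mul]; exact Nat.pow_le_pow_left hq2 k
  have hp3 : p ≠ 2 → 2 < p := fun h => by have := hp.two_le; omega
  rcases Nat.lt_or_ge m 13 with hm' | hm'
  · interval_cases m
    · -- m = 4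
      apply crude hp hf (by norm_num)
      rcases Nat.lt_or_ge f 10 with hf' | hf'
      · exact lt_of_eq_of_lt (by ring) (head1 (A := 288) (k := 3) (f1 := 9) (by norm_num) (h4 rfl) (by omega))
      · exact lt_of_eq_of_lt (by ring) (lt_of_lt_of_le (tail1 (A := 288) (k := 3) (by norm_num) (by norm_num) hf') (hpow 3))
    · -- m = 5
      apply crude hp hf (by norm_num)
      rcases Nat.lt_or_ge f 3 with hf' | hf'
      · interval_cases f
        · exact lt_of_le_of_lt (by norm_num) (head2 (A := 440) (k := 4) (q := p ^ 1) (by norm_num) (h5 rfl))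
        · have h1 := h5 rfl
          have hp2 : p ≠ 2 := by rintro rfl; norm_num at h1
          have h2 : 8 < p ^ 2 := by
            have := hp3 hp2
            nlinarith
          exact lt_of_le_of_lt (by norm_num) (head2 (A := 880) (k := 4) (q := p ^ 2) (by norm_num) h2)
      · exact lt_of_eq_of_lt (by ring) (lt_of_lt_of_le (tail1 (A := 440) (k := 4) (by norm_num) (by norm_num) hf') (hpow 4))
    · -- m = 6
      rcases Nat.lt_or_ge f 3 with hf' | hf'
      · interval_cases f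
        · have h1 := h7 (by norm_num)
          rw [pow_one] at h1
          rcases Nat.lt_or_ge p 4 with hp4 | hp4
          · have : p = 3 := by omega
            subst this
            exact exact_case (a := 0) (b := 1) hp (by norm_num) (by norm_num) (by norm_num) (by norm_num) (by norm_num)
          · apply crude hp hf (by norm_num)
            exact lt_of_le_of_lt (by norm_num) (head2 (A := 624) (k := 5) (q := p ^ 1) (c := 3) (by norm_num) (by rw [pow_one]; omega))
        · by_cases hp2 : p = 2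
          · subst hp2
            exact exact_case (a := 2) (b := 2) hp (by norm_num) (by norm_num) (by norm_num) (by norm_num) (by norm_num)
          · have h2 : 8 < p ^ 2 := by
              have := hp3 hp2
              nlinarith
            apply crude hp hf (by norm_num)
            exact lt_of_le_of_lt (by norm_num) (head2 (A := 1248) (k := 5) (q := p ^ 2) (by norm_num) h2)
      · apply crude hp hf (by norm_num)
        exact lt_of_eq_of_lt (by ring) (lt_of_lt_of_le (tail1 (A := 624) (k := 5) (by norm_num) (by norm_num) hf') (hpow 5))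
    · -- m = 7
      rcases Nat.lt_or_ge f 2 with hf' | hf'
      · have : f = 1 := by omega
        subst this
        have h1 := h7 (by norm_num)
        rw [pow_one] at h1
        rcases Nat.lt_or_ge p 4 with hp4 | hp4
        · have : p = 3 := by omega
          subst this
          exact exact_case (a := 0) (b := 0) hp (by norm_num) (by norm_num) (by norm_num) (by norm_num) (by norm_num)
        · apply crude hp hf (by norm_num)
          exact lt_of_le_of_lt (by norm_num) (head2 (A := 840) (k := 6) (q := p ^ 1) (c := 3) (by norm_num) (by rw [pow_one]; omega))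
      · apply crude hp hf (by norm_num)
        exact lt_of_eq_of_lt (by ring) (lt_of_lt_of_le (tail1 (A := 840) (k := 6) (by norm_num) (by norm_num) hf') (hpow 6))
    · -- m = 8
      rcases Nat.lt_or_ge f 2 with hf' | hf'
      · have : f = 1 := by omega
        subst this
        have hp2 : p ≠ 2 := fun h => hex ⟨h, rfl, rfl⟩
        apply crude hp hf (by norm_num)
        exact lt_of_le_of_lt (by norm_num) (head2 (A := 1088) (k := 7) (q := p ^ 1) (c := 2) (by norm_num) (by rw [pow_one]; exact hp3 hp2))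
      · apply crude hp hf (by norm_num)
        exact lt_of_eq_of_lt (by ring) (lt_of_lt_of_le (tail1 (A := 1088) (k := 7) (by norm_num) (by norm_num) hf') (hpow 7))
    · -- m = 9
      rcases Nat.lt_or_ge f 2 with hf' | hf'
      · have : f = 1 := by omega
        subst this
        by_cases hp2 : p = 2
        · subst hp2
          exact exact_case (a := 1) (b := 1) hp (by norm_num) (by norm_num) (by norm_num) (by norm_num) (by norm_num)
        · apply crude hp hf (by norm_num)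
          exact lt_of_le_of_lt (by norm_num) (head2 (A := 1368) (k := 8) (q := p ^ 1) (c := 2) (by norm_num) (by rw [pow_one]; exact hp3 hp2))
      · apply crude hp hf (by norm_num)
        exact lt_of_eq_of_lt (by ring) (lt_of_lt_of_le (tail1 (A := 1368) (k := 8) (by norm_num) (by norm_num) hf') (hpow 8))
    · -- m = 10
      rcases Nat.lt_or_ge f 2 with hf' | hf'
      · have : f = 1 := by omega
        subst this
        by_cases hp2 : p = 2
        · subst hp2
          exact exact_case (a := 1) (b := 2) hp (by norm_num) (by norm_num) (by norm_num) (by norm_num) (by norm_num)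
        · apply crude hp hf (by norm_num)
          exact lt_of_le_of_lt (by norm_num) (head2 (A := 1680) (k := 9) (q := p ^ 1) (c := 2) (by norm_num) (by rw [pow_one]; exact hp3 hp2))
      · apply crude hp hf (by norm_num)
        exact lt_of_eq_of_lt (by ring) (lt_of_lt_of_le (tail1 (A := 1680) (k := 9) (by norm_num) (by norm_num) hf') (hpow 9))
    · -- m = 11
      rcases Nat.lt_or_ge f 2 with hf' | hf'
      · have : f = 1 := by omega
        subst this
        by_cases hp2 : p = 2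
        · subst hp2
          exact exact_case (a := 1) (b := 1) hp (by norm_num) (by norm_num) (by norm_num) (by norm_num) (by norm_num)
        · apply crude hp hf (by norm_num)
          exact lt_of_le_of_lt (by norm_num) (head2 (A := 2024) (k := 10) (q := p ^ 1) (c := 2) (by norm_num) (by rw [pow_one]; exact hp3 hp2))
      · apply crude hp hf (by norm_num)
        exact lt_of_eq_of_lt (by ring) (lt_of_lt_of_le (tail1 (A := 2024) (k := 10) (by norm_num) (by norm_num) hf') (hpow 10))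
    · -- m = 12
      rcases Nat.lt_or_ge f 2 with hf' | hf'
      · have : f = 1 := by omega
        subst this
        by_cases hp2 : p = 2
        · subst hp2
          exact exact_case (a := 1) (b := 3) hp (by norm_num) (by norm_num) (by norm_num) (by norm_num) (by norm_num)
        · apply crude hp hf (by norm_num)
          exact lt_of_le_of_lt (by norm_num) (head2 (A := 2400) (k := 11) (q := p ^ 1) (c := 2) (by norm_num) (by rw [pow_one]; exact hp3 hp2))
      · apply crude hp hf (by norm_num)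
        exact lt_of_eq_of_lt (by ring) (lt_of_lt_of_le (tail1 (A := 2400) (k := 11) (by norm_num) (by norm_num) hf') (hpow 11))
  · -- m ≥ 13
    apply crude hp hf hm
    have h1 : 16 * m ^ 2 + 8 * m < 2 ^ (m - 1) := by
      clear hpow h4 h5 h7 hex hm
      induction m, hm' using Nat.le_induction with
      | base => norm_num
      | succ n hn ih =>
        obtain ⟨j, rfl⟩ : ∃ j, n = j + 1 := ⟨n - 1, by omega⟩
        rw [Nat.add_sub_cancel] at ih
        have h9 : 16 * (j + 1 + 1) ^ 2 + 8 * (j + 1 + 1) ≤ 2 * (16 * (j + 1) ^ 2 + 8 * (j + 1)) := by nlinarith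
        calc _ ≤ 2 * (16 * (j + 1) ^ 2 + 8 * (j + 1)) := h9
          _ < 2 * 2 ^ j := by omega
          _ = 2 ^ (j + 1 + 1 - 1) := by rw [show j + 1 + 1 - 1 = j + 1 by omega, pow_succ]; ring
    have h2 : f ≤ 2 ^ ((f - 1) * (m - 1)) := by
      obtain ⟨g, rfl⟩ : ∃ g, f = g + 1 := ⟨f - 1, by omega⟩
      rw [Nat.add_sub_cancel]
      calc g + 1 ≤ 2 ^ g := Nat.lt_two_pow_self
        _ ≤ 2 ^ (g * (m - 1)) := Nat.pow_le_pow_right two_pos (Nat.le_mul_of_pos_right _ (by omega))
    calc 2 * f * (2 * m * (4 * m + 2)) = f * (16 * m ^ 2 + 8 * m) := by ring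
      _ ≤ 2 ^ ((f - 1) * (m - 1)) * (16 * m ^ 2 + 8 * m) := Nat.mul_le_mul_right _ h2
      _ < 2 ^ ((f - 1) * (m - 1)) * 2 ^ (m - 1) := Nat.mul_lt_mul_of_pos_left h1 (by positivity)
      _ = 2 ^ (f * (m - 1)) := by
        rw [← pow_add]
        congr 1
        obtain ⟨g, rfl⟩ : ∃ g, f = g + 1 := ⟨f - 1, by omega⟩
        rw [Nat.add_sub_cancel]; ring
      _ ≤ _ := hpow _

theorem no_r {r : ℕ} (hr : r.Prime) (ha : orderOf ((2 : ℕ) : ZMod r) = 16) (h : r ≤ 33) : False := by
  have := Fact.mk hr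
  have har := lt_of_orderOf hr (ne_of_orderOf Nat.prime_two ha (by norm_num)) Nat.prime_two ha
  have h1 : (((2 ^ 16 : ℕ)) : ZMod r) = ((1 : ℕ) : ZMod r) := by
    rw [Nat.cast_pow, ← ha, pow_orderOf_eq_one, Nat.cast_one]
  have h2 : r ∣ 2 ^ 16 - 1 :=
    (Nat.modEq_iff_dvd' (by norm_num)).1 ((ZMod.natCast_eq_natCast_iff _ _ _).1 h1).symm
  have h17 : r = 17 := by
    interval_cases r <;> first | rfl | (exfalso; revert h2; norm_num)
  have h3 : orderOf ((2 : ℕ) : ZMod r) ∣ 8 := by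
    apply orderOf_dvd_of_pow_eq_one
    rw [← Nat.cast_pow, ← Nat.cast_one, ZMod.natCast_eq_natCast_iff, h17]
    decide
  rw [ha] at h3
  norm_num at h3

/-- **F-D-** -/
theorem fd_abs (hJ : OutJ1.{u}) {K : Type u} [Group K] [Finite K] {F V : Type*} [Field F] [Finite F] [AddCommGroup V]
    [Module F V] [FiniteDimensional F V] {p f m r : ℕ} [CharP F p] (ρ : K →* Module.End F V)
    (hinj : Function.Injective ρ) (hp : p.Prime) (hf : 1 ≤ f) (hm : 4 ≤ m) (hS : SzM m (p ^ f))
    (hF : Nat.card F = p ^ f) (hdim : Module.finrank F V = 2 * m) (h : Fpf p ρ) (hr : r.Prime)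
    (ha : orderOf (p : ZMod r) = 2 * (f * m)) (hrK : r ∣ Nat.card K) {c g : ℕ} (hc0 : c ≠ 0)
    (hcard : Nat.card K * c = g * (p ^ (f * (m - 1)) * (p ^ (f * m) + 1)))
    (hc : c.factorization p ≤ (2 * f).factorization p) (hg : ¬ p ∣ g) (hg4 : g ≤ 4) : False := by
  have hnt : Nontrivial V := Module.nontrivial_of_finrank_pos (R := F) (by omega)
  have hfm : f * m ≠ 0 := by positivity
  obtain ⟨h1, h2, h3⟩ := card_num hp Nat.card_pos.ne' hc0 hcard hg (not_dvd_add_one hp hfm) hc
  have hfm1 : f * (m - 1) + f = f * m := by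
    obtain ⟨k, rfl⟩ : ∃ k, m = k + 1 := ⟨m - 1, by omega⟩
    rw [Nat.add_sub_cancel]; ring
  have hfm4 : 4 ≤ f * m := by nlinarith
  have hQ : (4 + 1) ^ 2 < p ^ (f * m) := by
    rcases Nat.lt_or_ge m 5 with h5 | h5
    · have : m = 4 := by omega
      subst this
      have h6 := hS.1 rfl
      rw [pow_mul]
      have h7 : 14 ^ 4 ≤ (p ^ f) ^ 4 := Nat.pow_le_pow_left (by omega) 4
      omega
    · calc (4 + 1) ^ 2 < 2 ^ 5 := by norm_num
        _ ≤ 2 ^ (f * m) := Nat.pow_le_pow_right two_pos (by nlinarith)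
        _ ≤ p ^ (f * m) := Nat.pow_le_pow_left hp.two_le _
  by_cases hex : p = 2 ∧ f = 1 ∧ m = 8
  · obtain ⟨rfl, rfl, rfl⟩ := hex
    have ha' : orderOf ((2 : ℕ) : ZMod r) = 16 := ha
    have hno := no_r hr ha'
    have hf16 : (16 : ℕ).factorization 2 ≤ 4 := fac_le_of Nat.prime_two (by norm_num) (by norm_num)
    have hf2 : (2 : ℕ).factorization 2 ≤ 1 := fac_le_of Nat.prime_two (by norm_num) (by norm_num)
    refine res_minus hJ ρ hinj hp h hr (by rw [hF, hdim]; exact order_card (f := 1) (by norm_num) (by rw [ha]))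
      hrK (by norm_num) ha hQ (h3.trans (Nat.mul_le_mul hg4 le_rfl)) (by omega) h2 ?_ ?_ ?_
    · rw [hdim]
      norm_num at hf2 ⊢
      omega
    · intro h5
      rw [hdim] at h5
      exact (hno (by omega)).elim
    · intro h5
      exact (hno (by omega)).elim
  have hn1 := szm_n1 hp hf hm hS hex
  have hA0 : (2 * m).factorization p + (2 * f).factorization p < f * (m - 1) := by
    apply (Nat.pow_lt_pow_iff_right hp.one_lt).1
    refine lt_of_le_of_lt ?_ hn1
    rw [pow_add, mul_comm]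
    exact Nat.mul_le_mul le_rfl (Nat.le_mul_of_pos_right _ (by omega))
  refine res_minus hJ ρ hinj hp h hr (by
      rw [hF, hdim]
      exact order_card hf (by rw [ha]; ring)) hrK (by omega) ha hQ
    (h3.trans (Nat.mul_le_mul hg4 le_rfl)) (by omega) h2 (by rw [hdim]; exact hA0) ?_ ?_
  · intro _
    rw [hdim, show 2 * (2 * m) + 2 = 4 * m + 2 by ring]
    exact hn1
  · intro _
    rw [hdim]
    refine lt_of_le_of_lt ?_ hn1
    exact Nat.mul_le_mul le_rfl (Nat.mul_le_mul le_rfl (by omega))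

end Cfsg.Agent.H997.Rg
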