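import Cfsg.Agent.S1265
import Cfsg.Agent.S0144
import Cfsg.Agent.SignalizersComponents.Components
import Cfsg.Prelude.Def_KGroupFacts

/-!
# Core of the residual cases of S3691 (helper997)

A finite group whose Sylow subgroups for all odd primes `s ≠ p` are cyclic, with an element `y` of prime order `r`
centralising the Fitting subgroup: either `⟨y⟩` is normal, or `y` lies in a normal quasisimple subgroup `L`
and `K / C_K(L)` embeds in `Aut (L / Z(L))`.
-/

set_option autoImplicit false

open Subgroup Cfsg
open Cfsg.Agent.SignalizersComponents.Components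

namespace Cfsg.Agent.H997.Rg

universe u

/-! ### Cyclic Sylow subgroups -/

/-- Elements of the same order in a cyclic subgroup generate the same subgroup. -/
theorem zpowers_eq_of_cyclic {G : Type*} [Group G] [Finite G] {P : Subgroup G} (hP : IsCyclic P) {a b : G}
    (ha : a ∈ P) (hb : b ∈ P) (hab : orderOf a = orderOf b) : zpowers a = zpowers b := by
  classical
  haveI := Fintype.ofFinite P
  have hn : 0 < orderOf a := orderOf_pos a
  have key : ∀ x : P, orderOf x = orderOf a →
      (Finset.univ.filter fun z : P => z ^ orderOf a = 1) = (Set.toFinset (zpowers x : Set P)) := by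
    intro x hx
    symm
    apply Finset.eq_of_subset_of_card_le
    · intro z hz
      rw [Set.mem_toFinset] at hz
      rw [Finset.mem_filter]
      refine ⟨Finset.mem_univ _, ?_⟩
      obtain ⟨k, rfl⟩ := mem_zpowers_iff.1 hz
      rw [← zpow_natCast, ← zpow_mul, mul_comm, zpow_mul, zpow_natCast, ← hx, pow_orderOf_eq_one, one_zpow]
    · refine (IsCyclic.card_pow_eq_one_le hn).trans ?_
      rw [Set.toFinset_card]
      have : Fintype.card (zpowers x : Set P) = orderOf x := by
        rw [← Nat.card_eq_fintype_card]
        exact Nat.card_zpowers x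
      rw [this, hx]
  have h1 := key ⟨a, ha⟩ (by rw [Subgroup.orderOf_mk])
  have h2 := key ⟨b, hb⟩ (by rw [Subgroup.orderOf_mk, hab])
  have h3 : (zpowers (⟨a, ha⟩ : P) : Set P) = zpowers (⟨b, hb⟩ : P) := by
    rw [← Set.toFinset_inj]; exact h1.symm.trans h2
  have h4 : zpowers (⟨a, ha⟩ : P) = zpowers (⟨b, hb⟩ : P) := SetLike.coe_injective h3
  have h5 := congrArg (Subgroup.map P.subtype) h4
  rwa [MonoidHom.map_zpowers, MonoidHom.map_zpowers] at h5

/-- Commuting `s`-elements of the same order generate the same subgroup, when Sylow `s`-subgroups are cyclic. -/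
theorem zpowers_eq {G : Type*} [Group G] [Finite G] {s : ℕ} (hs : s.Prime) (hcyc : ∀ P : Sylow s G, IsCyclic P)
    {a b : G} (hab : Commute a b) (ho : orderOf a = orderOf b) {i j : ℕ} (ha : a ^ s ^ i = 1) (hb : b ^ s ^ j = 1) :
    zpowers a = zpowers b := by
  haveI := Fact.mk hs
  let Q : Subgroup G := zpowers a ⊔ zpowers b
  have hA : IsPGroup s (zpowers a) := by
    intro x
    refine ⟨i, ?_⟩
    obtain ⟨k, hk⟩ := mem_zpowers_iff.1 x.2
    apply Subtype.ext
    rw [Subgroup.coe_pow, ← hk, Subgroup.coe_one, ← zpow_natCast, ← zpow_mul, mul_comm, zpow_mul, zpow_natCast, ha,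
      one_zpow]
  have hB : IsPGroup s (zpowers b) := by
    intro x
    refine ⟨j, ?_⟩
    obtain ⟨k, hk⟩ := mem_zpowers_iff.1 x.2
    apply Subtype.ext
    rw [Subgroup.coe_pow, ← hk, Subgroup.coe_one, ← zpow_natCast, ← zpow_mul, mul_comm, zpow_mul, zpow_natCast, hb,
      one_zpow]
  have hle : zpowers a ≤ normalizer (zpowers b : Set G) := by
    rw [zpowers_le]
    apply Subgroup.centralizer_le_normalizer
    rw [mem_centralizer_iff]
    intro h hh
    obtain ⟨k, rfl⟩ := mem_zpowers_iff.1 hh
    exact (hab.zpow_right k).symm.eq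
  have hQ : IsPGroup s (zpowers a ⊔ zpowers b : Subgroup G) := IsPGroup.to_sup_of_normal_right' hA hB hle
  obtain ⟨P, hP⟩ := hQ.exists_le_sylow
  exact zpowers_eq_of_cyclic (hcyc P) (hP (mem_sup_left (mem_zpowers a))) (hP (mem_sup_right (mem_zpowers b))) ho

/-- From an element of order divisible by `s` modulo a normal subgroup we get an `s`-element outside. -/
theorem exists_s_element {L : Type*} [Group L] [Finite L] {s : ℕ} (hs : s.Prime) (Z : Subgroup L) [Z.Normal]
    (hd : s ∣ Nat.card (L ⧸ Z)) : ∃ a : L, a ∉ Z ∧ ∃ i : ℕ, a ^ s ^ i = 1 := by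
  haveI := Fact.mk hs
  obtain ⟨x, hx⟩ := exists_prime_orderOf_dvd_card' (G := L ⧸ Z) s hd
  obtain ⟨b, rfl⟩ := QuotientGroup.mk_surjective x
  have hn : Nat.card L ≠ 0 := Nat.card_pos.ne'
  refine ⟨b ^ (Nat.card L / s ^ (Nat.card L).factorization s), ?_, (Nat.card L).factorization s, ?_⟩
  · intro hmem
    have h1 : ((b : L ⧸ Z)) ^ (Nat.card L / s ^ (Nat.card L).factorization s) = 1 := by
      rw [← QuotientGroup.mk_pow]; exact (QuotientGroup.eq_one_iff _).2 hmem
    have h2 := orderOf_dvd_of_pow_eq_one h1
    rw [hx] at h2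
    exact (Nat.not_dvd_ordCompl hs hn) h2
  · rw [← pow_mul, Nat.div_mul_cancel (Nat.ordProj_dvd _ _)]
    exact pow_card_eq_one'

/-! ### Automorphisms of perfect groups -/

/-- The automorphism induced modulo the centre. -/
def autQuot (L : Type*) [Group L] : MulAut L →* MulAut (L ⧸ center L) where
  toFun a := QuotientGroup.congr (center L) (center L) a (by
    ext x
    constructor
    · rintro ⟨y, hy, rfl⟩
      have hy' : y ∈ center L := hy
      rw [mem_center_iff] at hy' ⊢
      intro g
      have := hy' (a.symm g)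
      have h2 := congrArg a this
      rw [map_mul, map_mul, MulEquiv.apply_symm_apply] at h2
      exact h2
    · intro hx
      refine ⟨a.symm x, ?_, a.apply_symm_apply x⟩
      change a.symm x ∈ center L
      rw [mem_center_iff] at hx ⊢
      intro g
      have := hx (a g)
      have h2 := congrArg a.symm this
      rw [map_mul, map_mul, MulEquiv.symm_apply_apply] at h2
      exact h2)
  map_one' := by
    ext x
    obtain ⟨x, rfl⟩ := QuotientGroup.mk_surjective x
    rfl
  map_mul' a b := by
    ext x
    obtain ⟨x, rfl⟩ := QuotientGroup.mk_surjective x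
    rfl

theorem autQuot_mk {L : Type*} [Group L] (a : MulAut L) (x : L) :
    autQuot L a (x : L ⧸ center L) = ((a x : L) : L ⧸ center L) := rfl

/-- An automorphism of a perfect group which is trivial modulo the centre is trivial. -/
theorem autQuot_injective {L : Type*} [Group L] (hL : Group.IsPerfect L) : Function.Injective (autQuot L) := by
  rw [injective_iff_map_eq_one]
  intro a ha
  have h1 : ∀ x : L, x⁻¹ * a x ∈ center L := by
    intro x
    have := congrArg (fun f : MulAut (L ⧸ center L) => f (x : L ⧸ center L)) ha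
    simp only [autQuot_mk, MulAut.one_apply] at this
    exact QuotientGroup.eq.1 this.symm
  let f : L →* center L :=
    { toFun := fun x => ⟨x⁻¹ * a x, h1 x⟩
      map_one' := by apply Subtype.ext; simp
      map_mul' := by
        intro x y
        apply Subtype.ext
        change (x * y)⁻¹ * a (x * y) = x⁻¹ * a x * (y⁻¹ * a y)
        have hc := mem_center_iff.1 (h1 x) y⁻¹
        rw [map_mul, mul_inv_rev]
        calc y⁻¹ * x⁻¹ * (a x * a y) = y⁻¹ * (x⁻¹ * a x) * a y := by group
          _ = (x⁻¹ * a x) * y⁻¹ * a y := by rw [hc]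
          _ = _ := by group }
  have hf : f.ker = ⊤ := by
    rw [eq_top_iff]
    have h2 : commutator L ≤ f.ker := by
      letI : CommGroup (center L) := { (inferInstance : Group (center L)) with
        mul_comm := fun a b => Subtype.ext (mem_center_iff.1 b.2 a) }
      exact Abelianization.commutator_subset_ker f
    rw [hL.commutator_eq_top] at h2
    exact h2
  ext x
  have : x ∈ f.ker := by rw [hf]; trivial
  have h3 : x⁻¹ * a x = 1 := congrArg Subtype.val (MonoidHom.mem_ker.1 this)
  rw [MulAut.one_apply]
  exact (inv_mul_eq_one.1 h3).symm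

/-- A non-solvable finite group has order divisible by an odd prime different from `p`. -/
theorem exists_odd_prime {S : Type*} [Group S] [Finite S] (hS : ¬ Group.IsSolvable S) {p : ℕ} (hp : p.Prime) :
    ∃ s : ℕ, s.Prime ∧ s ≠ 2 ∧ s ≠ p ∧ s ∣ Nat.card S := by
  by_contra hcon
  push Not at hcon
  apply hS
  have hn : Nat.card S ≠ 0 := Nat.card_pos.ne'
  have hm : (Nat.card S / 2 ^ (Nat.card S).factorization 2) ≠ 0 := (Nat.ordCompl_pos 2 hn).ne'
  have h1 : Nat.card S / 2 ^ (Nat.card S).factorization 2 =
      p ^ (Nat.card S / 2 ^ (Nat.card S).factorization 2).primeFactorsList.length := by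
    apply Nat.eq_prime_pow_of_unique_prime_dvd hm
    intro d hd hdd
    by_contra hdp
    have hd2 : d ≠ 2 := by
      rintro rfl
      exact Nat.not_dvd_ordCompl Nat.prime_two hn hdd
    exact hcon d hd hd2 hdp (hdd.trans (Nat.ordCompl_dvd _ _))
  have h2 : Nat.card S = 2 ^ (Nat.card S).factorization 2 *
      p ^ (Nat.card S / 2 ^ (Nat.card S).factorization 2).primeFactorsList.length := by
    rw [← h1, Nat.mul_div_cancel' (Nat.ordProj_dvd _ _)]
  exact Cfsg.Agent.S0144.result 2 p _ _ Nat.prime_two hp h2

theorem quasisimple_quot_not_solvable {L : Type*} [Group L] (hL : IsQuasisimple L) :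
    ¬ Group.IsSolvable (L ⧸ center L) := by
  intro hs
  have h1 : Group.IsSolvable L := by
    have := hs
    have hc : Group.IsSolvable (center L) := by
      letI : CommGroup (center L) := { (inferInstance : Group (center L)) with
        mul_comm := fun a b => Subtype.ext (mem_center_iff.1 b.2 a) }
      infer_instance
    exact Group.isSolvable_of_ker_le_range (center L).subtype (QuotientGroup.mk' (center L)) (by
      rw [QuotientGroup.ker_mk', Subgroup.range_subtype])
  exact quasisimple_not_isSolvable hL h1

/-- The main dichotomy. -/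
theorem coreA {K : Type u} [Group K] [Finite K] {p r : ℕ} (hp : p.Prime) (hr : r.Prime) (hrp : r ≠ p) (hr2 : r ≠ 2)
    (hcyc : ∀ s : ℕ, s.Prime → s ≠ 2 → s ≠ p → ∀ P : Sylow s K, IsCyclic P)
    (y : K) (hy : orderOf y = r) (hF : y ∈ centralizer (fittingSubgroup K : Set K))
    (hout : ∀ L : Subgroup K, IsComponent L → ¬ r ∣ Nat.card (Cfsg.Out (↥L ⧸ center ↥L))) :
    (zpowers y).Normal ∨ ∃ L : Subgroup K, IsComponent L ∧ L.Normal ∧ y ∈ L ∧ y ∉ centralizer (L : Set K) ∧
      Nat.card K ∣ Nat.card (centralizer (L : Set K)) * Nat.card (MulAut (↥L ⧸ center ↥L)) := by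
  classical
  have hyr : y ^ r ^ 1 = 1 := by rw [pow_one, ← hy]; exact pow_orderOf_eq_one y
  -- commuting elements of order r
  have hcomm : ∀ z : K, orderOf z = r → Commute y z → zpowers y = zpowers z := by
    intro z hz hc
    refine zpowers_eq hr (hcyc r hr hr2 hrp) hc (hy.trans hz.symm) hyr (j := 1) ?_
    rw [pow_one, ← hz]; exact pow_orderOf_eq_one z
  by_cases hcase : ∀ L : Subgroup K, IsComponent L → y ∈ centralizer (L : Set K)
  · left
    have h1 : generalizedFittingSubgroup K ≤ centralizer ({y} : Set K) := by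
      refine sup_le ?_ ?_
      · rw [layer_le_iff]
        intro L hL x hx
        rw [mem_centralizer_singleton_iff]
        exact (mem_centralizer_iff.1 (hcase L hL) x hx)
      · intro x hx
        rw [mem_centralizer_singleton_iff]
        exact (mem_centralizer_iff.1 hF x hx)
    have h2 : y ∈ generalizedFittingSubgroup K := by
      apply Cfsg.Agent.S1265.result
      rw [mem_centralizer_iff]
      intro x hx
      exact mem_centralizer_singleton_iff.1 (h1 hx)
    haveI hN : (generalizedFittingSubgroup K).Normal := by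
      have hl : (layer K).Normal := layer_normal K
      have hf : (fittingSubgroup K).Normal := by
        constructor
        intro n hn g
        have : fittingSubgroup K ≤ (fittingSubgroup K).comap (MulAut.conj g).toMonoidHom := by
          apply sSup_le
          rintro M ⟨hM, hMn⟩ x hx
          rw [mem_comap]
          exact (le_sSup (show M ∈ {N : Subgroup K | N.Normal ∧ Group.IsNilpotent N} from ⟨hM, hMn⟩)) (hM.conj_mem x hx g)
        exact this hn
      exact Subgroup.sup_normal _ _
    constructor
    intro n hn k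
    obtain ⟨j, rfl⟩ := mem_zpowers_iff.1 hn
    have h3 : k * y * k⁻¹ ∈ generalizedFittingSubgroup K := hN.conj_mem y h2 k
    have h4 : Commute y (k * y * k⁻¹) := (mem_centralizer_singleton_iff.1 (h1 h3)).symm
    have h5 : orderOf (k * y * k⁻¹) = r := by
      rw [← hy]
      exact (MulAut.conj k).orderOf_eq y
    rw [hcomm _ h5 h4, ← conj_zpow]
    exact zpow_mem (mem_zpowers _) j
  · right
    push Not at hcase
    obtain ⟨L, hL, hyL⟩ := hcase
    have hLq : IsQuasisimple L := hL.2
    -- y normalises L
    have hnorm : L.map (MulAut.conj y).toMonoidHom = L := by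
      by_contra hne
      have hL' : IsComponent (L.map (MulAut.conj y).toMonoidHom) := isComponent_conj y hL
      obtain ⟨s, hs, hs2, hsp, hsd⟩ := exists_odd_prime (quasisimple_quot_not_solvable hLq) hp
      obtain ⟨a, haZ, i, hai⟩ := exists_s_element hs (center L) hsd
      have hc := component_le_centralizer_of_ne hL' hL hne
      have ha' : y * (a : K) * y⁻¹ ∈ L.map (MulAut.conj y).toMonoidHom := ⟨a, a.2, rfl⟩
      have hai' : (a : K) ^ s ^ i = 1 := by
        have := congrArg (Subtype.val) hai
        simpa using this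
      have hab : Commute (a : K) (y * (a : K) * y⁻¹) := (mem_centralizer_iff.1 (hc ha') a a.2)
      have ho : orderOf (a : K) = orderOf (y * (a : K) * y⁻¹) := ((MulAut.conj y).orderOf_eq (a : K)).symm
      have hz := zpowers_eq hs (hcyc s hs hs2 hsp) hab ho hai' (j := i) (by rw [conj_pow, hai']; group)
      have ha2 : (a : K) ∈ L.map (MulAut.conj y).toMonoidHom := by
        have : (a : K) ∈ zpowers (y * (a : K) * y⁻¹) := by rw [← hz]; exact mem_zpowers _
        exact (zpowers_le.2 ha') this
      apply haZ
      rw [mem_center_iff]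
      intro g
      apply Subtype.ext
      exact mem_centralizer_iff.1 (hc ha2) g g.2
    have hyN : y ∈ normalizer (L : Set K) := by
      rw [Subgroup.mem_normalizer_iff]
      intro h
      constructor
      · intro hh
        rw [← hnorm]; exact ⟨h, hh, rfl⟩
      · intro hh
        rw [← hnorm] at hh
        obtain ⟨h', hh', he⟩ := hh
        have : h' = h := by
          have he' : y * h' * y⁻¹ = y * h * y⁻¹ := he
          exact mul_left_cancel (mul_right_cancel he')
        rwa [← this]
    -- the automorphism of L/Z(L)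
    let φ : normalizer (L : Set K) →* MulAut (↥L ⧸ center ↥L) := (autQuot ↥L).comp (normalizerMonoidHom L)
    have hφ : ∀ x, φ x = 1 → (x : K) ∈ centralizer (L : Set K) := by
      intro x hx
      have h1 : normalizerMonoidHom L x = 1 := autQuot_injective (quasisimple_isPerfect hLq) (by rw [map_one]; exact hx)
      have h2 : x ∈ (normalizerMonoidHom L).ker := h1
      rw [normalizerMonoidHom_ker] at h2
      exact mem_subgroupOf.1 h2
    have hinn : φ ⟨y, hyN⟩ ∈ Inn (↥L ⧸ center ↥L) := by
      rw [← QuotientGroup.eq_one_iff]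
      have h1 : ((φ ⟨y, hyN⟩ : MulAut (↥L ⧸ center ↥L)) : Cfsg.Out (↥L ⧸ center ↥L)) ^ r = 1 := by
        rw [← QuotientGroup.mk_pow, ← map_pow]
        have : (⟨y, hyN⟩ : normalizer (L : Set K)) ^ r = 1 := by
          apply Subtype.ext
          rw [Subgroup.coe_pow, Subgroup.coe_one, ← hy]; exact pow_orderOf_eq_one y
        rw [this, map_one]; rfl
      have h2 := orderOf_dvd_of_pow_eq_one h1
      rcases (Nat.dvd_prime hr).1 h2 with h3 | h3
      · exact orderOf_eq_one_iff.1 h3
      · exfalso
        apply hout L hL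
        rw [← h3]
        exact orderOf_dvd_natCard _
    obtain ⟨gq, hgq⟩ := hinn
    obtain ⟨g, rfl⟩ := QuotientGroup.mk_surjective gq
    have hgN : (g : K) ∈ normalizer (L : Set K) := le_normalizer g.2
    have hφg : φ ⟨g, hgN⟩ = MulAut.conj (g : ↥L ⧸ center ↥L) := by
      ext x
      obtain ⟨x, rfl⟩ := QuotientGroup.mk_surjective x
      rfl
    have hcent : (g : K)⁻¹ * y ∈ centralizer (L : Set K) := by
      have := hφ (⟨g, hgN⟩⁻¹ * ⟨y, hyN⟩) (by rw [map_mul, map_inv, hφg, ← hgq]; exact inv_mul_cancel _)
      exact this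
    set c : K := (g : K)⁻¹ * y with hcdef
    have hyg : y = g * c := by rw [hcdef]; group
    have hgc : Commute (g : K) c := mem_centralizer_iff.1 hcent g g.2
    -- pass to the r-parts
    have hNK : Nat.card K ≠ 0 := Nat.card_pos.ne'
    set u : ℕ := Nat.card K / r ^ (Nat.card K).factorization r with hu
    have hcop : Nat.Coprime r u := (Nat.coprime_ordCompl hr hNK)
    obtain ⟨k, hk1, hk2⟩ := Nat.chineseRemainder hcop 1 0
    have hyk : y ^ k = y := by
      conv_rhs => rw [← pow_one y]
      rw [pow_eq_pow_iff_modEq, hy]; exact hk1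
    have huk : u ∣ k := (Nat.modEq_zero_iff_dvd.1 hk2)
    have hpow : ∀ x : K, (x ^ k) ^ r ^ (Nat.card K).factorization r = 1 := by
      intro x
      obtain ⟨t, ht⟩ := huk
      rw [← pow_mul]
      have : k * r ^ (Nat.card K).factorization r = Nat.card K * t := by
        rw [ht, hu]
        calc Nat.card K / r ^ (Nat.card K).factorization r * t * r ^ (Nat.card K).factorization r
            = (Nat.card K / r ^ (Nat.card K).factorization r * r ^ (Nat.card K).factorization r) * t := by ring
          _ = _ := by rw [Nat.div_mul_cancel (Nat.ordProj_dvd _ _)]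
      rw [this, pow_mul, pow_card_eq_one', one_pow]
    have hyk' : y = (g : K) ^ k * c ^ k := by
      rw [← hgc.mul_pow, ← hyg]; exact hyk.symm
    have hg1 : (g : K) ^ k ≠ 1 := by
      intro h1
      rw [h1, one_mul] at hyk'
      apply hyL
      rw [hyk']
      exact pow_mem hcent k
    -- an element of order r in <g^k>
    have hmem : y ∈ L := by
      have hne : orderOf ((g : K) ^ k) ≠ 1 := by
        intro h; exact hg1 (orderOf_eq_one_iff.1 h)
      have hdr : r ∣ orderOf ((g : K) ^ k) := by
        have h1 := orderOf_dvd_of_pow_eq_one (hpow g)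
        obtain ⟨j, hj, hj'⟩ := (Nat.dvd_prime_pow hr).1 h1
        rw [hj']
        refine dvd_pow_self r ?_
        rintro rfl
        rw [pow_zero] at hj'
        exact hne hj'
      set g2 : K := ((g : K) ^ k) ^ (orderOf ((g : K) ^ k) / r) with hg2
      have hg2o : orderOf g2 = r := by
        rw [hg2, orderOf_pow_of_dvd ?_ (Nat.div_dvd_of_dvd hdr)]
        · exact Nat.div_div_self hdr (orderOf_pos _).ne'
        · exact (Nat.div_pos (Nat.le_of_dvd (orderOf_pos _) hdr) hr.pos).ne'
      have hcg : Commute y g2 := by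
        rw [hg2, hyg]
        apply Commute.pow_right
        apply Commute.pow_right
        exact (Commute.refl _).mul_left hgc.symm
      have hzz := hcomm g2 hg2o hcg
      have hg2L : g2 ∈ L := pow_mem (pow_mem g.2 k) _
      exact (zpowers_le.2 hg2L) (by rw [← hzz]; exact mem_zpowers y)
    -- L is normal
    have hLn : L.Normal := by
      constructor
      intro n hn x
      by_contra hne
      have hne' : L.map (MulAut.conj x).toMonoidHom ≠ L := by
        intro h; apply hne; rw [← h]; exact ⟨n, hn, rfl⟩
      have hc := component_le_centralizer_of_ne (isComponent_conj x hL) hL hne'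
      have hx' : x * y * x⁻¹ ∈ L.map (MulAut.conj x).toMonoidHom := ⟨y, hmem, rfl⟩
      have hcm : Commute y (x * y * x⁻¹) := mem_centralizer_iff.1 (hc hx') y hmem
      have hz := hcomm (x * y * x⁻¹) (by rw [← hy]; exact (MulAut.conj x).orderOf_eq y) hcm
      have : y ∈ L.map (MulAut.conj x).toMonoidHom := (zpowers_le.2 hx') (by rw [← hz]; exact mem_zpowers y)
      exact hyL (hc this)
    refine ⟨L, hL, hLn, hmem, hyL, ?_⟩
    -- count
    have htop : normalizer (L : Set K) = ⊤ := Subgroup.normalizer_eq_top_iff.2 hLn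
    let e : K →* normalizer (L : Set K) :=
      { toFun := fun x => ⟨x, by rw [htop]; trivial⟩
        map_one' := rfl
        map_mul' := fun _ _ => rfl }
    let ψ : K →* MulAut (↥L ⧸ center ↥L) := φ.comp e
    have hker : ψ.ker ≤ centralizer (L : Set K) := fun x hx => hφ (e x) (MonoidHom.mem_ker.1 hx)
    have h1 : Nat.card K = Nat.card ψ.ker * Nat.card ψ.range := by
      rw [← Subgroup.card_mul_index ψ.ker, Subgroup.index_ker]
    rw [h1]
    exact Nat.mul_dvd_mul (Subgroup.card_dvd_of_le hker) (Subgroup.card_subgroup_dvd_card _)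

/-- Two subgroups of prime order `r` are conjugate if the Sylow `r`-subgroups are cyclic. -/
theorem conj_of_cyclic {L : Type*} [Group L] [Finite L] {r : ℕ} (hr : r.Prime) (hcyc : ∀ P : Sylow r L, IsCyclic P)
    {a b : L} (ha : orderOf a = r) (hb : orderOf b = r) : ∃ g : L, zpowers (g * b * g⁻¹) = zpowers a := by
  have := Fact.mk hr
  have hpg : ∀ x : L, orderOf x = r → IsPGroup r (zpowers x) := fun x hx => by
    rw [IsPGroup.iff_card]
    exact ⟨1, by rw [Nat.card_zpowers, hx, pow_one]⟩
  obtain ⟨P, hP⟩ := (hpg a ha).exists_le_sylow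
  obtain ⟨Q, hQ⟩ := (hpg b hb).exists_le_sylow
  obtain ⟨g, hg⟩ := MulAction.exists_smul_eq L Q P
  have h1 : g * b * g⁻¹ ∈ P := by
    rw [← hg]
    exact Subgroup.smul_mem_pointwise_smul b (MulAut.conj g) (Q : Subgroup L) (hQ (mem_zpowers b))
  have h2 : orderOf (g * b * g⁻¹) = r := by
    rw [← hb]; exact (MulAut.conj g).orderOf_eq b
  exact ⟨g, zpowers_eq_of_cyclic (hcyc P) h1 (hP (mem_zpowers a)) (h2.trans ha.symm)⟩

/-- Frattini argument: the `p`-part of `K` is at most that of `L/Z(L)` times that of the normalizer of `⟨y⟩`. -/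
theorem frattini_fac {K : Type u} [Group K] [Finite K] {p r : ℕ} (hr : r.Prime)
    (hcyc : ∀ P : Sylow r K, IsCyclic P) (L : Subgroup K) (hL : L.Normal) {y : K} (hy : orderOf y = r) (hyL : y ∈ L)
    {c : ℕ} (hc : (Nat.card (normalizer (zpowers y : Set K))).factorization p ≤ c) :
    (Nat.card K).factorization p ≤ c + (Nat.card (↥L ⧸ center ↥L)).factorization p := by
  set N : Subgroup K := normalizer (zpowers y : Set K) with hN
  have hcL : ∀ P : Sylow r L, IsCyclic P := by
    intro P
    obtain ⟨Q, hQ⟩ := Sylow.exists_comap_subtype_eq P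
    have hle : (P : Subgroup L).map L.subtype ≤ Q := by
      rw [map_le_iff_le_comap]; rw [hQ]
    have := hcyc Q
    have h1 : IsCyclic ((P : Subgroup L).map L.subtype) := isCyclic_of_injective (inclusion hle) (inclusion_injective hle)
    exact isCyclic_of_injective ((P : Subgroup L).equivMapOfInjective L.subtype L.subtype_injective).toMonoidHom
      (MulEquiv.injective _)
  have hsup : L ⊔ N = ⊤ := by
    rw [eq_top_iff]
    intro k _
    have h1 : k * y * k⁻¹ ∈ L := hL.conj_mem y hyL k
    obtain ⟨g, hg⟩ := conj_of_cyclic hr hcL (a := ⟨y, hyL⟩) (b := ⟨k * y * k⁻¹, h1⟩)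
      (by rw [Subgroup.orderOf_mk]; exact hy)
      (by rw [Subgroup.orderOf_mk, ← hy]; exact (MulAut.conj k).orderOf_eq y)
    have h2 := congrArg (Subgroup.map L.subtype) hg
    rw [MonoidHom.map_zpowers, MonoidHom.map_zpowers] at h2
    have h3 : (g : K) * k ∈ N := by
      rw [hN, Subgroup.mem_normalizer_iff]
      have hz : zpowers ((g : K) * k * y * ((g : K) * k)⁻¹) = zpowers y := by
        rw [← show (L.subtype (g * ⟨k * y * k⁻¹, h1⟩ * g⁻¹) : K) = (g : K) * k * y * ((g : K) * k)⁻¹ by
          simp [mul_assoc]]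
        exact h2
      intro h
      constructor
      · intro hh
        obtain ⟨j, rfl⟩ := mem_zpowers_iff.1 hh
        rw [← conj_zpow]
        apply zpow_mem
        show _ ∈ zpowers y
        rw [← hz]; exact mem_zpowers _
      · intro hh
        have hh' : (g : K) * k * h * ((g : K) * k)⁻¹ ∈ zpowers y := hh
        rw [← hz] at hh'
        obtain ⟨j, hj⟩ := mem_zpowers_iff.1 hh'
        rw [conj_zpow] at hj
        have := mul_left_cancel (mul_right_cancel hj)
        rw [← this]; exact zpow_mem (mem_zpowers y) j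
    have h4 : k = ((g : K)⁻¹) * ((g : K) * k) := by group
    rw [h4]
    exact Subgroup.mul_mem_sup (L.inv_mem g.2) h3
  have h1 : Nat.card K * Nat.card (L ⊓ N : Subgroup K) = Nat.card L * Nat.card N := by
    have h2 : L.relIndex (N ⊔ L) = L.relIndex N := Subgroup.relIndex_sup_right N L
    rw [sup_comm, hsup, Subgroup.relIndex_top_right] at h2
    have h3 : Nat.card L * L.index = Nat.card K := L.card_mul_index
    have h4 : Nat.card (L.subgroupOf N) * L.relIndex N = Nat.card N := Subgroup.card_mul_index _
    have h5 : Nat.card (L.subgroupOf N) = Nat.card (L ⊓ N : Subgroup K) := by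
      rw [← Subgroup.inf_subgroupOf_right L N]
      exact Nat.card_congr (Subgroup.subgroupOfEquivOfLe (inf_le_right : L ⊓ N ≤ N)).toEquiv
    rw [← h3, ← h4, ← h5, h2]; ring
  have h2 : Nat.card L = Nat.card (↥L ⧸ center ↥L) * Nat.card (center ↥L) := Subgroup.card_eq_card_quotient_mul_card_subgroup _
  have h3 : Nat.card (center ↥L) ∣ Nat.card (L ⊓ N : Subgroup K) := by
    have hle : (center ↥L).map L.subtype ≤ L ⊓ N := by
      rintro _ ⟨z, hz, rfl⟩
      refine ⟨z.2, ?_⟩
      have hzc : Commute (z : K) y := by
        have := mem_center_iff.1 hz ⟨y, hyL⟩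
        exact (congrArg Subtype.val this).symm
      have : (z : K) ∈ centralizer (zpowers y : Set K) := by
        rw [mem_centralizer_iff]
        intro h hh
        obtain ⟨j, rfl⟩ := mem_zpowers_iff.1 hh
        exact ((hzc.zpow_right j).eq).symm
      exact centralizer_le_normalizer _ this
    have := Subgroup.card_dvd_of_le hle
    rwa [Subgroup.card_map_of_injective L.subtype_injective] at this
  obtain ⟨m, hm⟩ := h3
  have hm0 : m ≠ 0 := by
    rintro rfl; rw [mul_zero] at hm; exact (Nat.card_pos (α := (L ⊓ N : Subgroup K))).ne' hm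
  have h4 : Nat.card K * m = Nat.card (↥L ⧸ center ↥L) * Nat.card N := by
    have h0 : 0 < Nat.card (center ↥L) := Nat.card_pos
    apply Nat.eq_of_mul_eq_mul_right h0
    rw [mul_assoc, mul_comm m, ← hm, h1, h2]; ring
  have h5 : (Nat.card K * m).factorization p = (Nat.card (↥L ⧸ center ↥L) * Nat.card N).factorization p := by rw [h4]
  rw [Nat.factorization_mul Nat.card_pos.ne' hm0, Nat.factorization_mul Nat.card_pos.ne' Nat.card_pos.ne',
    Finsupp.add_apply, Finsupp.add_apply] at h5
  omega

end Cfsg.Agent.H997.Rg
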