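import Cfsg.Agent.H997.Rg.Str

/-!
# Residual cases with an irreducible element of prime order (helper997; S3691)
-/

set_option autoImplicit false

open Subgroup Cfsg

namespace Cfsg.Agent.H997.Rg

universe u

section lin

variable {F V K : Type*} [Field F] [AddCommGroup V] [Module F V] [Group K]
variable {p : ℕ} {ρ : K →* Module.End F V}

/-- restriction to an invariant subspace -/
def resW (ρ : K →* Module.End F V) (W : Submodule F V) (hW : ∀ g, ∀ w ∈ W, ρ g w ∈ W) : K →* Module.End F W where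
  toFun g := (ρ g).restrict (hW g)
  map_one' := by
    ext w
    change ρ 1 (w : V) = w
    rw [map_one]; rfl
  map_mul' g h := by
    ext w
    change ρ (g * h) (w : V) = ρ g (ρ h w)
    rw [map_mul]; rfl

theorem resW_apply (W : Submodule F V) (hW : ∀ g, ∀ w ∈ W, ρ g w ∈ W) (g : K) (w : W) :
    ((resW ρ W hW g w : W) : V) = ρ g w := rfl

theorem Fpf.resW (h : Fpf p ρ) (W : Submodule F V) (hW : ∀ g, ∀ w ∈ W, ρ g w ∈ W) : Fpf p (resW ρ W hW) := by
  intro g hg hgp w hw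
  have h1 : ρ g (w : V) = w := congrArg Subtype.val hw
  exact Subtype.ext (h g hg hgp w h1)

theorem Fpf.comp (h : Fpf p ρ) (H : Subgroup K) : Fpf p (ρ.comp H.subtype) := by
  intro g hg hgp v hv
  exact h (g : K) (by rw [Subgroup.orderOf_coe]; exact hg) (by rw [Subgroup.orderOf_coe]; exact hgp) v hv

theorem pow_mem_of {y : K} {U : Submodule F V} (hU : ∀ u ∈ U, ρ y u ∈ U) (n : ℕ) : ∀ u ∈ U, ρ (y ^ n) u ∈ U := by
  induction n with
  | zero => intro u hu; rw [pow_zero, map_one]; exact hu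
  | succ n ih =>
    intro u hu
    rw [pow_succ, map_mul]
    exact ih _ (hU u hu)

/-- the dimension of a `y`-invariant subspace is `0` or at least the order of `|F|` modulo `r` -/
theorem Fpf.le_finrank [Finite K] [Finite F] [CharP F p] [FiniteDimensional F V] (h : Fpf p ρ) (hp : p.Prime)
    {y : K} {r : ℕ} (hr : r.Prime) (hrp : r ≠ p) (hy : orderOf y = r) (U : Submodule F V)
    (hU : ∀ u ∈ U, ρ y u ∈ U) (hU0 : U ≠ ⊥) :
    ∃ D : ℕ, 0 < D ∧ D ≤ Module.finrank F U ∧ orderOf ((Nat.card F : ℕ) : ZMod r) ∣ D := by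
  have hnt : Nontrivial U := (Submodule.nontrivial_iff_ne_bot).2 hU0
  have hU' : ∀ g : zpowers y, ∀ u ∈ U, (ρ.comp (zpowers y).subtype) g u ∈ U := by
    rintro ⟨g, hg⟩ u hu
    obtain ⟨n, hn⟩ := (isOfFinOrder_of_finite y).mem_powers_iff_mem_zpowers.2 hg
    have hn' : y ^ n = g := hn
    change ρ g u ∈ U
    rw [← hn']
    exact pow_mem_of hU n u hu
  have h1 := (h.comp (zpowers y)).resW U hU'
  obtain ⟨D, hD0, hD1, _, hD2⟩ := h1.nc_dvd hp (y := ⟨y, Subgroup.mem_zpowers y⟩) hr hrp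
    (by rw [Subgroup.orderOf_mk]; exact hy)
  exact ⟨D, hD0, hD1, hD2⟩

/-- `y` is irreducible if `dim V` is the order of `|F|` modulo `r` -/
theorem Fpf.irr [Finite K] [Finite F] [CharP F p] [FiniteDimensional F V] (h : Fpf p ρ) (hp : p.Prime)
    {y : K} {r : ℕ} (hr : r.Prime) (hrp : r ≠ p) (hy : orderOf y = r)
    (hord : orderOf ((Nat.card F : ℕ) : ZMod r) = Module.finrank F V) (U : Submodule F V)
    (hU : ∀ u ∈ U, ρ y u ∈ U) : U = ⊥ ∨ U = ⊤ := by
  by_cases hU0 : U = ⊥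
  · exact Or.inl hU0
  right
  obtain ⟨D, hD0, hD1, hD2⟩ := h.le_finrank hp hr hrp hy U hU hU0
  have h1 := Nat.le_of_dvd hD0 hD2
  rw [hord] at h1
  exact Submodule.eq_top_of_finrank_eq (le_antisymm (Submodule.finrank_le U) (h1.trans hD1))

/-- fixed vectors of a `p`-subgroup -/
def fixW (ρ : K →* Module.End F V) (A : Subgroup K) : Submodule F V where
  carrier := {v | ∀ a ∈ A, ρ a v = v}
  zero_mem' := fun a _ => map_zero _
  add_mem' := fun {v w} hv hw a ha => by rw [map_add, hv a ha, hw a ha]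
  smul_mem' := fun c v hv a ha => by rw [map_smul, hv a ha]

theorem mem_fixW {A : Subgroup K} {v : V} : v ∈ fixW ρ A ↔ ∀ a ∈ A, ρ a v = v := Iff.rfl

theorem fixW_ne_bot [Finite V] [CharP F p] [Nontrivial V] (hp : p.Prime) (A : Subgroup K)
    (hA : IsPGroup p A) : fixW ρ A ≠ ⊥ := by
  classical
  have := Fact.mk hp
  letI : MulAction A V :=
    { smul := fun a v => ρ a v
      one_smul := fun v => by change ρ ((1 : A) : K) v = v; rw [Subgroup.coe_one, map_one]; rfl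
      mul_smul := fun a b v => by change ρ ((a * b : A) : K) v = ρ a (ρ b v); rw [Subgroup.coe_mul, map_mul]; rfl }
  have h0 : (0 : V) ∈ MulAction.fixedPoints A V := fun a => map_zero _
  have hpV : p ∣ Nat.card V := by
    obtain ⟨v, hv⟩ := exists_ne (0 : V)
    have h1 : addOrderOf v = p := by
      apply addOrderOf_eq_prime
      · rw [← Nat.cast_smul_eq_nsmul F, CharP.cast_eq_zero, zero_smul]
      · exact hv
    rw [← h1]
    exact addOrderOf_dvd_natCard v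
  obtain ⟨v, hv, hv0⟩ := hA.exists_fixed_point_of_prime_dvd_card_of_fixed_point V hpV h0
  intro hbot
  have h1 : v ∈ fixW ρ A := fun a ha => hv ⟨a, ha⟩
  rw [hbot, Submodule.mem_bot] at h1
  exact hv0 h1.symm

theorem fixW_inv {A : Subgroup K} {y : K} (hyA : ∀ a ∈ A, y⁻¹ * a * y ∈ A) : ∀ v ∈ fixW ρ A, ρ y v ∈ fixW ρ A := by
  intro v hv a ha
  have h1 := hv _ (hyA a ha)
  have h2 : ρ a (ρ y v) = ρ y (ρ (y⁻¹ * a * y) v) := by
    rw [← Module.End.mul_apply, ← Module.End.mul_apply, ← map_mul, ← map_mul]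
    congr 2; group
  rw [h2, h1]

/-- an irreducible element normalizes no nontrivial `p`-subgroup -/
theorem irr_bot [Finite V] [CharP F p] [Nontrivial V] (hp : p.Prime) (hinj : Function.Injective ρ) {y : K}
    (hirr : ∀ U : Submodule F V, (∀ u ∈ U, ρ y u ∈ U) → U = ⊥ ∨ U = ⊤) (A : Subgroup K)
    (hA : IsPGroup p A) (hyA : ∀ a ∈ A, y⁻¹ * a * y ∈ A) : A = ⊥ := by
  rcases hirr (fixW ρ A) (fixW_inv hyA) with h | h
  · exact absurd h (fixW_ne_bot hp A hA)
  · rw [Subgroup.eq_bot_iff_forall]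
    intro a ha
    apply hinj
    rw [map_one]
    ext v
    have : v ∈ fixW ρ A := by rw [h]; trivial
    exact this a ha

theorem irr_cent [Finite K] [Finite V] [CharP F p] [Nontrivial V] (hp : p.Prime) (hinj : Function.Injective ρ) {y : K}
    (hirr : ∀ U : Submodule F V, (∀ u ∈ U, ρ y u ∈ U) → U = ⊥ ∨ U = ⊤) :
    ¬ p ∣ Nat.card (centralizer ({y} : Set K)) := by
  have := Fact.mk hp
  intro hd
  obtain ⟨g, hg⟩ := exists_prime_orderOf_dvd_card' (G := centralizer ({y} : Set K)) p hd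
  have hgo : orderOf (g : K) = p := by rw [Subgroup.orderOf_coe]; exact hg
  have hgy : Commute (g : K) y := (mem_centralizer_singleton_iff.1 g.2)
  have hpg : IsPGroup p (zpowers (g : K)) := by
    rw [IsPGroup.iff_card]
    exact ⟨1, by rw [Nat.card_zpowers, hgo, pow_one]⟩
  have h1 := irr_bot hp hinj hirr (zpowers (g : K)) hpg (by
    intro a ha
    obtain ⟨i, rfl⟩ := mem_zpowers_iff.1 ha
    have : y⁻¹ * (g : K) ^ i * y = (g : K) ^ i := by
      have h2 : Commute ((g : K) ^ i) y := hgy.zpow_left i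
      rw [mul_assoc, h2.eq]; group
    rw [this]
    exact ha)
  have h2 : (g : K) = 1 := by
    have h3 := Subgroup.mem_zpowers (g : K)
    rwa [h1, mem_bot] at h3
  rw [h2, orderOf_one] at hgo
  exact hp.one_lt.ne hgo

end lin

/-- **Residual case with an irreducible element.** -/
theorem res_irr (hJ : OutJ1.{u}) {K : Type u} [Group K] [Finite K] {F V : Type*} [Field F] [Finite F] [AddCommGroup V]
    [Module F V] [FiniteDimensional F V] [Nontrivial V] {p r : ℕ} [CharP F p] (ρ : K →* Module.End F V)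
    (hinj : Function.Injective ρ) (hp : p.Prime) (h : Fpf p ρ) (hr : r.Prime) (hr5 : 5 ≤ r) (hrp : r ≠ p)
    (hord : orderOf ((Nat.card F : ℕ) : ZMod r) = Module.finrank F V) (hrK : r ∣ Nat.card K)
    (hv : (Nat.card K).factorization p < r)
    (hA0 : (Module.finrank F V).factorization p < (Nat.card K).factorization p)
    (hA1 : r ≤ 2 * Module.finrank F V + 1 →
      p ^ (Module.finrank F V).factorization p * (2 * Module.finrank F V + 2) < p ^ (Nat.card K).factorization p)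
    (hA2 : r ≤ 19 → p ^ (Module.finrank F V).factorization p * 9 < p ^ (Nat.card K).factorization p)
    (hB : ∀ b : ℕ, r ∣ (p ^ b) ^ 2 - 1 → (p ^ b) ^ 2 - 1 ≤ 2 * (Nat.card K / p ^ (Nat.card K).factorization p) →
      (Module.finrank F V).factorization p + b < (Nat.card K).factorization p)
    (hC : p = 2 → ∀ b : ℕ, r ∣ ((2 ^ b) ^ 2 + 1) * (2 ^ b - 1) →
      ((2 ^ b) ^ 2 + 1) * (2 ^ b - 1) ≤ Nat.card K / p ^ (Nat.card K).factorization p →
      (Module.finrank F V).factorization p + 2 * b < (Nat.card K).factorization p) : False := by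
  have := Fact.mk hr
  have := Fact.mk hp
  have hfV : Finite V := Module.finite_of_finite F
  set n := Module.finrank F V with hn
  have hn0 : n ≠ 0 := (Module.finrank_pos (R := F) (M := V)).ne'
  have hK0 : Nat.card K ≠ 0 := Nat.card_pos.ne'
  set v := (Nat.card K).factorization p with hv'
  set M := Nat.card K / p ^ v with hM
  have hM0 : 0 < M := Nat.ordCompl_pos p hK0
  obtain ⟨y, hy⟩ := exists_prime_orderOf_dvd_card' (G := K) r hrK
  have hirr := fun U hU => h.irr hp hr hrp hy hord U hU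
  have hKc : Cyc p K := by
    refine ⟨fun s hs hs2 hsp P => h.cyc hp hs hs2 hsp P, ?_⟩
    by_cases h2 : p = 2
    · exact Or.inl h2
    · exact Or.inr fun a b hab ha hb => h.inv hp h2 a b hab ha hb
  have hOp : pCore p K = ⊥ := by
    apply irr_bot hp hinj (y := y) hirr _ (Cfsg.Agent.Lib.Cores.pCore_isPGroup p)
    intro a ha
    have := (Cfsg.Agent.Lib.Cores.pCore_normal (G := K) p).conj_mem a ha y⁻¹
    rwa [inv_inv] at this
  have hF := h.fit hp hr hr5 hrp hy (by rw [hOp]; intro a ha; rw [mem_bot.1 ha]; exact Commute.one_right y)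
  have hnc : nc y ∣ n := by
    obtain ⟨D, hD0, hD1, hD2, hD3⟩ := h.nc_dvd hp hr hrp hy
    rw [hord] at hD3
    have h1 : D = n := le_antisymm hD1 (Nat.le_of_dvd hD0 hD3)
    rwa [h1] at hD2
  have hN : (Nat.card (normalizer (zpowers y : Set K))).factorization p ≤ n.factorization p := by
    rw [card_nc, Nat.factorization_mul Nat.card_pos.ne' (nc_pos y).ne', Finsupp.add_apply,
      Nat.factorization_eq_zero_of_not_dvd (irr_cent hp hinj hirr), zero_add]
    exact fac_le hnc hn0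
  have hres := coreF hp hr hrp (by omega) hKc (d := n) (fun u hu hup => h.nc_le hu hup rfl) y hy hF
    (hout_of hJ hp hr (by omega) hKc hv) hN
  have hpow : ∀ {a b : ℕ}, p ^ a ≤ p ^ b → a ≤ b := fun h => (Nat.pow_le_pow_iff_right hp.one_lt).1 h
  rcases hres with h1 | ⟨l, hl, hl5, hld, hrl, hpl⟩ | ⟨h2, hr19, h3⟩ | ⟨h2, hr7, h3⟩ | ⟨b, hb1, hb4, hvb, hdM, hrb, _⟩ |
      ⟨h2, b, hbo, hb3, hvb, hdM, hrb, _⟩
  · omega
  · have h1 : p ^ n.factorization p * (2 * n + 2) < p ^ v := hA1 (hrl.trans hld)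
    have h2 : p ^ n.factorization p * (l + 1) ≤ p ^ n.factorization p * (2 * n + 2) := Nat.mul_le_mul le_rfl (by omega)
    exact absurd (hpl.trans h2) (not_le.2 h1)
  · have h1 : p ^ n.factorization p * 9 < p ^ v := hA2 hr19
    have h4 : p ^ v ≤ p ^ n.factorization p * 9 := by
      calc p ^ v ≤ p ^ (n.factorization p + 3) := Nat.pow_le_pow_right hp.pos h3
        _ = p ^ n.factorization p * 8 := by rw [pow_add, h2]; norm_num
        _ ≤ _ := Nat.mul_le_mul le_rfl (by norm_num)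
    exact absurd h4 (not_le.2 h1)
  · have h1 : p ^ n.factorization p * 9 < p ^ v := hA2 (hr7.trans (by norm_num))
    exact absurd h3 (not_le.2 h1)
  · have h1 := hB b hrb (Nat.le_of_dvd (by omega) hdM)
    omega
  · have h1 := hC h2 b hrb (Nat.le_of_dvd hM0 hdM)
    omega

/-! ### Numbers -/

theorem orderOf_dvd_of_dvd {p r k : ℕ} (hp : p.Prime) (h : r ∣ p ^ k - 1) : orderOf (p : ZMod r) ∣ k := by
  apply orderOf_dvd_of_pow_eq_one
  have h1 : 1 ≤ p ^ k := Nat.one_le_pow _ _ hp.pos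
  have h2 := (Nat.modEq_iff_dvd' h1).2 h
  have h3 := (ZMod.natCast_eq_natCast_iff _ _ _).2 h2
  push_cast at h3
  exact h3.symm

/-- arithmetic in the "minus" case -/
theorem minus_B {p r e C b M : ℕ} (hp : p.Prime) (ha : orderOf (p : ZMod r) = 2 * e) (hQ : (C + 1) ^ 2 < p ^ e)
    (hM : M ≤ C * (p ^ e + 1)) (hrb : r ∣ (p ^ b) ^ 2 - 1) (hb : (p ^ b) ^ 2 - 1 ≤ 2 * M) : b = 0 := by
  by_contra hb0
  rw [← pow_mul] at hrb
  have h1 := orderOf_dvd_of_dvd hp hrb
  rw [ha, mul_comm b 2] at h1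
  have h2 : e ∣ b := Nat.dvd_of_mul_dvd_mul_left two_pos h1
  have h3 : e ≤ b := Nat.le_of_dvd (Nat.pos_of_ne_zero hb0) h2
  have h4 : p ^ e ≤ p ^ b := Nat.pow_le_pow_right hp.pos h3
  have h5 : (p ^ e) ^ 2 ≤ (p ^ b) ^ 2 := Nat.pow_le_pow_left h4 2
  have h6 : (p ^ e) ^ 2 ≤ 2 * (C * (p ^ e + 1)) + 1 := by omega
  nlinarith [h6, hQ, sq_nonneg C]

theorem minus_C {r e C b M : ℕ} (ha : orderOf ((2 : ℕ) : ZMod r) = 2 * e) (hQ : (C + 1) ^ 2 < 2 ^ e)
    (hM : M ≤ C * (2 ^ e + 1)) (hrb : r ∣ ((2 ^ b) ^ 2 + 1) * (2 ^ b - 1))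
    (hb : ((2 ^ b) ^ 2 + 1) * (2 ^ b - 1) ≤ M) : b = 0 := by
  by_contra hb0
  have h1' : 1 ≤ 2 ^ b := Nat.one_le_two_pow
  have h0 : (2 ^ b) ^ 2 - 1 = (2 ^ b + 1) * (2 ^ b - 1) := by
    have := Nat.sq_sub_sq (2 ^ b) 1
    rwa [one_pow] at this
  have h0' : 2 ^ (b * 4) - 1 = ((2 ^ b) ^ 2 + 1) * ((2 ^ b) ^ 2 - 1) := by
    have := Nat.sq_sub_sq ((2 ^ b) ^ 2) 1
    rw [one_pow] at this
    rw [show b * 4 = b * 2 * 2 by ring, pow_mul, pow_mul, this]
  have h1 : r ∣ 2 ^ (b * 4) - 1 := by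
    rw [h0', h0]
    refine hrb.trans ?_
    exact ⟨2 ^ b + 1, by ring⟩
  have h2 := orderOf_dvd_of_dvd Nat.prime_two h1
  rw [ha] at h2
  have h3 : e ∣ b * 2 := by
    obtain ⟨k, hk⟩ := h2
    exact ⟨k, by nlinarith⟩
  have h4 : e ≤ b * 2 := Nat.le_of_dvd (by omega) h3
  have h5 : 2 ^ e ≤ (2 ^ b) ^ 2 := by rw [← pow_mul]; exact Nat.pow_le_pow_right two_pos h4
  have h6 : C + 1 < 2 ^ b := lt_of_pow_lt_pow_left₀ 2 (by positivity) (lt_of_lt_of_le hQ h5)
  obtain ⟨t, ht⟩ : ∃ t, 2 ^ b - 1 = t := ⟨_, rfl⟩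
  rw [ht] at hb
  have h7 : C < t := by omega
  have h8 : (2 ^ e + 1) * t ≤ ((2 ^ b) ^ 2 + 1) * t := Nat.mul_le_mul_right _ (by omega)
  have h9 : (2 ^ e + 1) * t ≤ C * (2 ^ e + 1) := h8.trans (hb.trans hM)
  have h10 : (2 ^ e + 1) * t ≤ (2 ^ e + 1) * C := by rwa [mul_comm C] at h9
  have := Nat.le_of_mul_le_mul_left h10 (by positivity)
  omega

/-- arithmetic in the "plus" case -/
theorem plus_B {p r e C b M : ℕ} (hp : p.Prime) (ha : orderOf (p : ZMod r) = e) (hQ : (C + 1) ^ 2 < p ^ e)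
    (hM : M ≤ C * (p ^ e + 1)) (hrb : r ∣ (p ^ b) ^ 2 - 1) (hb : (p ^ b) ^ 2 - 1 ≤ 2 * M) : 2 * b ≤ e := by
  by_contra hb0
  rw [← pow_mul] at hrb
  have h1 := orderOf_dvd_of_dvd hp hrb
  rw [ha] at h1
  obtain ⟨k, hk⟩ := h1
  have hk2 : 2 ≤ k := by
    by_contra hk2
    have : k = 0 ∨ k = 1 := by omega
    rcases this with rfl | rfl <;> omega
  have h3 : e ≤ b := by nlinarith
  have h4 : p ^ e ≤ p ^ b := Nat.pow_le_pow_right hp.pos h3
  have h5 : (p ^ e) ^ 2 ≤ (p ^ b) ^ 2 := Nat.pow_le_pow_left h4 2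
  have h6 : (p ^ e) ^ 2 ≤ 2 * (C * (p ^ e + 1)) + 1 := by omega
  nlinarith [h6, hQ, sq_nonneg C]

theorem plus_C {r e C b M : ℕ} (ha : orderOf ((2 : ℕ) : ZMod r) = e) (hQ : (C + 1) ^ 2 < 2 ^ e)
    (hM : M ≤ C * (2 ^ e + 1)) (hrb : r ∣ ((2 ^ b) ^ 2 + 1) * (2 ^ b - 1))
    (hb : ((2 ^ b) ^ 2 + 1) * (2 ^ b - 1) ≤ M) : 4 * b ≤ e := by
  by_contra hb0
  have h1' : 1 ≤ 2 ^ b := Nat.one_le_two_pow
  have h0 : (2 ^ b) ^ 2 - 1 = (2 ^ b + 1) * (2 ^ b - 1) := by
    have := Nat.sq_sub_sq (2 ^ b) 1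
    rwa [one_pow] at this
  have h0' : 2 ^ (b * 4) - 1 = ((2 ^ b) ^ 2 + 1) * ((2 ^ b) ^ 2 - 1) := by
    have := Nat.sq_sub_sq ((2 ^ b) ^ 2) 1
    rw [one_pow] at this
    rw [show b * 4 = b * 2 * 2 by ring, pow_mul, pow_mul, this]
  have h1 : r ∣ 2 ^ (b * 4) - 1 := by
    rw [h0', h0]
    refine hrb.trans ?_
    exact ⟨2 ^ b + 1, by ring⟩
  have h2 := orderOf_dvd_of_dvd Nat.prime_two h1
  rw [ha] at h2
  obtain ⟨k, hk⟩ := h2
  have hk2 : 2 ≤ k := by
    by_contra hk2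
    have : k = 0 ∨ k = 1 := by omega
    rcases this with rfl | rfl <;> omega
  have h4 : e ≤ b * 2 := by nlinarith
  have h5 : 2 ^ e ≤ (2 ^ b) ^ 2 := by rw [← pow_mul]; exact Nat.pow_le_pow_right two_pos h4
  have h6 : C + 1 < 2 ^ b := lt_of_pow_lt_pow_left₀ 2 (by positivity) (lt_of_lt_of_le hQ h5)
  obtain ⟨t, ht⟩ : ∃ t, 2 ^ b - 1 = t := ⟨_, rfl⟩
  rw [ht] at hb
  have h7 : C < t := by omega
  have h8 : (2 ^ e + 1) * t ≤ ((2 ^ b) ^ 2 + 1) * t := Nat.mul_le_mul_right _ (by omega)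
  have h9 : (2 ^ e + 1) * t ≤ C * (2 ^ e + 1) := h8.trans (hb.trans hM)
  have h10 : (2 ^ e + 1) * t ≤ (2 ^ e + 1) * C := by rwa [mul_comm C] at h9
  have := Nat.le_of_mul_le_mul_left h10 (by positivity)
  omega

/-- lower bound for `r` -/
theorem lt_of_orderOf {p r a : ℕ} (hr : r.Prime) (hrp : r ≠ p) (hp : p.Prime) (ha : orderOf (p : ZMod r) = a) : a < r := by
  have := Fact.mk hr
  have h0 : (p : ZMod r) ≠ 0 := by
    intro h
    rw [ZMod.natCast_eq_zero_iff] at h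
    exact hrp ((Nat.prime_dvd_prime_iff_eq hr hp).1 h)
  have h1 : orderOf (p : ZMod r) ∣ r - 1 := by
    apply orderOf_dvd_of_pow_eq_one
    exact ZMod.pow_card_sub_one_eq_one h0
  have h2 := Nat.le_of_dvd (by have := hr.two_le; omega) h1
  have := hr.two_le
  omega

end Cfsg.Agent.H997.Rg
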