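import Mathlib
import Cfsg.Prelude.Def_Local
import Cfsg.Agent.S0016
import Cfsg.Agent.Lib.Cores
import Cfsg.Agent.H331.SCExc
import Cfsg.Agent.H997.Rg.Core

/-!
# Linear actions in which all elements of prime order `≠ p` are fixed point free (helper997; S3691)

`Fpf p ρ`: every element of `K` of prime order `≠ p` has no nonzero fixed vector on `V ≠ 0` (characteristic `p`).

* `Fpf.zpowers_eq`: commuting elements of the same prime order `≠ p` generate the same subgroup
* `Fpf.cyc`: the Sylow `s`-subgroups are cyclic for odd `s ≠ p`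
* `Fpf.inv`: for odd `p` commuting involutions are equal
* `Fpf.commute`: `y` of prime order `≠ p` normalizing `⟨a⟩`, `a` of prime order `≠ p`: `y` and `a` commute
* `Fpf.fit`: `y` of prime order `r ≥ 5`, `r ≠ p`, centralizing `O_p(K)`, centralizes the Fitting subgroup
* `card_normalizer`: `|N_K(⟨y⟩)|_p ≤ |C_K(y)|_p · dim V`
-/

set_option autoImplicit false

open Subgroup Cfsg
open scoped Pointwise

namespace Cfsg.Agent.H997.Rg

section fpf

variable {F V K : Type*} [Field F] [AddCommGroup V] [Module F V] [Group K]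

/-- every element of prime order `≠ p` has no nonzero fixed vector -/
def Fpf (p : ℕ) (ρ : K →* Module.End F V) : Prop :=
  ∀ g : K, (orderOf g).Prime → orderOf g ≠ p → ∀ v, ρ g v = v → v = 0

variable {p : ℕ} {ρ : K →* Module.End F V}

theorem Fpf.sum_eq_zero (h : Fpf p ρ) {g : K} {s : ℕ} (hs : s.Prime) (hsp : s ≠ p) (hg : orderOf g = s) :
    ∑ t ∈ Finset.range s, ρ (g ^ t) = 0 := by
  have h1 : (ρ g - 1) * ∑ t ∈ Finset.range s, (ρ g) ^ t = 0 := by
    rw [mul_geom_sum, ← map_pow, ← hg, pow_orderOf_eq_one, map_one, sub_self]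
  have h2 : ∑ t ∈ Finset.range s, ρ (g ^ t) = ∑ t ∈ Finset.range s, (ρ g) ^ t :=
    Finset.sum_congr rfl fun t _ => map_pow ρ g t
  rw [h2]
  ext v
  rw [LinearMap.zero_apply]
  refine h g (by rw [hg]; exact hs) (by rw [hg]; exact hsp) _ ?_
  have h3 := LinearMap.congr_fun h1 v
  rw [Module.End.mul_apply, LinearMap.sub_apply, Module.End.one_apply, LinearMap.zero_apply] at h3
  exact sub_eq_zero.1 h3

theorem Fpf.sum_succ (h : Fpf p ρ) {g : K} {s : ℕ} (hs : s.Prime) (hsp : s ≠ p) (hg : orderOf g = s) :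
    ∑ t ∈ Finset.range (s - 1), ρ (g ^ (t + 1)) = -1 := by
  have h1 := h.sum_eq_zero hs hsp hg
  obtain ⟨k, rfl⟩ : ∃ k, s = k + 1 := ⟨s - 1, (Nat.succ_pred_eq_of_pos hs.pos).symm⟩
  rw [Finset.sum_range_succ', pow_zero, map_one] at h1
  rw [Nat.add_sub_cancel]
  exact eq_neg_of_add_eq_zero_left h1

theorem natCast_ne_zero [CharP F p] [Nontrivial V] {s : ℕ} (hs : s.Prime) (hp : p.Prime) (hsp : s ≠ p) :
    (∑ _t ∈ Finset.range s, (-1 : Module.End F V)) ≠ 0 := by
  rw [Finset.sum_const, Finset.card_range, smul_neg, neg_ne_zero]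
  intro h0
  obtain ⟨v, hv⟩ := exists_ne (0 : V)
  have h1 := LinearMap.congr_fun h0 v
  rw [LinearMap.smul_apply, Module.End.one_apply, LinearMap.zero_apply] at h1
  rw [← Nat.cast_smul_eq_nsmul F, smul_eq_zero] at h1
  rcases h1 with h1 | h1
  · rw [CharP.cast_eq_zero_iff F p] at h1
    exact hsp ((Nat.prime_dvd_prime_iff_eq hp hs).1 h1).symm
  · exact hv h1

theorem orderOf_pow_eq {G : Type*} [Group G] {a : G} {s : ℕ} (hs : s.Prime) (ha : orderOf a = s) {j : ℕ} (h0 : 0 < j)
    (hj : j < s) : orderOf (a ^ j) = s := by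
  have := Fact.mk hs
  apply orderOf_eq_prime
  · rw [← pow_mul, mul_comm, pow_mul, ← ha, pow_orderOf_eq_one, one_pow]
  · intro h
    have := orderOf_dvd_of_pow_eq_one h
    rw [ha] at this
    exact absurd (Nat.le_of_dvd h0 this) (by omega)

/-- Two commuting elements of the same prime order `≠ p` generate the same subgroup. -/
theorem Fpf.mem_zpowers [CharP F p] [Nontrivial V] (hp : p.Prime) (h : Fpf p ρ) {a b : K} {s : ℕ} (hs : s.Prime)
    (hsp : s ≠ p) (ha : orderOf a = s) (hb : orderOf b = s) (hab : Commute a b) : b ∈ zpowers a := by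
  have := Fact.mk hs
  by_contra hba
  have h1 : ∀ t : ℕ, orderOf (a ^ t * b) = s := by
    intro t
    apply orderOf_eq_prime
    · rw [(hab.pow_left t).mul_pow, ← pow_mul, mul_comm t s, pow_mul, ← ha, pow_orderOf_eq_one, one_pow, one_mul, ha, ← hb,
        pow_orderOf_eq_one]
    · intro h0
      apply hba
      have h2 : b = (a ^ t)⁻¹ := (inv_eq_of_mul_eq_one_right h0).symm
      rw [h2]
      exact inv_mem (pow_mem (Subgroup.mem_zpowers a) t)
  have h2 : ∑ t ∈ Finset.range s, ∑ j ∈ Finset.range (s - 1), ρ ((a ^ t * b) ^ (j + 1)) =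
      ∑ _t ∈ Finset.range s, (-1 : Module.End F V) :=
    Finset.sum_congr rfl fun t _ => h.sum_succ hs hsp (h1 t)
  apply natCast_ne_zero (F := F) (V := V) hs hp hsp
  rw [← h2, Finset.sum_comm]
  refine Finset.sum_eq_zero fun j hj => ?_
  have hj' : j + 1 < s := by
    have := Finset.mem_range.1 hj
    omega
  have h3 : ∀ t ∈ Finset.range s, ρ ((a ^ t * b) ^ (j + 1)) = ρ ((a ^ (j + 1)) ^ t) * ρ (b ^ (j + 1)) := by
    intro t _
    rw [(hab.pow_left t).mul_pow, ← pow_mul, mul_comm t, pow_mul, map_mul]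
  rw [Finset.sum_congr rfl h3, ← Finset.sum_mul, h.sum_eq_zero hs hsp (orderOf_pow_eq hs ha (Nat.succ_pos j) hj'), zero_mul]

theorem Fpf.zpowers_eq [CharP F p] [Nontrivial V] (hp : p.Prime) (h : Fpf p ρ) {a b : K} {s : ℕ} (hs : s.Prime)
    (hsp : s ≠ p) (ha : orderOf a = s) (hb : orderOf b = s) (hab : Commute a b) : zpowers a = zpowers b :=
  le_antisymm (zpowers_le.2 (h.mem_zpowers hp hs hsp hb ha hab.symm)) (zpowers_le.2 (h.mem_zpowers hp hs hsp ha hb hab))

/-- No Frobenius groups of order prime to `p`. -/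
theorem Fpf.commute [CharP F p] [Nontrivial V] (hp : p.Prime) (h : Fpf p ρ) {a y : K} {s r : ℕ} (hs : s.Prime)
    (hsp : s ≠ p) (ha : orderOf a = s) (hr : r.Prime) (hrp : r ≠ p) (hy : orderOf y = r)
    (hn : ∀ j : ℕ, y ^ j * a * (y ^ j)⁻¹ ∈ zpowers a) : Commute y a := by
  have := Fact.mk hs
  by_contra hya
  have hyj : ∀ j : ℕ, 0 < j → j < r → ¬ Commute (y ^ j) a := by
    intro j h0 hj hc
    apply hya
    obtain ⟨i, hi⟩ := exists_pow_eq_self_of_coprime (x := y) (n := j)
      (by rw [hy]; exact ((Nat.Prime.coprime_iff_not_dvd hr).2 (Nat.not_dvd_of_pos_of_lt h0 hj)).symm)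
    rw [← hi]
    exact hc.pow_left i
  have h1 : ∀ t : ℕ, orderOf (a ^ t * y * (a ^ t)⁻¹) = r := by
    intro t; rw [← hy]; exact (MulAut.conj (a ^ t)).orderOf_eq y
  have h2 : ∑ t ∈ Finset.range s, ∑ j ∈ Finset.range (r - 1), ρ ((a ^ t * y * (a ^ t)⁻¹) ^ (j + 1)) =
      ∑ _t ∈ Finset.range s, (-1 : Module.End F V) :=
    Finset.sum_congr rfl fun t _ => h.sum_succ hr hrp (h1 t)
  apply natCast_ne_zero (F := F) (V := V) hs hp hsp
  rw [← h2, Finset.sum_comm]
  refine Finset.sum_eq_zero fun j hj => ?_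
  have hj' : j + 1 < r := by
    have := Finset.mem_range.1 hj
    omega
  set z : K := y ^ (j + 1) with hz
  obtain ⟨k, hk⟩ := mem_zpowers_iff.1 (hn (j + 1))
  rw [← hz] at hk
  have hca : Commute a (z * a * z⁻¹) := by rw [← hk]; exact (Commute.refl a).zpow_right k
  set w : K := a * (z * a * z⁻¹)⁻¹ with hw
  have hws : orderOf w = s := by
    apply orderOf_eq_prime
    · rw [hw, (hca.inv_right).mul_pow, inv_pow, conj_pow, ← ha, pow_orderOf_eq_one, mul_one, mul_inv_cancel, inv_one, mul_one]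
    · intro h0
      have h3 : a = z * a * z⁻¹ := mul_inv_eq_one.1 h0
      exact hyj (j + 1) (Nat.succ_pos j) hj' (show z * a = a * z by
        conv_rhs => rw [h3]
        group)
  have h3 : ∀ t ∈ Finset.range s, ρ ((a ^ t * y * (a ^ t)⁻¹) ^ (j + 1)) = ρ (w ^ t) * ρ z := by
    intro t _
    rw [conj_pow, ← hz, ← map_mul]
    congr 1
    rw [hw, (hca.inv_right).mul_pow, inv_pow, conj_pow]
    group
  rw [Finset.sum_congr rfl h3, ← Finset.sum_mul, h.sum_eq_zero hs hsp hws, zero_mul]

theorem Fpf.cyc [Finite K] [CharP F p] [Nontrivial V] (hp : p.Prime) (h : Fpf p ρ) {s : ℕ} (hs : s.Prime) (hs2 : s ≠ 2)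
    (hsp : s ≠ p) (P : Sylow s K) : IsCyclic P := by
  have := Fact.mk hs
  by_cases hP : Nontrivial P
  swap
  · have : Subsingleton P := not_nontrivial_iff_subsingleton.1 hP
    infer_instance
  have hc : Nontrivial (center P) := P.2.center_nontrivial
  obtain ⟨z, hz⟩ : ∃ z : center P, orderOf z = s := by
    have h1 : IsPGroup s (center P) := P.2.to_subgroup _
    obtain ⟨k, hk⟩ := IsPGroup.iff_card.1 h1
    apply exists_prime_orderOf_dvd_card' s
    rw [hk]
    refine dvd_pow_self s ?_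
    rintro rfl
    rw [pow_zero] at hk
    exact absurd (Finite.one_lt_card (α := center P)) (by omega)
  have hz1 : orderOf (((z : P) : K)) = s := by
    rw [Subgroup.orderOf_coe, Subgroup.orderOf_coe]; exact hz
  have key : ∀ H : Subgroup P, Nat.card H = s → H = zpowers (z : P) := by
    intro H hH
    obtain ⟨a, ha⟩ := exists_prime_orderOf_dvd_card' (G := H) s (by rw [hH])
    have ha1 : orderOf (((a : P) : K)) = s := by
      rw [Subgroup.orderOf_coe, Subgroup.orderOf_coe]; exact ha
    have hcm : Commute (((z : P) : K)) (((a : P) : K)) := by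
      have := mem_center_iff.1 z.2 (a : P)
      exact (congrArg Subtype.val this).symm
    have h1 := h.zpowers_eq hp hs hsp hz1 ha1 hcm
    have h2 : zpowers (a : P) = zpowers (z : P) := by
      apply Subgroup.map_injective (P : Subgroup K).subtype_injective
      rw [MonoidHom.map_zpowers, MonoidHom.map_zpowers]
      exact h1.symm
    have h3 : zpowers (a : P) = H := by
      apply Subgroup.eq_of_le_of_card_ge (zpowers_le.2 a.2)
      rw [hH, Nat.card_zpowers, Subgroup.orderOf_coe, ha]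
    rw [← h3, h2]
  rcases Cfsg.Agent.S0016.result s P.2 (fun H H' hH hH' => by rw [key H hH, key H' hH']) with h1 | ⟨h1, _⟩
  · exact h1
  · exact absurd h1 hs2

theorem Fpf.inv [CharP F p] [Nontrivial V] (hp : p.Prime) (h : Fpf p ρ) (hp2 : p ≠ 2) (a b : K) (hab : Commute a b)
    (ha : orderOf a = 2) (hb : orderOf b = 2) : a = b := by
  have h1 := h.mem_zpowers hp Nat.prime_two hp2.symm hb ha hab.symm
  have hf : IsOfFinOrder b := by rw [← orderOf_pos_iff, hb]; exact two_pos
  classical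
  rw [hf.mem_zpowers_iff_mem_range_orderOf, hb] at h1
  obtain ⟨i, hi, hi'⟩ := Finset.mem_image.1 h1
  have hi2 : i < 2 := Finset.mem_range.1 hi
  have ha1 : a ≠ 1 := by
    rintro rfl
    rw [orderOf_one] at ha
    omega
  interval_cases i
  · exact absurd hi'.symm (by simpa using ha1)
  · simpa using hi'.symm

/-! ### The Fitting subgroup -/

/-- the elements of prime order control a cyclic `s`-group -/
theorem aut_omega {G : Type*} [Group G] {c : G} {s k r i : ℕ} (hs : s.Prime) (hr : r.Prime) (hrs : r ≠ s)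
    (hc : orderOf c = s ^ (k + 1)) (α : MulAut G) (hα : α ^ r = 1) (hi : α c = c ^ i) (ho : α (c ^ s ^ k) = c ^ s ^ k) :
    α c = c := by
  have h1 : ∀ j : ℕ, (α ^ j) c = c ^ i ^ j := by
    intro j
    induction j with
    | zero => simp
    | succ j ih => rw [pow_succ', MulAut.mul_apply, ih, map_pow, hi, ← pow_mul, pow_succ']
  have h2 : i ^ r ≡ 1 [MOD s ^ (k + 1)] := by
    have := h1 r
    rw [hα, MulAut.one_apply] at this
    rw [← hc, ← pow_eq_pow_iff_modEq, pow_one]
    exact this.symm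
  have h3 : i ≡ 1 [MOD s] := by
    have h4 : (c ^ s ^ k) ^ i = c ^ s ^ k := by
      rw [map_pow, hi, ← pow_mul, mul_comm, pow_mul] at ho
      exact ho
    rw [← pow_mul] at h4
    have h5 : s ^ k * i ≡ s ^ k * 1 [MOD s ^ (k + 1)] := by
      rw [← hc, ← pow_eq_pow_iff_modEq, mul_one]; exact h4
    rw [pow_succ] at h5
    exact (Nat.ModEq.mul_left_cancel_iff' (pow_pos hs.pos k).ne').1 h5
  have h5 : i ≡ 1 [MOD s ^ (k + 1)] := by
    have hz : ((s ^ (k + 1) : ℕ) : ℤ) ∣ (i : ℤ) ^ r - 1 := by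
      have := (Nat.modEq_iff_dvd.1 h2.symm)
      push_cast at this ⊢
      exact this
    rw [← mul_geom_sum] at hz
    have hsp : Prime (s : ℤ) := Nat.prime_iff_prime_int.1 hs
    have hnd : ¬ (s : ℤ) ∣ ∑ j ∈ Finset.range r, (i : ℤ) ^ j := by
      intro hd
      have h6 : (i : ℤ) ≡ 1 [ZMOD s] := by exact_mod_cast (Int.natCast_modEq_iff.2 h3)
      have h7 : (∑ j ∈ Finset.range r, (i : ℤ) ^ j) ≡ ∑ _j ∈ Finset.range r, (1 : ℤ) [ZMOD s] := by
        refine Int.ModEq.sum fun j _ => ?_
        have := h6.pow j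
        rwa [one_pow] at this
      have h8 : (s : ℤ) ∣ ∑ _j ∈ Finset.range r, (1 : ℤ) := h7.dvd_iff.1 hd
      rw [Finset.sum_const, Finset.card_range, nsmul_eq_mul, mul_one] at h8
      exact hrs ((Nat.prime_dvd_prime_iff_eq hs hr).1 (by exact_mod_cast h8)).symm
    have hcop : IsCoprime ((s ^ (k + 1) : ℕ) : ℤ) (∑ j ∈ Finset.range r, (i : ℤ) ^ j) := by
      push_cast
      exact IsCoprime.pow_left ((hsp.irreducible.coprime_iff_not_dvd).2 hnd)
    have h9 : ((s ^ (k + 1) : ℕ) : ℤ) ∣ (i : ℤ) - 1 := hcop.dvd_of_dvd_mul_right hz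
    exact (Nat.modEq_iff_dvd.2 (by push_cast at h9 ⊢; exact h9)).symm
  rw [hi]
  conv_rhs => rw [← pow_one c]
  rw [pow_eq_pow_iff_modEq, hc]; exact h5

/-- an automorphism of prime order `r ≠ s` of a cyclic `s`-group normalizing it and fixing the elements of order `s` -/
theorem aut_cyc {G : Type*} [Group G] {c : G} {s r : ℕ} (hs : s.Prime) (hr : r.Prime) (hrs : r ≠ s) (hco : ∃ k, orderOf c = s ^ k)
    (α : MulAut G) (hα : α ^ r = 1) (hi : α c ∈ zpowers c) (ho : ∀ z ∈ zpowers c, orderOf z = s → α z = z) : α c = c := by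
  obtain ⟨k, hk⟩ := hco
  rcases Nat.eq_zero_or_pos k with rfl | hk0
  · rw [pow_zero] at hk
    rw [orderOf_eq_one_iff.1 hk, map_one]
  obtain ⟨k, rfl⟩ : ∃ j, k = j + 1 := ⟨k - 1, by omega⟩
  have hf : IsOfFinOrder c := by rw [← orderOf_pos_iff, hk]; exact pow_pos hs.pos _
  obtain ⟨i, hi⟩ := hf.mem_powers_iff_mem_zpowers.2 hi
  have hi' : α c = c ^ i := hi.symm
  refine aut_omega hs hr hrs hk α hα hi' (ho _ (pow_mem (Subgroup.mem_zpowers c) _) ?_)
  have := Fact.mk hs
  rw [orderOf_pow' _ (pow_pos hs.pos k).ne', hk, pow_succ, Nat.gcd_eq_right (dvd_mul_right _ _)]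
  exact Nat.mul_div_cancel_left s (pow_pos hs.pos k)

end fpf

/-- An automorphism of prime order `r ≥ 5` of a 2-group with a cyclic subgroup of index at most 2 is trivial. -/
theorem aut_two {Q : Type*} [Group Q] [Finite Q] (hQ : IsPGroup 2 Q) (hcy : H331.SCExc.Cy Q) {r : ℕ} (hr : r.Prime)
    (hr5 : 5 ≤ r) (α : MulAut Q) (hα : α ^ r = 1) : α = 1 := by
  classical
  obtain ⟨c, hc⟩ := hcy
  set M := Multiplicative (ZMod 2) with hM
  have hfin : Finite (Q →* M) := Finite.of_injective (fun f : Q →* M => (f : Q → M)) DFunLike.coe_injective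
  -- at most four homomorphisms
  obtain ⟨x0, hx0⟩ : ∃ x0 : Q, x0 ∉ zpowers c ∨ zpowers c = ⊤ := by
    by_cases h : zpowers c = ⊤
    · exact ⟨1, Or.inr h⟩
    · obtain ⟨x, hx⟩ := not_forall.1 (mt (Subgroup.eq_top_iff' (zpowers c)).2 h)
      exact ⟨x, Or.inl hx⟩
  have hinj : Function.Injective (fun f : Q →* M => (f c, f x0)) := by
    intro f g hfg
    have h1 : f c = g c := congrArg Prod.fst hfg
    have h2 : f x0 = g x0 := congrArg Prod.snd hfg
    have h3 : ∀ x ∈ zpowers c, f x = g x := by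
      intro x hx
      obtain ⟨i, rfl⟩ := mem_zpowers_iff.1 hx
      rw [map_zpow, map_zpow, h1]
    ext x
    congr 1
    by_cases hx : x ∈ zpowers c
    · exact h3 x hx
    · rcases hx0 with hx0 | hx0
      · rcases hc x x0 with h | h | h
        · exact absurd h hx
        · exact absurd h hx0
        · have := h3 _ h
          rw [map_mul, map_mul, h2] at this
          exact mul_right_cancel this
      · exact absurd (by rw [hx0]; trivial) hx
  have hcard : Nat.card (Q →* M) ≤ 4 := by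
    have h1 := Nat.card_le_card_of_injective _ hinj
    have h2 : Nat.card (M × M) = 4 := by
      rw [Nat.card_prod]
      have : Nat.card M = 2 := by rw [hM, Nat.card_congr Multiplicative.toAdd, Nat.card_zmod]
      rw [this]
    rwa [h2] at h1
  let σ : MulAut Q → Equiv.Perm (Q →* M) := fun β =>
    { toFun := fun f => f.comp β.toMonoidHom
      invFun := fun f => f.comp β⁻¹.toMonoidHom
      left_inv := fun f => by ext x; simp
      right_inv := fun f => by ext x; simp }
  have hσ : ∀ (β : MulAut Q) (n : ℕ) (f : Q →* M) (x : Q), ((σ β) ^ n) f x = f ((β ^ n) x) := by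
    intro β n
    induction n with
    | zero => intro f x; rfl
    | succ n ih =>
      intro f x
      rw [pow_succ, Equiv.Perm.mul_apply, ih, pow_succ', MulAut.mul_apply]
      rfl
  have hσr : (σ α) ^ r = 1 := by
    ext f x
    rw [hσ, hα]; rfl
  have hσ1 : σ α = 1 := by
    rw [← orderOf_eq_one_iff]
    rcases (Nat.dvd_prime hr).1 (orderOf_dvd_of_pow_eq_one hσr) with h | h
    · exact h
    · exfalso
      have := Fintype.ofFinite (Q →* M)
      have h1 : orderOf (σ α) ∣ Nat.card (Equiv.Perm (Q →* M)) := orderOf_dvd_natCard _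
      rw [h, Nat.card_perm] at h1
      have h2 := h1.trans (Nat.factorial_dvd_factorial hcard)
      have h3 := (Nat.Prime.dvd_factorial hr).1 h2
      omega
  have hinv : ∀ (f : Q →* M) (x : Q), f (α x) = f x := by
    intro f x
    have := congrArg (fun τ : Equiv.Perm (Q →* M) => τ f x) hσ1
    exact this
  -- the homomorphism with kernel ⟨c⟩
  have hmulC : ∀ x y : Q, x ∈ zpowers c → (x * y ∈ zpowers c ↔ y ∈ zpowers c) := fun x y hx =>
    Subgroup.mul_mem_cancel_left _ hx
  have hmulC' : ∀ x y : Q, y ∈ zpowers c → (x * y ∈ zpowers c ↔ x ∈ zpowers c) := fun x y hy =>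
    Subgroup.mul_mem_cancel_right _ hy
  let f0 : Q →* M :=
    { toFun := fun x => if x ∈ zpowers c then 1 else Multiplicative.ofAdd 1
      map_one' := if_pos (one_mem _)
      map_mul' := fun x y => by
        by_cases hx : x ∈ zpowers c
        · by_cases hy : y ∈ zpowers c
          · rw [if_pos hx, if_pos hy, if_pos ((hmulC x y hx).2 hy), mul_one]
          · rw [if_pos hx, if_neg hy, if_neg (fun h => hy ((hmulC x y hx).1 h)), one_mul]
        · by_cases hy : y ∈ zpowers c
          · rw [if_neg hx, if_pos hy, if_neg (fun h => hx ((hmulC' x y hy).1 h)), mul_one]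
          · rw [if_neg hx, if_neg hy, if_pos (((hc x y).resolve_left hx).resolve_left hy)]
            rfl }
  have hf0 : ∀ x, f0 x = 1 ↔ x ∈ zpowers c := by
    intro x
    change (if x ∈ zpowers c then (1 : M) else Multiplicative.ofAdd 1) = 1 ↔ _
    by_cases hx : x ∈ zpowers c
    · simp [hx]
    · simp only [hx, if_false, iff_false]
      decide
  have hαC : ∀ x, x ∈ zpowers c → α x ∈ zpowers c := by
    intro x hx
    rw [← hf0, hinv, hf0]; exact hx
  have hαc : α c = c := by
    obtain ⟨k, hk⟩ := hQ c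
    have hfc : IsOfFinOrder c := isOfFinOrder_of_finite c
    refine aut_cyc Nat.prime_two hr (by omega) ((Nat.dvd_prime_pow Nat.prime_two).1 (orderOf_dvd_of_pow_eq_one hk) |>.imp
      fun _ h => h.2) α hα (hαC c (Subgroup.mem_zpowers c)) ?_
    intro z hz hz2
    have hfz : IsOfFinOrder z := isOfFinOrder_of_finite z
    -- the involution of a cyclic group is unique
    have h1 : orderOf (α z) = 2 := by rw [← hz2]; exact α.orderOf_eq z
    have h2 := zpowers_eq_of_cyclic (P := zpowers c) inferInstance hz (hαC z hz) (hz2.trans h1.symm)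
    have h3 : α z ∈ zpowers z := by rw [h2]; exact Subgroup.mem_zpowers _
    rw [hfz.mem_zpowers_iff_mem_range_orderOf, hz2] at h3
    obtain ⟨i, hi, hi'⟩ := Finset.mem_image.1 h3
    have hi2 : i < 2 := Finset.mem_range.1 hi
    interval_cases i
    · exfalso
      rw [pow_zero] at hi'
      rw [← hi', orderOf_one] at h1
      omega
    · rw [pow_one] at hi'
      exact hi'.symm
  have hfix : ∀ x ∈ zpowers c, α x = x := by
    intro x hx
    obtain ⟨i, rfl⟩ := mem_zpowers_iff.1 hx
    rw [map_zpow, hαc]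
  ext x
  rw [MulAut.one_apply]
  set d : Q := x⁻¹ * α x with hd
  have hdC : d ∈ zpowers c := by
    rw [← hf0, hd, map_mul, hinv, map_inv, inv_mul_cancel]
  have h1 : ∀ j : ℕ, (α ^ j) x = x * d ^ j := by
    intro j
    induction j with
    | zero => simp
    | succ j ih =>
      rw [pow_succ', MulAut.mul_apply, ih, map_mul, map_pow, hfix d hdC, show α x = x * d by rw [hd]; group, mul_assoc,
        pow_succ']
  have h2 : d ^ r = 1 := by
    have := h1 r
    rw [hα, MulAut.one_apply] at this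
    exact (mul_eq_left.1 this.symm)
  have h3 : d = 1 := by
    obtain ⟨k, hk⟩ := hQ d
    rw [← orderOf_eq_one_iff]
    have h4 : orderOf d ∣ r := orderOf_dvd_of_pow_eq_one h2
    have h5 : orderOf d ∣ 2 ^ k := orderOf_dvd_of_pow_eq_one hk
    have h6 : Nat.Coprime r (2 ^ k) := Nat.Coprime.pow_right k ((Nat.coprime_primes hr Nat.prime_two).2 (by omega))
    exact Nat.eq_one_of_dvd_coprimes h6 h4 h5
  have h4 : α x = x * d := by rw [hd]; group
  rw [h4, h3, mul_one]

/-- a nontrivial finite `s`-group has a central element of order `s` -/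
theorem exists_central {P : Type*} [Group P] [Finite P] {s : ℕ} (hs : s.Prime) (hP : IsPGroup s P) (hn : Nontrivial P) :
    ∃ z ∈ center P, orderOf z = s := by
  have := Fact.mk hs
  have hc : Nontrivial (center P) := hP.center_nontrivial
  have h1 : IsPGroup s (center P) := hP.to_subgroup _
  obtain ⟨k, hk⟩ := IsPGroup.iff_card.1 h1
  obtain ⟨z, hz⟩ : ∃ z : center P, orderOf z = s := by
    apply exists_prime_orderOf_dvd_card' s
    rw [hk]
    refine dvd_pow_self s ?_
    rintro rfl
    rw [pow_zero] at hk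
    exact absurd (Finite.one_lt_card (α := center P)) (by omega)
  exact ⟨z, z.2, by rw [Subgroup.orderOf_coe]; exact hz⟩

section fpf2

variable {F V K : Type*} [Field F] [AddCommGroup V] [Module F V] [Group K]
variable {p : ℕ} {ρ : K →* Module.End F V}

theorem Fpf.fit [Finite K] [CharP F p] [Nontrivial V] (hp : p.Prime) (h : Fpf p ρ) {y : K} {r : ℕ} (hr : r.Prime)
    (hr5 : 5 ≤ r) (hrp : r ≠ p) (hy : orderOf y = r) (hOp : ∀ a ∈ pCore p K, Commute y a) :
    y ∈ centralizer (fittingSubgroup K : Set K) := by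
  have hyr : y ^ r = 1 := by rw [← hy]; exact pow_orderOf_eq_one y
  suffices hsuff : fittingSubgroup K ≤ centralizer ({y} : Set K) by
    rw [mem_centralizer_iff]
    intro x hx
    exact mem_centralizer_singleton_iff.1 (hsuff hx)
  rw [Cfsg.Agent.Lib.Cores.fittingSubgroup_eq_iSup_pCore]
  refine iSup_le fun s => ?_
  obtain ⟨s, hs⟩ := s
  have := Fact.mk hs
  change pCore s K ≤ centralizer ({y} : Set K)
  have hCn : (pCore s K).Normal := Cfsg.Agent.Lib.Cores.pCore_normal s
  have hCp : IsPGroup s (pCore s K) := Cfsg.Agent.Lib.Cores.pCore_isPGroup s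
  rcases eq_or_ne s p with rfl | hsp
  · intro x hx
    rw [mem_centralizer_singleton_iff]
    exact (hOp x hx).symm.eq
  rcases eq_or_ne s 2 with rfl | hs2
  · -- s = 2
    rcases subsingleton_or_nontrivial (pCore 2 K) with hss | hnt
    · intro x hx
      have : (⟨x, hx⟩ : pCore 2 K) = 1 := Subsingleton.elim _ _
      have hx1 : x = 1 := congrArg Subtype.val this
      rw [hx1]; exact one_mem _
    obtain ⟨z, hz, hzo⟩ := exists_central hs hCp hnt
    have huni : ∀ x : pCore 2 K, x ≠ 1 → x * x = 1 → x = z := by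
      intro x hx hx2
      have hxo : orderOf x = 2 := orderOf_eq_prime (by rw [pow_two]; exact hx2) hx
      have hc : Commute (x : K) (z : K) := congrArg Subtype.val (mem_center_iff.1 hz x)
      exact Subtype.ext (h.inv hp hsp.symm (x : K) (z : K) hc (by rw [Subgroup.orderOf_coe]; exact hxo)
        (by rw [Subgroup.orderOf_coe]; exact hzo))
    have hcy := H331.SCExc.cy_of_unique hCp (fun x y hx hx2 hy hy2 => (huni x hx hx2).trans (huni y hy hy2).symm)
    have hα := aut_two hCp hcy hr hr5 (MulAut.conjNormal y : MulAut (pCore 2 K)) (by rw [← map_pow, hyr, map_one])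
    intro x hx
    have h1 := congrArg (fun β : MulAut (pCore 2 K) => ((β ⟨x, hx⟩ : pCore 2 K) : K)) hα
    simp only [MulAut.conjNormal_apply, MulAut.one_apply] at h1
    rw [mem_centralizer_singleton_iff]
    exact (mul_inv_eq_iff_eq_mul.1 h1).symm
  · -- s odd
    obtain ⟨P⟩ : Nonempty (Sylow s K) := inferInstance
    have hcP := h.cyc hp hs hs2 hsp P
    have hle : pCore s K ≤ P := Cfsg.Agent.Lib.Cores.pCore_le_sylow P
    have hcC : IsCyclic (pCore s K) := isCyclic_of_injective (inclusion hle) (inclusion_injective hle)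
    obtain ⟨⟨c, hc⟩, hgen⟩ := hcC.exists_generator
    have hzc : pCore s K = zpowers c := by
      apply le_antisymm
      · intro x hx
        obtain ⟨i, hi⟩ := mem_zpowers_iff.1 (hgen ⟨x, hx⟩)
        exact mem_zpowers_iff.2 ⟨i, congrArg Subtype.val hi⟩
      · exact zpowers_le.2 hc
    rcases eq_or_ne r s with rfl | hrs
    · -- r = s
      have hpy : IsPGroup r (zpowers y) := by
        rw [IsPGroup.iff_card]
        exact ⟨1, by rw [Nat.card_zpowers, hy, pow_one]⟩
      obtain ⟨Q, hQ⟩ := hpy.exists_le_sylow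
      have hcQ := h.cyc hp hs hs2 hsp Q
      intro x hx
      rw [mem_centralizer_singleton_iff]
      have hxQ : x ∈ Q := Cfsg.Agent.Lib.Cores.pCore_le_sylow Q hx
      have hyQ : y ∈ Q := hQ (Subgroup.mem_zpowers y)
      letI : CommGroup Q := hcQ.commGroup
      have := mul_comm (⟨x, hxQ⟩ : Q) ⟨y, hyQ⟩
      exact congrArg Subtype.val this
    have hco : ∃ k, orderOf c = s ^ k := by
      obtain ⟨k, hk⟩ := IsPGroup.iff_card.1 hCp
      refine ⟨k, ?_⟩
      rw [← Nat.card_zpowers, ← hzc]; exact hk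
    have hac := aut_cyc hs hr hrs hco (MulAut.conj y) (by rw [← map_pow, hyr, map_one])
      (by rw [← hzc]; exact hCn.conj_mem c hc y) (by
        intro z hz hzs
        have h1 : Commute y z := by
          refine h.commute hp hs hsp hzs hr hrp hy ?_
          intro j
          have h2 : y ^ j * z * (y ^ j)⁻¹ ∈ pCore s K := hCn.conj_mem z (by rw [hzc]; exact hz) _
          have h3 : orderOf z = orderOf (y ^ j * z * (y ^ j)⁻¹) := ((MulAut.conj (y ^ j)).orderOf_eq z).symm
          rw [zpowers_eq_of_cyclic hcC (by rw [hzc]; exact hz) h2 h3]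
          exact Subgroup.mem_zpowers _
        rw [MulAut.conj_apply, h1.eq]
        group)
    rw [MulAut.conj_apply] at hac
    have hyc : Commute y c := mul_inv_eq_iff_eq_mul.1 hac
    rw [hzc, zpowers_le, mem_centralizer_singleton_iff]
    exact hyc.symm.eq

theorem semiconj_aeval {R A : Type*} [CommRing R] [Ring A] [Algebra R A] {a x y : A} (h : a * x = y * a)
    (f : Polynomial R) : a * Polynomial.aeval x f = Polynomial.aeval y f * a := by
  have hp : ∀ n : ℕ, a * x ^ n = y ^ n * a := by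
    intro n
    exact (SemiconjBy.pow_right (show SemiconjBy a x y from h) n)
  induction f using Polynomial.induction_on' with
  | add p q hp' hq' => rw [map_add, map_add, mul_add, add_mul, hp', hq']
  | monomial n c =>
    rw [Polynomial.aeval_monomial, Polynomial.aeval_monomial, ← mul_assoc, ← Algebra.commutes, mul_assoc, hp, mul_assoc]

theorem Fpf.card_normalizer [Finite K] [FiniteDimensional F V] [Nontrivial V] (h : Fpf p ρ) {y : K} {r : ℕ} (hr : r.Prime)
    (hrp : r ≠ p) (hy : orderOf y = r) :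
    ∃ m : ℕ, m ≤ Module.finrank F V ∧ m ≠ 0 ∧
      Nat.card (normalizer (zpowers y : Set K)) = Nat.card (centralizer ({y} : Set K)) * m := by
  classical
  set N : Subgroup K := normalizer (zpowers y : Set K) with hN
  let κ : N →* MulAut (zpowers y) := normalizerMonoidHom (zpowers y)
  have hyr : y ^ r = 1 := by rw [← hy]; exact pow_orderOf_eq_one y
  have hker : Nat.card κ.ker = Nat.card (centralizer ({y} : Set K)) := by
    have h1 : κ.ker = (centralizer (zpowers y : Set K)).subgroupOf N := normalizerMonoidHom_ker _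
    have h2 : centralizer (zpowers y : Set K) = centralizer ({y} : Set K) := by
      rw [zpowers_eq_closure, centralizer_closure]
    rw [h1, h2]
    have h3 : centralizer ({y} : Set K) ≤ N := by
      rw [← h2]; exact centralizer_le_normalizer _
    exact Nat.card_congr (Subgroup.subgroupOfEquivOfLe h3).toEquiv
  refine ⟨Nat.card κ.range, ?_, Nat.card_pos.ne', ?_⟩
  swap
  · rw [← hker, ← Subgroup.index_ker, Subgroup.card_mul_index]
  -- the root
  set E := AlgebraicClosure F with hE
  set m := minpoly F (ρ y) with hm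
  have hint : IsIntegral F (ρ y) := Algebra.IsIntegral.isIntegral _
  have hdeg : m.degree ≠ 0 := (minpoly.degree_pos hint).ne'
  obtain ⟨ζ, hζ⟩ := IsAlgClosed.exists_aeval_eq_zero E m hdeg
  have hζr : ζ ^ r = 1 := by
    have h1 : m ∣ Polynomial.X ^ r - 1 := by
      apply minpoly.dvd
      rw [map_sub, map_pow, Polynomial.aeval_X, map_one, ← map_pow, hyr, map_one, sub_self]
    have h2 := Polynomial.aeval_eq_zero_of_dvd_aeval_eq_zero h1 hζ
    rw [map_sub, map_pow, Polynomial.aeval_X, map_one, sub_eq_zero] at h2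
    exact h2
  have hζ1 : ζ ≠ 1 := by
    rintro rfl
    have h1 : m.IsRoot 1 := by
      rw [show (1 : E) = algebraMap F E 1 by rw [map_one], Polynomial.aeval_algebraMap_apply] at hζ
      have h2 := (map_eq_zero (algebraMap F E)).1 hζ
      rw [Polynomial.IsRoot.def]
      simpa using h2
    have h2 := (Module.End.hasEigenvalue_iff_isRoot).2 h1
    obtain ⟨v, hv⟩ := h2.exists_hasEigenvector
    apply hv.2
    refine h y (by rw [hy]; exact hr) (by rw [hy]; exact hrp) v ?_
    have := hv.apply_eq_smul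
    rwa [one_smul] at this
  have hζo : orderOf ζ = r := by
    have := Fact.mk hr
    exact orderOf_eq_prime hζr hζ1
  -- the exponents
  have hex : ∀ φ : MulAut (zpowers y), ∃ k : ℕ, ((φ ⟨y, Subgroup.mem_zpowers y⟩ : zpowers y) : K) = y ^ k := by
    intro φ
    have hf : IsOfFinOrder y := isOfFinOrder_of_finite y
    obtain ⟨k, hk⟩ := hf.mem_powers_iff_mem_zpowers.2 (φ ⟨y, Subgroup.mem_zpowers y⟩).2
    exact ⟨k, hk.symm⟩
  choose k hk using hex
  have hroot : ∀ φ : κ.range, ζ ^ k (φ : MulAut (zpowers y)) ∈ m.rootSet E := by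
    rintro ⟨_, ⟨g, rfl⟩⟩
    rw [Polynomial.mem_rootSet]
    refine ⟨minpoly.ne_zero hint, ?_⟩
    have h1 := hk (κ g)
    have h2 : ((κ g ⟨y, Subgroup.mem_zpowers y⟩ : zpowers y) : K) = g * y * (g : K)⁻¹ := rfl
    rw [h2] at h1
    have h3 : ρ g * ρ y = ρ (y ^ k (κ g)) * ρ g := by
      rw [← h1, ← map_mul, ← map_mul]
      congr 1; group
    have h4 := semiconj_aeval h3 m
    rw [minpoly.aeval, mul_zero] at h4
    have h5 : Polynomial.aeval (ρ (y ^ k (κ g))) m = 0 := by
      have h6 := congrArg (fun z => z * ρ (g : K)⁻¹) h4.symm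
      simp only [zero_mul] at h6
      rwa [mul_assoc, ← map_mul, mul_inv_cancel, map_one, mul_one] at h6
    have h6 : m ∣ m.comp (Polynomial.X ^ k (κ g)) := by
      apply minpoly.dvd
      rw [Polynomial.aeval_comp, map_pow, Polynomial.aeval_X, ← map_pow]
      exact h5
    have h7 := Polynomial.aeval_eq_zero_of_dvd_aeval_eq_zero h6 hζ
    rw [Polynomial.aeval_comp, map_pow, Polynomial.aeval_X] at h7
    exact h7
  have hinj : Function.Injective (fun φ : κ.range => (⟨ζ ^ k (φ : MulAut (zpowers y)), hroot φ⟩ : m.rootSet E)) := by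
    intro φ ψ hφψ
    have h1 : ζ ^ k (φ : MulAut (zpowers y)) = ζ ^ k (ψ : MulAut (zpowers y)) := congrArg Subtype.val hφψ
    have hζ0 : ζ ≠ 0 := by
      rintro h0
      rw [h0, zero_pow hr.ne_zero] at hζr
      exact zero_ne_one hζr
    have h1' : (Units.mk0 ζ hζ0) ^ k (φ : MulAut (zpowers y)) = (Units.mk0 ζ hζ0) ^ k (ψ : MulAut (zpowers y)) := by
      apply Units.ext
      rw [Units.val_pow_eq_pow_val, Units.val_pow_eq_pow_val, Units.val_mk0]
      exact h1
    have ho' : orderOf (Units.mk0 ζ hζ0) = r := by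
      rw [← hζo, ← orderOf_units, Units.val_mk0]
    rw [pow_eq_pow_iff_modEq, ho', ← hy, ← pow_eq_pow_iff_modEq, ← hk, ← hk] at h1'
    have h2 := Subtype.ext h1'
    apply Subtype.ext
    ext ⟨x, hx⟩
    obtain ⟨i, rfl⟩ := mem_zpowers_iff.1 hx
    have h3 : (⟨y ^ i, hx⟩ : zpowers y) = (⟨y, Subgroup.mem_zpowers y⟩ : zpowers y) ^ i := rfl
    rw [h3, map_zpow, map_zpow, h2]
  have h1 : Nat.card κ.range ≤ Nat.card (m.rootSet E) := by
    have : Finite (m.rootSet E) := (Polynomial.rootSet_finite m E).to_subtype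
    exact Nat.card_le_card_of_injective _ hinj
  have h2 : Nat.card (m.rootSet E) ≤ m.natDegree := by
    rw [Nat.card_coe_set_eq]
    exact Polynomial.ncard_rootSet_le m E
  have h3 : m.natDegree ≤ Module.finrank F V := by
    have h4 : m ∣ (ρ y).charpoly := LinearMap.minpoly_dvd_charpoly (ρ y)
    rw [← LinearMap.charpoly_natDegree (ρ y)]
    exact Polynomial.natDegree_le_of_dvd h4 (LinearMap.charpoly_monic (ρ y)).ne_zero
  exact h1.trans (h2.trans h3)

/-- the order of `N_K(⟨u⟩)/C_K(u)` -/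
noncomputable def nc {K : Type*} [Group K] (u : K) : ℕ := Nat.card (normalizerMonoidHom (zpowers u)).range

theorem card_nc {K : Type*} [Group K] [Finite K] (y : K) :
    Nat.card (normalizer (zpowers y : Set K)) = Nat.card (centralizer ({y} : Set K)) * nc y := by
  have hker : Nat.card (normalizerMonoidHom (zpowers y)).ker = Nat.card (centralizer ({y} : Set K)) := by
    have h2 : centralizer (zpowers y : Set K) = centralizer ({y} : Set K) := by
      rw [zpowers_eq_closure, centralizer_closure]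
    rw [normalizerMonoidHom_ker, h2]
    have h3 : centralizer ({y} : Set K) ≤ normalizer (zpowers y : Set K) := by
      rw [← h2]; exact centralizer_le_normalizer _
    exact Nat.card_congr (Subgroup.subgroupOfEquivOfLe h3).toEquiv
  rw [nc, ← hker, ← Subgroup.index_ker, Subgroup.card_mul_index]

theorem nc_pos {K : Type*} [Group K] [Finite K] (y : K) : 0 < nc y := Nat.card_pos

theorem conj_pow_pow {K : Type*} [Group K] {u v : K} {i : ℕ} (h : v * u * v⁻¹ = u ^ i) (j : ℕ) :
    v ^ j * u * (v ^ j)⁻¹ = u ^ i ^ j := by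
  induction j with
  | zero => simp
  | succ j ih =>
    have h1 : v ^ (j + 1) * u * (v ^ (j + 1))⁻¹ = v * (v ^ j * u * (v ^ j)⁻¹) * v⁻¹ := by
      rw [pow_succ']; group
    rw [h1, ih, ← conj_pow, h, ← pow_mul, pow_succ']

theorem dvd_nc {K : Type*} [Group K] [Finite K] {u v : K} {l i : ℕ} (hu : orderOf u = l)
    (h : v * u * v⁻¹ = u ^ i) : orderOf (i : ZMod l) ∣ nc u := by
  have hv : v ∈ normalizer (zpowers u : Set K) := by
    have h1 : (zpowers u).map (MulAut.conj v).toMonoidHom = zpowers u := by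
      apply Subgroup.eq_of_le_of_card_ge
      · rintro _ ⟨x, hx, rfl⟩
        obtain ⟨k, rfl⟩ := mem_zpowers_iff.1 hx
        change v * u ^ k * v⁻¹ ∈ zpowers u
        rw [← conj_zpow, h]
        exact zpow_mem (pow_mem (Subgroup.mem_zpowers u) i) k
      · rw [Subgroup.card_map_of_injective (MulAut.conj v).injective]
    rw [Subgroup.mem_normalizer_iff]
    intro x
    constructor
    · intro hx
      have : v * x * v⁻¹ ∈ (zpowers u).map (MulAut.conj v).toMonoidHom := ⟨x, hx, rfl⟩
      rwa [h1] at this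
    · intro hx
      have hx' : v * x * v⁻¹ ∈ zpowers u := hx
      rw [← h1] at hx'
      obtain ⟨x', hx'', he⟩ := hx'
      have : x' = x := (MulAut.conj v).injective (by exact he)
      rwa [← this]
  set κ := normalizerMonoidHom (zpowers u) with hκ
  have h1 : orderOf (i : ZMod l) ∣ orderOf (κ ⟨v, hv⟩) := by
    apply orderOf_dvd_of_pow_eq_one
    have h2 := pow_orderOf_eq_one (κ ⟨v, hv⟩)
    rw [← map_pow] at h2
    have h3 := congrArg (fun β : MulAut (zpowers u) => ((β ⟨u, Subgroup.mem_zpowers u⟩ : zpowers u) : K)) h2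
    have h4 : v ^ orderOf (κ ⟨v, hv⟩) * u * (v ^ orderOf (κ ⟨v, hv⟩))⁻¹ = u := h3
    rw [conj_pow_pow h] at h4
    have h4' : u ^ i ^ orderOf (κ ⟨v, hv⟩) = u ^ 1 := by rw [h4, pow_one]
    rw [pow_eq_pow_iff_modEq, hu] at h4'
    have h5 := (ZMod.natCast_eq_natCast_iff _ _ _).2 h4'
    push_cast at h5
    exact h5
  refine h1.trans ?_
  have h2 : orderOf (⟨κ ⟨v, hv⟩, ⟨v, hv⟩, rfl⟩ : κ.range) = orderOf (κ ⟨v, hv⟩) := Subgroup.orderOf_mk _ _
  rw [← h2]
  exact orderOf_dvd_natCard _

theorem Fpf.nc_le [Finite K] [FiniteDimensional F V] [Nontrivial V] (h : Fpf p ρ) {y : K} {r : ℕ} (hr : r.Prime)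
    (hrp : r ≠ p) (hy : orderOf y = r) : nc y ≤ Module.finrank F V := by
  obtain ⟨m, hm, _, h1⟩ := h.card_normalizer hr hrp hy
  rw [card_nc] at h1
  rw [Nat.eq_of_mul_eq_mul_left Nat.card_pos h1]
  exact hm

/-- the set of eigenvalues is a union of orbits of `N_K(⟨y⟩)/C_K(y)` and of the Frobenius map -/
theorem Fpf.nc_dvd [Finite K] [Finite F] [CharP F p] [FiniteDimensional F V] [Nontrivial V] (h : Fpf p ρ) (hp : p.Prime)
    {y : K} {r : ℕ} (hr : r.Prime) (hrp : r ≠ p) (hy : orderOf y = r) :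
    ∃ D : ℕ, 0 < D ∧ D ≤ Module.finrank F V ∧ nc y ∣ D ∧ orderOf ((Nat.card F : ℕ) : ZMod r) ∣ D := by
  classical
  have := Fact.mk hr
  have := Fact.mk hp
  set κ := normalizerMonoidHom (zpowers y) with hκ
  have hyr : y ^ r = 1 := by rw [← hy]; exact pow_orderOf_eq_one y
  set E := AlgebraicClosure F with hE
  set m := minpoly F (ρ y) with hm
  have hint : IsIntegral F (ρ y) := Algebra.IsIntegral.isIntegral _
  have hdeg : m.degree ≠ 0 := (minpoly.degree_pos hint).ne'
  obtain ⟨ζ, hζ⟩ := IsAlgClosed.exists_aeval_eq_zero E m hdeg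
  have hζr : ζ ^ r = 1 := by
    have h1 : m ∣ Polynomial.X ^ r - 1 := by
      apply minpoly.dvd
      rw [map_sub, map_pow, Polynomial.aeval_X, map_one, ← map_pow, hyr, map_one, sub_self]
    have h2 := Polynomial.aeval_eq_zero_of_dvd_aeval_eq_zero h1 hζ
    rw [map_sub, map_pow, Polynomial.aeval_X, map_one, sub_eq_zero] at h2
    exact h2
  have hζ1 : ζ ≠ 1 := by
    rintro rfl
    have h1 : m.IsRoot 1 := by
      rw [show (1 : E) = algebraMap F E 1 by rw [map_one], Polynomial.aeval_algebraMap_apply] at hζ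
      have h2 := (map_eq_zero (algebraMap F E)).1 hζ
      rw [Polynomial.IsRoot.def]
      simpa using h2
    have h2 := (Module.End.hasEigenvalue_iff_isRoot).2 h1
    obtain ⟨v, hv⟩ := h2.exists_hasEigenvector
    apply hv.2
    refine h y (by rw [hy]; exact hr) (by rw [hy]; exact hrp) v ?_
    have := hv.apply_eq_smul
    rwa [one_smul] at this
  have hζo : orderOf ζ = r := orderOf_eq_prime hζr hζ1
  have hζ0 : ζ ≠ 0 := by
    rintro h0
    rw [h0, zero_pow hr.ne_zero] at hζr
    exact zero_ne_one hζr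
  have hζpow : ∀ a b : ℕ, ζ ^ a = ζ ^ b ↔ a ≡ b [MOD r] := by
    intro a b
    have ho' : orderOf (Units.mk0 ζ hζ0) = r := by
      rw [← hζo, ← orderOf_units, Units.val_mk0]
    rw [← ho', ← pow_eq_pow_iff_modEq, Units.ext_iff, Units.val_pow_eq_pow_val, Units.val_pow_eq_pow_val, Units.val_mk0]
  have hypow : ∀ a b : ℕ, y ^ a = y ^ b ↔ a ≡ b [MOD r] := by
    intro a b; rw [pow_eq_pow_iff_modEq, hy]
  have hex : ∀ φ : MulAut (zpowers y), ∃ k : ℕ, ((φ ⟨y, Subgroup.mem_zpowers y⟩ : zpowers y) : K) = y ^ k := by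
    intro φ
    have hf : IsOfFinOrder y := isOfFinOrder_of_finite y
    obtain ⟨k, hk⟩ := hf.mem_powers_iff_mem_zpowers.2 (φ ⟨y, Subgroup.mem_zpowers y⟩).2
    exact ⟨k, hk.symm⟩
  choose k hk using hex
  have hk' : ∀ φ : MulAut (zpowers y), φ ⟨y, Subgroup.mem_zpowers y⟩ = (⟨y, Subgroup.mem_zpowers y⟩ : zpowers y) ^ k φ :=
    fun φ => Subtype.ext (hk φ)
  let θ0 : MulAut (zpowers y) →* ZMod r :=
    { toFun := fun φ => (k φ : ZMod r)
      map_one' := by
        rw [← Nat.cast_one, ZMod.natCast_eq_natCast_iff, ← hypow, ← hk, pow_one]; rfl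
      map_mul' := fun φ ψ => by
        rw [← Nat.cast_mul, ZMod.natCast_eq_natCast_iff, ← hypow, ← hk, MulAut.mul_apply, hk' ψ, map_pow, hk' φ,
          ← pow_mul]
        rfl }
  let θ : MulAut (zpowers y) →* (ZMod r)ˣ := θ0.toHomUnits
  have hθv : ∀ φ, ((θ φ : (ZMod r)ˣ) : ZMod r) = (k φ : ZMod r) := fun φ => rfl
  have hθi : Function.Injective θ := by
    intro φ ψ hφψ
    have h1 : (k φ : ZMod r) = (k ψ : ZMod r) := by rw [← hθv, ← hθv, hφψ]
    rw [ZMod.natCast_eq_natCast_iff, ← hypow, ← hk, ← hk] at h1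
    have h2 := Subtype.ext h1
    ext ⟨x, hx⟩
    obtain ⟨i, rfl⟩ := mem_zpowers_iff.1 hx
    have h3 : (⟨y ^ i, hx⟩ : zpowers y) = (⟨y, Subgroup.mem_zpowers y⟩ : zpowers y) ^ i := rfl
    rw [h3, map_zpow, map_zpow, h2]
  set R : Subgroup (ZMod r)ˣ := κ.range.map θ with hR
  have hRc : Nat.card R = nc y := by rw [hR, Subgroup.card_map_of_injective hθi]; rfl
  let J : Set (ZMod r)ˣ := {u | Polynomial.aeval (ζ ^ (u : ZMod r).val) m = 0}
  have hJmem : ∀ (u : (ZMod r)ˣ) (n : ℕ), (n : ZMod r) = (u : ZMod r) → (u ∈ J ↔ Polynomial.aeval (ζ ^ n) m = 0) := by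
    intro u n hn
    have h1 : ζ ^ (u : ZMod r).val = ζ ^ n := by
      rw [hζpow, ← ZMod.natCast_eq_natCast_iff, ZMod.natCast_zmod_val, hn]
    change Polynomial.aeval (ζ ^ (u : ZMod r).val) m = 0 ↔ _
    rw [h1]
  have hJR : ∀ u ∈ J, ∀ w ∈ R, u * w ∈ J := by
    rintro u hu _ ⟨_, ⟨⟨g, hgN⟩, rfl⟩, rfl⟩
    set φ : MulAut (zpowers y) := κ ⟨g, hgN⟩ with hφ
    rw [hJmem _ ((u : ZMod r).val * k φ) (by
      rw [Nat.cast_mul, ZMod.natCast_zmod_val, Units.val_mul]
      rfl)]
    have h1 := hk φ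
    have h2 : ((φ ⟨y, Subgroup.mem_zpowers y⟩ : zpowers y) : K) = g * y * g⁻¹ := rfl
    rw [h2] at h1
    have h3 : ρ g * ρ y = ρ (y ^ k φ) * ρ g := by
      rw [← h1, ← map_mul, ← map_mul]
      congr 1; group
    have h4 := semiconj_aeval h3 m
    rw [minpoly.aeval, mul_zero] at h4
    have h5 : Polynomial.aeval (ρ (y ^ k φ)) m = 0 := by
      have h6 := congrArg (fun z => z * ρ g⁻¹) h4.symm
      simp only [zero_mul] at h6
      rwa [mul_assoc, ← map_mul, mul_inv_cancel, map_one, mul_one] at h6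
    have h6 : m ∣ m.comp (Polynomial.X ^ k φ) := by
      apply minpoly.dvd
      rw [Polynomial.aeval_comp, map_pow, Polynomial.aeval_X, ← map_pow]
      exact h5
    have h7 := Polynomial.aeval_eq_zero_of_dvd_aeval_eq_zero h6 hu
    rw [Polynomial.aeval_comp, map_pow, Polynomial.aeval_X, ← pow_mul] at h7
    exact h7
  have hqr : Nat.Coprime (Nat.card F) r := by
    have hFt := Fintype.ofFinite F
    obtain ⟨n, _, hn⟩ := FiniteField.card F p
    rw [Nat.card_eq_fintype_card, hn]
    exact Nat.Coprime.pow_left _ ((Nat.coprime_primes hp hr).2 hrp.symm)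
  set q' : (ZMod r)ˣ := ZMod.unitOfCoprime (Nat.card F) hqr with hq'
  have hJq1 : ∀ u ∈ J, u * q' ∈ J := by
    intro u hu
    rw [hJmem _ ((u : ZMod r).val * Nat.card F) (by
      rw [Nat.cast_mul, ZMod.natCast_zmod_val, Units.val_mul, hq', ZMod.coe_unitOfCoprime])]
    have hFt := Fintype.ofFinite F
    have hu' : Polynomial.aeval (ζ ^ (u : ZMod r).val) m = 0 := hu
    rw [pow_mul, Nat.card_eq_fintype_card, ← Polynomial.expand_aeval, FiniteField.expand_card, map_pow, hu',
      zero_pow Fintype.card_ne_zero]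
  have hJq : ∀ u ∈ J, ∀ w ∈ zpowers q', u * w ∈ J := by
    intro u hu w hw
    obtain ⟨n, hn⟩ := (isOfFinOrder_of_finite q').mem_powers_iff_mem_zpowers.2 hw
    have hn' : q' ^ n = w := hn
    rw [← hn']
    clear hn hn' hw
    induction n with
    | zero => simpa using hu
    | succ n ih =>
      rw [pow_succ, ← mul_assoc]
      exact hJq1 _ ih
  have hclosed : ∀ H : Subgroup (ZMod r)ˣ, (∀ u ∈ J, ∀ w ∈ H, u * w ∈ J) → Nat.card H ∣ Nat.card J := by
    intro H hH
    have h1 : J * (H : Set (ZMod r)ˣ) = J := by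
      apply Set.Subset.antisymm
      · rintro _ ⟨u, hu, w, hw, rfl⟩
        exact hH u hu w hw
      · intro u hu
        exact ⟨u, hu, 1, H.one_mem, mul_one u⟩
    have h2 := Subgroup.card_mul_eq_card_subgroup_mul_card_quotient H J
    rw [h1] at h2
    exact Dvd.intro _ h2.symm
  have h1J : (1 : (ZMod r)ˣ) ∈ J := by
    rw [hJmem 1 1 (by simp), pow_one]
    exact hζ
  have hJfin : Finite J := inferInstance
  refine ⟨Nat.card J, ?_, ?_, ?_, ?_⟩
  · have : Nonempty J := ⟨⟨1, h1J⟩⟩
    exact Nat.card_pos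
  · have hfr : Finite (m.rootSet E) := (Polynomial.rootSet_finite m E).to_subtype
    have hmr : ∀ u : J, ζ ^ ((u : (ZMod r)ˣ) : ZMod r).val ∈ m.rootSet E := by
      intro u
      rw [Polynomial.mem_rootSet]
      exact ⟨minpoly.ne_zero hint, u.2⟩
    have hinj : Function.Injective (fun u : J => (⟨ζ ^ ((u : (ZMod r)ˣ) : ZMod r).val, hmr u⟩ : m.rootSet E)) := by
      intro u w huw
      have h1 : ζ ^ ((u : (ZMod r)ˣ) : ZMod r).val = ζ ^ ((w : (ZMod r)ˣ) : ZMod r).val := congrArg Subtype.val huw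
      rw [hζpow, ← ZMod.natCast_eq_natCast_iff, ZMod.natCast_zmod_val, ZMod.natCast_zmod_val] at h1
      exact Subtype.ext (Units.ext h1)
    have h1 : Nat.card J ≤ Nat.card (m.rootSet E) := Nat.card_le_card_of_injective _ hinj
    have h2 : Nat.card (m.rootSet E) ≤ m.natDegree := by
      rw [Nat.card_coe_set_eq]
      exact Polynomial.ncard_rootSet_le m E
    have h3 : m.natDegree ≤ Module.finrank F V := by
      have h4 : m ∣ (ρ y).charpoly := LinearMap.minpoly_dvd_charpoly (ρ y)
      rw [← LinearMap.charpoly_natDegree (ρ y)]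
      exact Polynomial.natDegree_le_of_dvd h4 (LinearMap.charpoly_monic (ρ y)).ne_zero
    exact h1.trans (h2.trans h3)
  · rw [← hRc]; exact hclosed R hJR
  · have h1 : orderOf ((Nat.card F : ℕ) : ZMod r) = Nat.card (zpowers q') := by
      rw [Nat.card_zpowers, ← orderOf_units, hq', ZMod.coe_unitOfCoprime]
    rw [h1]; exact hclosed _ hJq

end fpf2

end Cfsg.Agent.H997.Rg
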