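import Cfsg.Agent.H997.Rg.Core
import Cfsg.Agent.S0342
import Cfsg.Agent.S3099
import Cfsg.Agent.S0205
import Cfsg.Agent.S0813
import Cfsg.Agent.ClassicalGeometry.PSL2Basic
import Cfsg.Agent.S2119
import Cfsg.Agent.S2126
import Cfsg.Agent.H331.SCExc

/-!
# The possible components in the residual cases of S3691 (helper997)
-/

set_option autoImplicit false

open Subgroup Cfsg Matrix
open Cfsg.Agent.SignalizersComponents.Components

namespace Cfsg.Agent.H997.Rg

universe u

/-- The possible shapes of the simple group `L / Z(L)`. -/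
def Shape (p : ℕ) (S : Type u) [Group S] : Prop :=
  (∃ (F : Type) (_ : Field F) (_ : Fintype F) (b : ℕ), Fintype.card F = p ^ b ∧ 4 ≤ p ^ b ∧
      Nonempty (S ≃* ProjectiveSpecialLinearGroup (Fin 2) F)) ∨
  (∃ (F : Type) (_ : Field F) (_ : Fintype F), (Fintype.card F).Prime ∧ Fintype.card F ≠ p ∧ 5 ≤ Fintype.card F ∧
      Nonempty (S ≃* ProjectiveSpecialLinearGroup (Fin 2) F)) ∨
  (p = 2 ∧ IsSuzuki S) ∨ (p = 2 ∧ IsJ1 S) ∨ (p ≠ 2 ∧ Nonempty (S ≃* alternatingGroup (Fin 7)))

/-! ### Sylow subgroups of subgroups and quotients -/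

theorem cyc_sub {K : Type*} [Group K] [Finite K] {s : ℕ} (hs : s.Prime) (h : ∀ P : Sylow s K, IsCyclic P)
    (L : Subgroup K) (P : Sylow s L) : IsCyclic P := by
  have := Fact.mk hs
  have h1 : IsPGroup s ((P : Subgroup L).map L.subtype) := P.isPGroup'.map _
  obtain ⟨Q, hQ⟩ := h1.exists_le_sylow
  have hQc := h Q
  let f : (P : Subgroup L) →* (Q : Subgroup K) :=
    { toFun := fun x => ⟨((x : L) : K), hQ ⟨x, x.2, rfl⟩⟩
      map_one' := rfl
      map_mul' := fun _ _ => rfl }
  refine isCyclic_of_injective f ?_
  intro a b hab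
  apply Subtype.ext; apply Subtype.ext
  exact congrArg (fun z : (Q : Subgroup K) => (z : K)) hab

theorem cyc_quot {L S : Type*} [Group L] [Finite L] [Group S] {s : ℕ} (hs : s.Prime)
    (h : ∀ P : Sylow s L, IsCyclic P) (f : L →* S) (hf : Function.Surjective f) (P : Sylow s S) : IsCyclic P := by
  have := Fact.mk hs
  obtain ⟨Q, rfl⟩ := Sylow.mapSurjective_surjective hf s P
  have hQ := h Q
  let g : (Q : Subgroup L) →* ((Q.mapSurjective hf : Sylow s S) : Subgroup S) :=
    { toFun := fun x => ⟨f x.1, ⟨x.1, x.2, rfl⟩⟩
      map_one' := Subtype.ext (map_one f)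
      map_mul' := fun a b => Subtype.ext (map_mul f a.1 b.1) }
  refine isCyclic_of_surjective g ?_
  rintro ⟨z, ⟨x, hx, rfl⟩⟩
  exact ⟨⟨x, hx⟩, rfl⟩

/-- Isomorphic groups have isomorphic central quotients. -/
noncomputable def centerQuot {A B : Type*} [Group A] [Group B] (e : A ≃* B) : A ⧸ center A ≃* B ⧸ center B :=
  QuotientGroup.congr (center A) (center B) e (by
    ext x
    constructor
    · rintro ⟨y, hy, rfl⟩
      have hy' : y ∈ center A := hy
      rw [mem_center_iff] at hy' ⊢
      intro g
      have := hy' (e.symm g)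
      have h2 := congrArg e this
      rw [map_mul, map_mul, MulEquiv.apply_symm_apply] at h2
      exact h2
    · intro hx
      refine ⟨e.symm x, ?_, e.apply_symm_apply x⟩
      change e.symm x ∈ center A
      rw [mem_center_iff] at hx ⊢
      intro g
      have := hx (e g)
      have h2 := congrArg e.symm this
      rw [map_mul, map_mul, MulEquiv.symm_apply_apply] at h2
      exact h2)

/-- For `L` quasisimple and `N` proper normal, `L/Z(L)` is the central quotient of `L/N`. -/
theorem quot_quot {L : Type*} [Group L] (hL : IsQuasisimple L) (N : Subgroup L) [N.Normal] (hN : N ≠ ⊤) :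
    Nonempty (L ⧸ center L ≃* (L ⧸ N) ⧸ center (L ⧸ N)) := by
  let f : L →* (L ⧸ N) ⧸ center (L ⧸ N) := (QuotientGroup.mk' (center (L ⧸ N))).comp (QuotientGroup.mk' N)
  have hf : Function.Surjective f :=
    (QuotientGroup.mk'_surjective _).comp (QuotientGroup.mk'_surjective _)
  have hker : ∀ x : L, x ∈ f.ker ↔ (x : L ⧸ N) ∈ center (L ⧸ N) := by
    intro x
    rw [MonoidHom.mem_ker]
    exact QuotientGroup.eq_one_iff _
  have hker' : f.ker = center L := by
    have hcase := quasisimple_normal hL f.ker inferInstance
    rcases hcase with h | h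
    · exfalso
      -- then L/N is abelian
      apply hN
      rw [eq_top_iff]
      have h1 : commutator L ≤ N := by
        rw [commutator_def, Subgroup.commutator_le]
        intro a _ b _
        have ha : (a : L ⧸ N) ∈ center (L ⧸ N) := (hker a).1 (by rw [h]; trivial)
        rw [← QuotientGroup.eq_one_iff]
        have := mem_center_iff.1 ha (b : L ⧸ N)
        change ((a * b * a⁻¹ * b⁻¹ : L) : L ⧸ N) = 1
        rw [QuotientGroup.mk_mul, QuotientGroup.mk_mul, QuotientGroup.mk_mul, QuotientGroup.mk_inv,
          QuotientGroup.mk_inv, ← this]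
        group
      have h2 := (quasisimple_isPerfect hL).commutator_eq_top
      rwa [h2] at h1
    · refine le_antisymm h ?_
      intro x hx
      rw [hker, mem_center_iff]
      intro g
      obtain ⟨g, rfl⟩ := QuotientGroup.mk_surjective g
      rw [← QuotientGroup.mk_mul, ← QuotientGroup.mk_mul, mem_center_iff.1 hx g]
  exact ⟨(QuotientGroup.quotientMulEquivOfEq hker'.symm).trans (QuotientGroup.quotientKerEquivOfSurjective f hf)⟩

/-! ### `PSL₂(F)` with cyclic Sylow subgroups in the characteristic -/

/-- Upper unitriangular matrices. -/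
def upp {F : Type*} [Field F] : Multiplicative F →* SpecialLinearGroup (Fin 2) F where
  toFun t := ⟨!![1, t.toAdd; 0, 1], by simp [Matrix.det_fin_two]⟩
  map_one' := by
    apply Subtype.ext
    ext i j
    fin_cases i <;> fin_cases j <;> simp
  map_mul' a b := by
    apply Subtype.ext
    change !![1, Multiplicative.toAdd (a * b); 0, 1] =
      !![1, Multiplicative.toAdd a; 0, 1] * !![1, Multiplicative.toAdd b; 0, 1]
    rw [Matrix.mul_fin_two]
    ext i j
    fin_cases i <;> fin_cases j <;> simp [add_comm]

theorem psl2_prime {F : Type*} [Field F] [Fintype F] {l : ℕ} (hl : l.Prime) {b : ℕ} (hF : Fintype.card F = l ^ b)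
    (hc : ∀ P : Sylow l (ProjectiveSpecialLinearGroup (Fin 2) F), IsCyclic P) : b = 1 := by
  classical
  have := Fact.mk hl
  let f : Multiplicative F →* ProjectiveSpecialLinearGroup (Fin 2) F :=
    (QuotientGroup.mk' (center (SpecialLinearGroup (Fin 2) F))).comp upp
  have hinj : Function.Injective f := by
    rw [injective_iff_map_eq_one]
    intro t ht
    have h1 : (upp t : SpecialLinearGroup (Fin 2) F) ∈ center (SpecialLinearGroup (Fin 2) F) :=
      (QuotientGroup.eq_one_iff _).1 ht
    rw [Matrix.SpecialLinearGroup.mem_center_iff] at h1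
    obtain ⟨r, _, hr⟩ := h1
    have h2 := congrArg (fun M : Matrix (Fin 2) (Fin 2) F => M 0 1) hr
    simp [upp] at h2
    exact Multiplicative.toAdd.injective (by rw [toAdd_one]; exact h2.symm)
  have hb : b ≠ 0 := by
    rintro rfl
    have := Fintype.one_lt_card (α := F)
    rw [hF] at this
    simp at this
  have hcharF : CharP F l := by
    obtain ⟨c, hc'⟩ := CharP.exists F
    obtain ⟨n, hcp, hn⟩ := FiniteField.card F c
    have : c = l := by
      have h1 : c ∣ l ^ b := by
        rw [← hF, hn]; exact dvd_pow_self c n.ne_zero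
      exact (Nat.prime_dvd_prime_iff_eq hcp hl).1 (hcp.dvd_of_dvd_pow h1)
    rwa [this] at hc'
  have hpg : IsPGroup l f.range := by
    apply IsPGroup.of_card (n := b)
    rw [← hF, ← Nat.card_eq_fintype_card]
    exact (Nat.card_congr (MonoidHom.ofInjective hinj).toEquiv).symm
  obtain ⟨P, hP⟩ := hpg.exists_le_sylow
  have hPc := hc P
  have hcycF : IsCyclic (Multiplicative F) := by
    let g : Multiplicative F →* P :=
      { toFun := fun x => ⟨f x, hP ⟨x, rfl⟩⟩
        map_one' := Subtype.ext (map_one f)
        map_mul' := fun a b => Subtype.ext (map_mul f a b) }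
    exact isCyclic_of_injective g (fun a b h => hinj (congrArg Subtype.val h))
  have h2 : (Finset.univ.filter fun z : Multiplicative F => z ^ l = 1).card ≤ l :=
    IsCyclic.card_pow_eq_one_le hl.pos
  have h3 : (Finset.univ.filter fun z : Multiplicative F => z ^ l = 1) = Finset.univ := by
    rw [Finset.filter_eq_self]
    intro z _
    apply Multiplicative.toAdd.injective
    rw [toAdd_pow, toAdd_one, nsmul_eq_mul, CharP.cast_eq_zero, zero_mul]
  rw [h3, Finset.card_univ] at h2
  have h4 : Fintype.card (Multiplicative F) = l ^ b := by rw [← hF]; exact Fintype.card_multiplicative F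
  rw [h4] at h2
  have h5 : b ≤ 1 := by
    by_contra hb2
    have : l ^ 2 ≤ l ^ b := Nat.pow_le_pow_right hl.pos (by omega)
    have h6 := hl.one_lt
    nlinarith
  omega

/-- The outer automorphism group of the first Janko group, as a hypothesis. -/
def OutJ1 : Prop := ∀ (S : Type u) [Group S] [Finite S] [IsSimpleGroup S], IsJ1 S → Nat.card (Cfsg.Out S) = 1

theorem not_comm_of {S : Type*} [Group S] (h : ¬ Group.IsSolvable S) : ∃ a b : S, a * b ≠ b * a := by
  by_contra hcon
  push Not at hcon
  apply h
  letI : CommGroup S := { (inferInstance : Group S) with mul_comm := hcon }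
  infer_instance

theorem center_bot {S : Type*} [Group S] [IsSimpleGroup S] (h : ∃ a b : S, a * b ≠ b * a) : center S = ⊥ := by
  rcases (inferInstance : (center S).Normal).eq_bot_or_eq_top with h1 | h1
  · exact h1
  · exfalso
    obtain ⟨a, b, hab⟩ := h
    exact hab (mem_center_iff.1 (by rw [h1]; trivial : b ∈ center S) a)

theorem card_mulAut {S : Type*} [Group S] [Finite S] (hZ : center S = ⊥) :
    Nat.card (MulAut S) = Nat.card S * Nat.card (Cfsg.Out S) := by
  have h1 : Nat.card (Cfsg.Inn S) = Nat.card S := by
    have h2 : Function.Injective (MulAut.conj : S →* MulAut S) := by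
      rw [injective_iff_map_eq_one]
      intro g hg
      have h3 : g ∈ center S := by
        rw [mem_center_iff]
        intro x
        have h4 := DFunLike.congr_fun hg x
        rw [MulAut.conj_apply, MulAut.one_apply] at h4
        exact (mul_inv_eq_iff_eq_mul.1 h4).symm
      rwa [hZ, mem_bot] at h3
    exact (Nat.card_congr (MonoidHom.ofInjective h2).toEquiv).symm
  rw [← h1]
  exact (Cfsg.Inn S).card_mul_index.symm

/-- The shape of a quasisimple subgroup. -/
theorem shape {K : Type u} [Group K] [Finite K] {p : ℕ} (hp : p.Prime)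
    (hcyc : ∀ s : ℕ, s.Prime → s ≠ 2 → s ≠ p → ∀ P : Sylow s K, IsCyclic P)
    (h2 : p = 2 ∨ ∀ a b : K, Commute a b → orderOf a = 2 → orderOf b = 2 → a = b)
    (L : Subgroup K) (hL : IsQuasisimple L) : Shape p (↥L ⧸ center ↥L) := by
  classical
  have hsimple : IsSimpleGroup (↥L ⧸ center ↥L) := hL.2
  have hns := quasisimple_quot_not_solvable hL
  have hnc := not_comm_of hns
  have hcq : ∀ s : ℕ, s.Prime → s ≠ 2 → s ≠ p → ∀ P : Sylow s (↥L ⧸ center ↥L), IsCyclic P := by
    intro s hs hs2 hsp P
    exact cyc_quot hs (cyc_sub hs (hcyc s hs hs2 hsp) L) (QuotientGroup.mk' (center L))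
      (QuotientGroup.mk'_surjective _) P
  -- small fields
  have hbig : ∀ (F : Type) [Field F] [Fintype F], Nonempty (↥L ⧸ center ↥L ≃* ProjectiveSpecialLinearGroup (Fin 2) F) →
      4 ≤ Fintype.card F := by
    intro F _ _ ⟨e⟩
    by_contra hlt
    have h1 : 1 < Fintype.card F := Fintype.one_lt_card
    apply hns
    have hc := Nat.card_congr e.toEquiv
    have h23 : Fintype.card F = 2 ∨ Fintype.card F = 3 := by omega
    rcases h23 with h | h
    · rw [ClassicalGeometry.PSL2Basic.card_PSL2_even (F := F) (by rw [h]; decide), h] at hc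
      exact Cfsg.Agent.S0144.result 2 3 1 1 Nat.prime_two Nat.prime_three (by rw [hc]; norm_num)
    · have h5 := ClassicalGeometry.PSL2Basic.card_PSL2_odd (F := F) (by rw [h]; decide)
      rw [h] at h5
      have h6 : Nat.card (ProjectiveSpecialLinearGroup (Fin 2) F) = 12 := by omega
      rw [h6] at hc
      exact Cfsg.Agent.S0144.result 2 3 2 1 Nat.prime_two Nat.prime_three (by rw [hc]; norm_num)
  by_cases hp2 : p = 2
  · subst hp2
    rcases Cfsg.Agent.S0342.result (G := ↥L ⧸ center ↥L) hnc (fun s P hs hs2 => hcq s hs hs2 hs2 P) with h | h | h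
    · obtain ⟨F, iF, iF', hF, he⟩ := h
      have h4 := hbig F he
      by_cases hev : ∃ f : ℕ, Fintype.card F = 2 ^ f
      · obtain ⟨f, hf⟩ := hev
        exact Or.inl ⟨F, iF, iF', f, hf, by rw [← hf]; exact h4, he⟩
      · have hpr : (Fintype.card F).Prime := by
          rcases hF with h | h
          · exact h
          · exact absurd h hev
        have hne : Fintype.card F ≠ 2 := by omega
        have hne4 : Fintype.card F ≠ 4 := by
          intro h; rw [h] at hpr; exact absurd hpr (by norm_num)
        exact Or.inr (Or.inl ⟨F, iF, iF', hpr, hne, by omega, he⟩)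
    · exact Or.inr (Or.inr (Or.inl ⟨rfl, h⟩))
    · exact Or.inr (Or.inr (Or.inr (Or.inl ⟨rfl, h⟩)))
  · rcases h2 with h2 | h2
    · exact absurd h2 hp2
    -- rank one
    have hrk : PRankLE 2 1 L := by
      intro A hA hA2
      by_contra hlt
      push Not at hlt
      rw [pow_one] at hlt
      -- two distinct involutions
      have : ∃ a b : A, a ≠ 1 ∧ b ≠ 1 ∧ a ≠ b := by
        by_contra hcon
        push Not at hcon
        have h3 : ∀ a b : A, a ≠ 1 → b ≠ 1 → a = b := hcon
        by_cases h1 : ∃ a : A, a ≠ 1
        · obtain ⟨a, ha⟩ := h1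
          have h4 : (Set.univ : Set A) ⊆ {1, a} := by
            intro x _
            by_cases hx : x = 1
            · left; exact hx
            · right; exact h3 x a hx ha
          have h5 := Set.ncard_le_ncard h4
          have h6 : ({1, a} : Set A).ncard ≤ 2 :=
            (Set.ncard_insert_le _ _).trans (by rw [Set.ncard_singleton])
          rw [Set.ncard_univ] at h5
          omega
        · push Not at h1
          have h4 : (Set.univ : Set A) ⊆ {1} := fun x _ => h1 x
          have h5 := Set.ncard_le_ncard h4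
          rw [Set.ncard_univ, Set.ncard_singleton] at h5
          omega
      obtain ⟨a, b, ha, hb, hab⟩ := this
      apply hab
      have hcomm : Commute (((a : L) : K)) ((b : L) : K) := by
        have := hA.is_comm.comm a b
        exact congrArg (fun z : A => ((z : L) : K)) this
      have ho : ∀ z : A, z ≠ 1 → orderOf ((z : L) : K) = 2 := by
        intro z hz
        refine orderOf_eq_prime ?_ ?_
        · have := hA2 z z.2
          exact congrArg (fun z : L => (z : K)) this
        · intro h
          apply hz
          apply Subtype.ext; apply Subtype.ext; exact h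
      have := h2 _ _ hcomm (ho a ha) (ho b hb)
      apply Subtype.ext; apply Subtype.ext; exact this
    have hLns : ¬ Group.IsSolvable L := quasisimple_not_isSolvable hL
    have heven : Even (Nat.card L) := by
      by_contra hodd
      exact hLns (Cfsg.Agent.S0205.result (Nat.not_even_iff_odd.1 hodd))
    have hOn : (oddCore L).Normal := Lib.Cores.pPrimeCore_normal 2
    have hOne : oddCore L ≠ ⊤ := by
      intro h
      have h3 := Lib.Cores.pPrimeCore_coprime (G := L) 2
      change (Nat.card (oddCore L)).Coprime 2 at h3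
      rw [h, Subgroup.card_top] at h3
      exact (Nat.not_even_iff_odd.2 (Nat.coprime_two_right.1 h3)) heven
    obtain ⟨eq⟩ := quot_quot hL (oddCore L) hOne
    rcases Cfsg.Agent.S3099.result (quasisimple_isPerfect hL) hrk heven with h | h
    · obtain ⟨F, iF, iF', hodd, h3, ⟨e⟩⟩ := h
      have he : Nonempty (↥L ⧸ center ↥L ≃* ProjectiveSpecialLinearGroup (Fin 2) F) :=
        ⟨eq.trans (centerQuot e)⟩
      have h4 := hbig F he
      obtain ⟨l, hlc⟩ := CharP.exists F
      obtain ⟨n, hlp, hn⟩ := FiniteField.card F l
      by_cases hlp' : l = p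
      · subst hlp'
        exact Or.inl ⟨F, iF, iF', n, hn, by rw [← hn]; exact h4, he⟩
      · have hl2 : l ≠ 2 := by
          rintro rfl
          rw [hn] at hodd
          exact (Nat.not_even_iff_odd.2 hodd) ((Nat.even_pow.2 ⟨even_two, n.ne_zero⟩))
        have h1 : (n : ℕ) = 1 := by
          apply psl2_prime hlp hn
          intro P
          exact cyc_quot hlp (hcq l hlp hl2 hlp') he.some.toMonoidHom he.some.surjective P
        rw [h1, pow_one] at hn
        refine Or.inr (Or.inl ⟨F, iF, iF', by rw [hn]; exact hlp, by rw [hn]; exact hlp', ?_, he⟩)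
        rcases Nat.lt_or_ge (Fintype.card F) 5 with h | h
        · exfalso
          have : Fintype.card F = 4 := by omega
          rw [this] at hodd
          exact absurd hodd (by decide)
        · exact h
    · obtain ⟨_, ⟨e⟩, _⟩ := h
      exact Or.inr (Or.inr (Or.inr (Or.inr ⟨hp2, ⟨eq.trans e⟩⟩)))

end Cfsg.Agent.H997.Rg
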