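import Cfsg.Agent.H997.Rg.Shape
import Cfsg.Agent.S1163

/-!
# Sizes in the residual cases of S3691 (helper997)
-/

set_option autoImplicit false

open Subgroup Cfsg Matrix
open Cfsg.Agent.SignalizersComponents.Components

namespace Cfsg.Agent.H997.Rg

universe u

/-- `Out` of a simple group from the order of the automorphism group of a model. -/
theorem out_mul_of_iso {S : Type u} [Group S] [Finite S] {T : Type*} [Group T] (hZ : center S = ⊥) (e : S ≃* T) :
    Nat.card S * Nat.card (Cfsg.Out S) = Nat.card (MulAut T) := by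
  rw [← card_mulAut hZ]
  exact Nat.card_congr (MulAut.congr e).toEquiv

theorem psl2_data {S : Type u} [Group S] [Finite S] (hZ : center S = ⊥) {F : Type} [Field F] [Fintype F] {l b : ℕ}
    (hl : l.Prime) (hF : Fintype.card F = l ^ b) (h4 : 4 ≤ l ^ b) (e : S ≃* ProjectiveSpecialLinearGroup (Fin 2) F) :
    Nat.card (MulAut S) = b * (l ^ b * ((l ^ b) ^ 2 - 1)) ∧
      Nat.card S * Nat.gcd 2 (l ^ b - 1) = l ^ b * ((l ^ b) ^ 2 - 1) ∧
      Nat.card (Cfsg.Out S) = b * Nat.gcd 2 (l ^ b - 1) := by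
  have := Fact.mk hl
  have hb : 1 ≤ b := by
    rcases Nat.eq_zero_or_pos b with h | h
    · rw [h, pow_zero] at h4; omega
    · exact h
  have h1 : Nat.card (MulAut S) = b * (l ^ b * ((l ^ b) ^ 2 - 1)) := by
    rw [Nat.card_congr (MulAut.congr e).toEquiv, Cfsg.Agent.S0813.result l b hb hF 2 le_rfl (fun _ => h4), if_pos rfl,
      one_mul, ClassicalGeometry.PSL2Basic.card_PGL2, hF]
  have h2 : Nat.card S * Nat.gcd 2 (l ^ b - 1) = l ^ b * ((l ^ b) ^ 2 - 1) := by
    rw [Nat.card_congr e.toEquiv, ← hF, ClassicalGeometry.PSL2Basic.card_PSL2_gcd]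
  refine ⟨h1, h2, ?_⟩
  have h3 := card_mulAut hZ
  rw [h1, ← h2] at h3
  have h0 : 0 < Nat.card S := Nat.card_pos
  apply Nat.eq_of_mul_eq_mul_left h0
  rw [← h3]; ring

theorem a7_data {S : Type u} [Group S] [Finite S] (hZ : center S = ⊥) (e : S ≃* alternatingGroup (Fin 7)) :
    Nat.card (MulAut S) = 5040 ∧ Nat.card (Cfsg.Out S) = 2 := by
  have h1 : Nat.card (MulAut S) = 5040 := by
    rw [Nat.card_congr (MulAut.congr e).toEquiv,
      ← Nat.card_congr (Equiv.ofBijective _ (Cfsg.Agent.S2119.result 7 (by norm_num) (by norm_num))), Nat.card_perm,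
      Nat.card_fin]
    rfl
  refine ⟨h1, ?_⟩
  have h2 : Nat.card S * 2 = 5040 := by
    rw [Nat.card_congr e.toEquiv]
    have := nat_card_alternatingGroup (α := Fin 7)
    rw [this, Nat.card_fin]
    rfl
  have h3 := card_mulAut hZ
  rw [h1, ← h2] at h3
  exact (Nat.eq_of_mul_eq_mul_left Nat.card_pos h3).symm

theorem center_bot_congr {S : Type*} [Group S] {T : Type*} [Group T] (hZ : center S = ⊥) (e : S ≃* T) :
    center T = ⊥ := by
  rw [eq_bot_iff]
  intro x hx
  rw [mem_bot]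
  have h1 : e.symm x ∈ center S := by
    rw [mem_center_iff]
    intro g
    have := mem_center_iff.1 hx (e g)
    have h2 := congrArg e.symm this
    rw [map_mul, map_mul, MulEquiv.symm_apply_apply] at h2
    exact h2
  rw [hZ, mem_bot] at h1
  rw [← e.apply_symm_apply x, h1, map_one]

theorem out_congr {S : Type*} [Group S] [Finite S] {T : Type*} [Group T] (hZ : center S = ⊥) (e : S ≃* T) :
    Nat.card (Cfsg.Out S) = Nat.card (Cfsg.Out T) := by
  have hT : Finite T := Finite.of_equiv S e.toEquiv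
  have h1 := card_mulAut hZ
  have h2 := card_mulAut (center_bot_congr hZ e)
  rw [← Nat.card_congr (MulAut.congr e).toEquiv, ← Nat.card_congr e.toEquiv, h1] at h2
  exact Nat.eq_of_mul_eq_mul_left Nat.card_pos h2

theorem suz_data {S : Type u} [Group S] [Finite S] (hZ : center S = ⊥) (h : IsSuzuki S) : ∃ b : ℕ, Odd b ∧ 3 ≤ b ∧
    Nat.card S = (2 ^ b) ^ 2 * ((2 ^ b) ^ 2 + 1) * (2 ^ b - 1) ∧ Nat.card (Cfsg.Out S) = b := by
  obtain ⟨F, iF, iF', m, hm, hF, ⟨e⟩⟩ := Cfsg.Agent.H331.SCExc.isoSuzuki_of_isSuzuki h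
  refine ⟨2 * m + 1, ⟨m, rfl⟩, by omega, ?_, ?_⟩
  · rw [Nat.card_congr e.toEquiv, (Cfsg.Agent.S1163.result hm hF).1]; ring
  · rw [out_congr hZ e, Cfsg.Agent.S2126.result hm hF]

/-! ### Arithmetic -/

theorem fac_le {p a b : ℕ} (h : a ∣ b) (hb : b ≠ 0) : a.factorization p ≤ b.factorization p := by
  have ha : a ≠ 0 := by rintro rfl; exact hb (zero_dvd_iff.1 h)
  exact (Nat.factorization_le_iff_dvd ha hb).2 h p

theorem coprime_pow_sub_one {p b : ℕ} (hp : p.Prime) (hb : b ≠ 0) : Nat.Coprime p (p ^ b - 1) := by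
  rw [Nat.Prime.coprime_iff_not_dvd hp]
  intro h
  have h1 : p ∣ p ^ b := dvd_pow_self p hb
  have h2 : 1 ≤ p ^ b := Nat.one_le_pow _ _ hp.pos
  have h3 := (Nat.dvd_sub h1 h)
  rw [Nat.sub_sub_self h2] at h3
  exact hp.one_lt.ne' (Nat.dvd_one.1 h3)

theorem prod_bound {p l : ℕ} (hp : p.Prime) (hl : 2 ≤ l) :
    ∃ x y : ℕ, ((l - 1) * (l + 1)).factorization p = x + y ∧ p ^ x ∣ 2 ∧ p ^ y ≤ l + 1 := by
  have h1 : l - 1 ≠ 0 := by omega
  have h2 : l + 1 ≠ 0 := by omega
  rw [Nat.factorization_mul h1 h2, Finsupp.add_apply]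
  have hd1 : p ^ (l - 1).factorization p ∣ l - 1 := Nat.ordProj_dvd _ _
  have hd2 : p ^ (l + 1).factorization p ∣ l + 1 := Nat.ordProj_dvd _ _
  have h22 : l + 1 - (l - 1) = 2 := by omega
  rcases le_total ((l - 1).factorization p) ((l + 1).factorization p) with h | h
  · refine ⟨(l - 1).factorization p, (l + 1).factorization p, rfl, ?_, Nat.le_of_dvd (by omega) hd2⟩
    have := Nat.dvd_sub ((pow_dvd_pow p h).trans hd2) hd1
    rwa [h22] at this
  · refine ⟨(l + 1).factorization p, (l - 1).factorization p, add_comm _ _, ?_,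
      (Nat.le_of_dvd (by omega) hd1).trans (by omega)⟩
    have := Nat.dvd_sub hd2 ((pow_dvd_pow p h).trans hd1)
    rwa [h22] at this

theorem out_not_dvd (hJ : OutJ1.{u}) {S : Type u} [Group S] [Finite S] [IsSimpleGroup S]
    (hnc : ∃ a b : S, a * b ≠ b * a) {p r : ℕ} (hp : p.Prime) (hr : r.Prime) (hr2 : r ≠ 2)
    (hS : Shape p S) (hv : (Nat.card S).factorization p < r) : ¬ r ∣ Nat.card (Cfsg.Out S) := by
  have hZ := center_bot hnc
  have hS0 : Nat.card S ≠ 0 := Nat.card_pos.ne'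
  intro hd
  rcases hS with h | h | h | h | h
  · obtain ⟨F, iF, iF', b, hF, h4, ⟨e⟩⟩ := h
    obtain ⟨_, h2, h3⟩ := psl2_data hZ hp hF h4 e
    have hb : b ≠ 0 := by rintro rfl; rw [pow_zero] at h4; omega
    rw [h3] at hd
    rcases (Nat.Prime.dvd_mul hr).1 hd with h | h
    · have h5 : r ≤ b := Nat.le_of_dvd (Nat.pos_of_ne_zero hb) h
      have h6 : p ^ b ∣ Nat.card S := by
        have h7 : p ^ b ∣ Nat.card S * Nat.gcd 2 (p ^ b - 1) := by rw [h2]; exact dvd_mul_right _ _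
        refine Nat.Coprime.dvd_of_dvd_mul_right ?_ h7
        exact Nat.Coprime.pow_left b (Nat.Coprime.coprime_dvd_right (Nat.gcd_dvd_right _ _) (coprime_pow_sub_one hp hb))
      have h8 := (hp.pow_dvd_iff_le_factorization hS0).1 h6
      omega
    · exact hr2 ((Nat.prime_dvd_prime_iff_eq hr Nat.prime_two).1 (h.trans (Nat.gcd_dvd_left _ _)))
  · obtain ⟨F, iF, iF', hpr, hne, h5, ⟨e⟩⟩ := h
    obtain ⟨_, _, h3⟩ := psl2_data hZ (l := Fintype.card F) (b := 1) hpr (pow_one _).symm (by rw [pow_one]; omega) e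
    rw [h3, one_mul] at hd
    exact hr2 ((Nat.prime_dvd_prime_iff_eq hr Nat.prime_two).1 (hd.trans (Nat.gcd_dvd_left _ _)))
  · obtain ⟨rfl, h⟩ := h
    obtain ⟨b, hb, hb3, hc, ho⟩ := suz_data hZ h
    rw [ho] at hd
    have h5 : r ≤ b := Nat.le_of_dvd (by omega) hd
    have h6 : 2 ^ (b * 2) ∣ Nat.card S := by
      rw [hc, pow_mul, mul_assoc]; exact dvd_mul_right _ _
    have h8 := (Nat.prime_two.pow_dvd_iff_le_factorization hS0).1 h6
    omega
  · obtain ⟨rfl, h⟩ := h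
    rw [hJ S h] at hd
    exact hr.one_lt.ne' (Nat.dvd_one.1 hd)
  · obtain ⟨_, ⟨e⟩⟩ := h
    rw [(a7_data hZ e).2] at hd
    exact hr2 ((Nat.prime_dvd_prime_iff_eq hr Nat.prime_two).1 hd)

theorem pow_5040_le {p : ℕ} (hp : p.Prime) (hp2 : p ≠ 2) : p ^ (5040 : ℕ).factorization p ≤ 9 := by
  have h3 : p ^ (5040 : ℕ).factorization p ∣ 5040 := Nat.ordProj_dvd _ _
  have hcop : Nat.Coprime (p ^ (5040 : ℕ).factorization p) (2 ^ 4) :=
    Nat.Coprime.pow_left _ (Nat.Coprime.pow_right _ ((Nat.coprime_primes hp Nat.prime_two).2 hp2))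
  have h4 : p ^ (5040 : ℕ).factorization p ∣ 315 := by
    rw [show (5040 : ℕ) = 2 ^ 4 * 315 by norm_num] at h3 ⊢
    exact Nat.Coprime.dvd_of_dvd_mul_left (by simpa using hcop) h3
  by_cases h0 : (5040 : ℕ).factorization p = 0
  · rw [h0, pow_zero]; norm_num
  have hp3 : p ∣ 315 := (dvd_pow_self p h0).trans h4
  have hp' : p ∣ 3 ^ 2 * 5 * 7 := by norm_num; exact hp3
  have hcases : p = 3 ∨ p = 5 ∨ p = 7 := by
    rcases (Nat.Prime.dvd_mul hp).1 hp' with h | h
    · rcases (Nat.Prime.dvd_mul hp).1 h with h | h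
      · exact Or.inl ((Nat.prime_dvd_prime_iff_eq hp Nat.prime_three).1 (hp.dvd_of_dvd_pow h))
      · exact Or.inr (Or.inl ((Nat.prime_dvd_prime_iff_eq hp Nat.prime_five).1 h))
    · exact Or.inr (Or.inr ((Nat.prime_dvd_prime_iff_eq hp (by norm_num)).1 h))
  have hbd : ∀ k : ℕ, ¬ p ^ k ∣ 315 → (5040 : ℕ).factorization p < k := by
    intro k hk
    by_contra hcon
    push Not at hcon
    exact hk ((pow_dvd_pow p hcon).trans h4)
  rcases hcases with rfl | rfl | rfl
  · have := hbd 3 (by norm_num)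
    calc 3 ^ (5040 : ℕ).factorization 3 ≤ 3 ^ 2 := Nat.pow_le_pow_right (by norm_num) (by omega)
      _ = 9 := by norm_num
  · have := hbd 2 (by norm_num)
    calc 5 ^ (5040 : ℕ).factorization 5 ≤ 5 ^ 1 := Nat.pow_le_pow_right (by norm_num) (by omega)
      _ ≤ 9 := by norm_num
  · have := hbd 2 (by norm_num)
    calc 7 ^ (5040 : ℕ).factorization 7 ≤ 7 ^ 1 := Nat.pow_le_pow_right (by norm_num) (by omega)
      _ ≤ 9 := by norm_num

/-- The numerical conclusion. -/
def Num (p v M c : ℕ) : Prop :=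
  (∃ b : ℕ, 1 ≤ b ∧ 4 ≤ p ^ b ∧ v ≤ c + b ∧ (p ^ b) ^ 2 - 1 ∣ 2 * M) ∨
  (∃ l : ℕ, l.Prime ∧ 5 ≤ l ∧ p ^ v ≤ p ^ c * (l + 1) ∧ l * (l - 1) ≤ 2 * M) ∨
  (p = 2 ∧ ∃ b : ℕ, Odd b ∧ 3 ≤ b ∧ v ≤ c + 2 * b ∧ ((2 ^ b) ^ 2 + 1) * (2 ^ b - 1) ∣ M) ∨
  p ^ v ≤ p ^ c * 9

theorem num_of_shape {S : Type u} [Group S] [Finite S] [IsSimpleGroup S]
    (hnc : ∃ a b : S, a * b ≠ b * a) {p v M c N : ℕ} (hp : p.Prime) (hS : Shape p S) (hN : N = p ^ v * M)
    (hM : ¬ p ∣ M) (hM0 : M ≠ 0) (hSN : Nat.card S ∣ N) (hv : v ≤ c + (Nat.card S).factorization p) :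
    Num p v M c := by
  have hZ := center_bot hnc
  have hS0 : Nat.card S ≠ 0 := Nat.card_pos.ne'
  have hcopM : ∀ k, Nat.Coprime (p ^ k) M := fun k => Nat.Coprime.pow_left k ((Nat.Prime.coprime_iff_not_dvd hp).2 hM)
  rcases hS with h | h | h | h | h
  · obtain ⟨F, iF, iF', b, hF, h4, ⟨e⟩⟩ := h
    obtain ⟨_, h2, _⟩ := psl2_data hZ hp hF h4 e
    have hb : b ≠ 0 := by rintro rfl; rw [pow_zero] at h4; omega
    have hq : p ^ b ≠ 0 := pow_ne_zero _ hp.ne_zero
    have hsq : (p ^ b) ^ 2 - 1 ≠ 0 := by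
      have : 4 ^ 2 ≤ (p ^ b) ^ 2 := Nat.pow_le_pow_left h4 2
      omega
    have hcs : Nat.Coprime p ((p ^ b) ^ 2 - 1) := by
      rw [← pow_mul]; exact coprime_pow_sub_one hp (by positivity)
    refine Or.inl ⟨b, by omega, h4, ?_, ?_⟩
    · have h6 : (Nat.card S).factorization p ≤ b := by
        have h7 := fac_le (p := p) (Dvd.intro _ h2) (mul_ne_zero hq hsq)
        rw [Nat.factorization_mul hq hsq, Finsupp.add_apply, Nat.factorization_pow, Finsupp.smul_apply,
          hp.factorization_self, Nat.factorization_eq_zero_of_not_dvd ((Nat.Prime.coprime_iff_not_dvd hp).1 hcs)] at h7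
        simpa using h7
      omega
    · have h3 : (p ^ b) ^ 2 - 1 ∣ 2 * N := by
        have h5 : (p ^ b) ^ 2 - 1 ∣ Nat.card S * Nat.gcd 2 (p ^ b - 1) := by rw [h2]; exact dvd_mul_left _ _
        rw [mul_comm 2 N]
        exact h5.trans (Nat.mul_dvd_mul hSN (Nat.gcd_dvd_left _ _))
      rw [hN, show 2 * (p ^ v * M) = p ^ v * (2 * M) by ring] at h3
      exact Nat.Coprime.dvd_of_dvd_mul_left (Nat.Coprime.pow_left v hcs).symm h3
  · obtain ⟨F, iF, iF', hpr, hne, h5, ⟨e⟩⟩ := h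
    set l := Fintype.card F with hl
    obtain ⟨_, h2, _⟩ := psl2_data hZ (l := l) (b := 1) hpr (by rw [pow_one]) (by rw [pow_one]; omega) e
    rw [pow_one] at h2
    have hodd : Odd l := hpr.odd_of_ne_two (by omega)
    have hg : Nat.gcd 2 (l - 1) = 2 := by
      apply Nat.gcd_eq_left
      obtain ⟨k, hk⟩ := hodd
      exact ⟨k, by omega⟩
    rw [hg] at h2
    have hfac : l ^ 2 - 1 = (l - 1) * (l + 1) := by
      have := Nat.sq_sub_sq l 1
      rw [one_pow] at this
      rw [this, mul_comm]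
    have hl0 : l ≠ 0 := by omega
    have hp1 : (l - 1) * (l + 1) ≠ 0 := mul_ne_zero (by omega) (by omega)
    obtain ⟨x, y, hxy, hx2, hy⟩ := prod_bound (p := p) hp (l := l) (by omega)
    have hlp : l.factorization p = 0 := by
      apply Nat.factorization_eq_zero_of_not_dvd
      intro h
      exact hne ((Nat.prime_dvd_prime_iff_eq hp hpr).1 h).symm
    have hps : p ^ (Nat.card S).factorization p ≤ l + 1 := by
      have h7 : (Nat.card S * 2).factorization p = x + y := by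
        rw [h2, hfac, Nat.factorization_mul hl0 hp1, Finsupp.add_apply, hxy, hlp, zero_add]
      rw [Nat.factorization_mul hS0 two_ne_zero, Finsupp.add_apply] at h7
      have hxx : x ≤ (2 : ℕ).factorization p := (hp.pow_dvd_iff_le_factorization two_ne_zero).1 hx2
      exact (Nat.pow_le_pow_right hp.pos (by omega)).trans hy
    refine Or.inr (Or.inl ⟨l, hpr, h5, ?_, ?_⟩)
    · calc p ^ v ≤ p ^ (c + (Nat.card S).factorization p) := Nat.pow_le_pow_right hp.pos hv
        _ = p ^ c * p ^ (Nat.card S).factorization p := by rw [pow_add]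
        _ ≤ p ^ c * (l + 1) := Nat.mul_le_mul le_rfl hps
    · -- the p'-part
      set s := (Nat.card S).factorization p with hs
      have hsu : p ^ s * (Nat.card S / p ^ s) = Nat.card S := Nat.mul_div_cancel' (Nat.ordProj_dvd _ _)
      have hu : Nat.card S / p ^ s ∣ M := by
        have h6 : Nat.card S / p ^ s ∣ p ^ v * M := by
          rw [← hN]; exact (Nat.div_dvd_of_dvd (Nat.ordProj_dvd _ _)).trans hSN
        exact Nat.Coprime.dvd_of_dvd_mul_left
          (Nat.Coprime.pow_left v (Nat.coprime_ordCompl hp hS0)).symm h6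
      have hMle : Nat.card S / p ^ s ≤ M := Nat.le_of_dvd (Nat.pos_of_ne_zero hM0) hu
      have h8 : (l + 1) * (l * (l - 1)) ≤ (l + 1) * (2 * M) := by
        calc (l + 1) * (l * (l - 1)) = l * (l ^ 2 - 1) := by rw [hfac]; ring
          _ = Nat.card S * 2 := h2.symm
          _ = 2 * (p ^ s * (Nat.card S / p ^ s)) := by rw [hsu, mul_comm]
          _ ≤ 2 * ((l + 1) * M) := Nat.mul_le_mul le_rfl (Nat.mul_le_mul hps hMle)
          _ = (l + 1) * (2 * M) := by ring
      exact Nat.le_of_mul_le_mul_left h8 (by omega)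
  · obtain ⟨rfl, h⟩ := h
    obtain ⟨b, hb, hb3, hc, ho⟩ := suz_data hZ h
    have hodd1 : ¬ 2 ∣ ((2 ^ b) ^ 2 + 1) * (2 ^ b - 1) := by
      intro h2
      have he : 2 ∣ 2 ^ b := dvd_pow_self 2 (by omega)
      have h1 : 1 ≤ 2 ^ b := Nat.one_le_two_pow
      rcases (Nat.Prime.dvd_mul Nat.prime_two).1 h2 with h3 | h3
      · have h4 : 2 ∣ (2 ^ b) ^ 2 := dvd_pow he two_ne_zero
        omega
      · omega
    have hne : ((2 ^ b) ^ 2 + 1) * (2 ^ b - 1) ≠ 0 := fun h0 => hodd1 (by rw [h0]; exact dvd_zero 2)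
    have hq : (2 ^ b) ^ 2 ≠ 0 := by positivity
    refine Or.inr (Or.inr (Or.inl ⟨rfl, b, hb, hb3, ?_, ?_⟩))
    · have h1 : Nat.card S = (2 ^ b) ^ 2 * (((2 ^ b) ^ 2 + 1) * (2 ^ b - 1)) := by
        rw [hc]; ring
      rw [h1, Nat.factorization_mul hq hne, Finsupp.add_apply, ← pow_mul, Nat.factorization_pow, Finsupp.smul_apply,
        Nat.prime_two.factorization_self, Nat.factorization_eq_zero_of_not_dvd (p := 2) (by
          have := hodd1; rwa [← pow_mul] at this)] at hv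
      simp only [smul_eq_mul, mul_one] at hv
      omega
    · have h3 : ((2 ^ b) ^ 2 + 1) * (2 ^ b - 1) ∣ 2 ^ v * M := by
        rw [← hN]; refine (Dvd.intro_left ((2 ^ b) ^ 2) ?_).trans hSN; rw [hc]; ring
      exact Nat.Coprime.dvd_of_dvd_mul_left
        (Nat.Coprime.pow_left v ((Nat.Prime.coprime_iff_not_dvd Nat.prime_two).2 hodd1)).symm h3
  · obtain ⟨rfl, h⟩ := h
    have h1 : Nat.card S = 175560 := h.2
    have h2 : (175560 : ℕ).factorization 2 ≤ 3 := by
      by_contra hcon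
      push Not at hcon
      have := (Nat.prime_two.pow_dvd_iff_le_factorization (n := 175560) (by norm_num)).2 hcon
      norm_num at this
    rw [h1] at hv
    refine Or.inr (Or.inr (Or.inr ?_))
    calc 2 ^ v ≤ 2 ^ (c + 3) := Nat.pow_le_pow_right two_pos (by omega)
      _ = 2 ^ c * 8 := by rw [pow_add]; norm_num
      _ ≤ _ := Nat.mul_le_mul le_rfl (by norm_num)
  · obtain ⟨hp2, ⟨e⟩⟩ := h
    have h7 : Nat.card S ∣ 5040 := by
      have h71 := card_mulAut hZ
      rw [(a7_data hZ e).1] at h71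
      exact Dvd.intro _ h71.symm
    replace hv : v ≤ c + (5040 : ℕ).factorization p := hv.trans (Nat.add_le_add_left (fac_le h7 (by norm_num)) _)
    refine Or.inr (Or.inr (Or.inr ?_))
    have h2 := pow_5040_le hp hp2
    calc p ^ v ≤ p ^ (c + (5040 : ℕ).factorization p) := Nat.pow_le_pow_right hp.pos hv
      _ = p ^ c * p ^ (5040 : ℕ).factorization p := pow_add _ _ _
      _ ≤ _ := Nat.mul_le_mul le_rfl h2

/-- **The core of the residual cases.** `K` has cyclic Sylow `s`-subgroups for all odd `s ≠ p`, and (if `p` is odd) no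
two commuting distinct involutions; `y` has prime order `r`, centralises the Fitting subgroup, the `p`-part of
`|N_K(⟨y⟩)|` is at most `p^c` and the `p`-part of `|K|` is less than `p^r`.  Then the sizes satisfy `Num`. -/
theorem core (hJ : OutJ1.{u}) {K : Type u} [Group K] [Finite K] {p r c : ℕ} (hp : p.Prime) (hr : r.Prime)
    (hrp : r ≠ p) (hr2 : r ≠ 2)
    (hcyc : ∀ s : ℕ, s.Prime → s ≠ 2 → s ≠ p → ∀ P : Sylow s K, IsCyclic P)
    (h2 : p = 2 ∨ ∀ a b : K, Commute a b → orderOf a = 2 → orderOf b = 2 → a = b)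
    (y : K) (hy : orderOf y = r) (hF : y ∈ centralizer (fittingSubgroup K : Set K))
    (hv : (Nat.card K).factorization p < r)
    (hN : (Nat.card (normalizer (zpowers y : Set K))).factorization p ≤ c) :
    Num p ((Nat.card K).factorization p) (Nat.card K / p ^ (Nat.card K).factorization p) c := by
  have hK0 : Nat.card K ≠ 0 := Nat.card_pos.ne'
  have hdS : ∀ L : Subgroup K, Nat.card (↥L ⧸ center ↥L) ∣ Nat.card K := fun L =>
    (Subgroup.card_quotient_dvd_card _).trans (Subgroup.card_subgroup_dvd_card L)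
  rcases coreA hp hr hrp hr2 hcyc y hy hF (by
    intro L hL
    have hsimple : IsSimpleGroup (↥L ⧸ center ↥L) := hL.2.2
    refine out_not_dvd hJ (not_comm_of (quasisimple_quot_not_solvable hL.2)) hp hr hr2 (shape hp hcyc h2 L hL.2) ?_
    exact lt_of_le_of_lt (fac_le (hdS L) hK0) hv) with h | h
  · rw [Subgroup.normalizer_eq_top_iff.2 h, Subgroup.card_top] at hN
    refine Or.inr (Or.inr (Or.inr ?_))
    exact (Nat.pow_le_pow_right hp.pos hN).trans (Nat.le_mul_of_pos_right _ (by norm_num))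
  · obtain ⟨L, hL, hLn, hyL, _, _⟩ := h
    have hsimple : IsSimpleGroup (↥L ⧸ center ↥L) := hL.2.2
    exact num_of_shape (not_comm_of (quasisimple_quot_not_solvable hL.2)) hp (shape hp hcyc h2 L hL.2)
      (Nat.mul_div_cancel' (Nat.ordProj_dvd _ _)).symm (Nat.not_dvd_ordCompl hp hK0) (Nat.ordCompl_pos p hK0).ne' (hdS L)
      (frattini_fac hr (hcyc r hr hr2 hrp) L hLn hy hyL hN)

end Cfsg.Agent.H997.Rg
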