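import Cfsg.Agent.H997.Rg.UG
import Cfsg.Agent.H370.Rg.Zsig

/-!
# Residual case F-U: final abstract form (helper997; S3691)
-/

set_option autoImplicit false

open Subgroup Cfsg

namespace Cfsg.Agent.H997.Rg

universe u

/-- **F-U**, even dimension -/
theorem fu_even_abs (hJ : OutJ1.{u}) {K : Type u} [Group K] [Finite K] {F V : Type*} [Field F] [Finite F] [AddCommGroup V]
    [Module F V] [FiniteDimensional F V] {p f N : ℕ} [CharP F p] (ρ : K →* Module.End F V)
    (hinj : Function.Injective ρ) (hp : p.Prime) (hf : 1 ≤ f) (hN : 4 ≤ N) (hNe : Even N) (hS : SzL N (p ^ f))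
    (hF : Nat.card F = (p ^ f) ^ 2) (hdim : Module.finrank F V = N) (h : Fpf p ρ) (B : V → V → F)
    (hBl : ∀ u v w, B (u + v) w = B u w + B v w) (hBr : ∀ u v w, B u (v + w) = B u v + B u w)
    (hBsl : ∀ (c : F) v w, B (c • v) w = c * B v w) (hBsr : ∀ (c : F) v w, B v (c • w) = c ^ (p ^ f) * B v w)
    (hBn : ∀ v, (∀ w, B v w = 0) → v = 0) (hBK : ∀ g v w, B (ρ g v) (ρ g w) = B v w)
    {r t : ℕ} (hr : r.Prime) (ha : orderOf (p : ZMod r) = f * N) (hrK : r ∣ Nat.card K)
    (ht : t.Prime) (hat : 2 * orderOf (p : ZMod t) = f * N) (htK : t ∣ Nat.card K) {c g : ℕ} (hc0 : c ≠ 0)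
    (hcard : Nat.card K * c = g * (p ^ (f * (N - 1)) * (p ^ (f * N) - 1)))
    (hc : c.factorization p ≤ (2 * f).factorization p) (hg : ¬ p ∣ g) (hgN : g ≤ N) : False := by
  have := Fact.mk hr
  have := Fact.mk hp
  have := Fact.mk ht
  by_cases h4 : 4 ∣ N
  · exact fu_four_abs hJ ρ hinj hp hf hN h4 hS hF hdim h B hBl hBr hBsl hBsr hBn hBK hr ha hrK hc0 hcard hc hg hgN
  obtain ⟨n, hn⟩ := hNe
  have hn' : N = 2 * n := by omega
  subst hn'
  clear hn
  have hno : Odd n := by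
    rw [← Nat.not_even_iff_odd]
    rintro ⟨k, rfl⟩
    exact h4 ⟨k, by ring⟩
  have hn3 : 3 ≤ n := by
    obtain ⟨k, rfl⟩ := hno
    omega
  have hnt : Nontrivial V := Module.nontrivial_of_finrank_pos (R := F) (by omega)
  have hat' : orderOf (p : ZMod t) = f * n := by
    have : 2 * orderOf (p : ZMod t) = 2 * (f * n) := by rw [hat]; ring
    omega
  have hfn3 : 3 ≤ f * n := by nlinarith
  have hfN : f * (2 * n) ≠ 0 := by positivity
  have htp : t ≠ p := ne_of_orderOf hp hat' (by omega)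
  have hart := lt_of_orderOf ht htp hp hat'
  obtain ⟨h1, h2, h3⟩ := card_num' hp Nat.card_pos.ne' hc0 hcard hg (not_dvd_sub_one hp hfN) hc
  rw [show f * (2 * n) = 2 * (f * n) by ring] at h3
  have hg0 : 0 < g := Nat.pos_of_ne_zero (by rintro rfl; exact hg (dvd_zero p))
  have hpe2 : 2 ≤ p ^ (2 * (f * n)) := by
    calc 2 ≤ p := hp.two_le
      _ = p ^ 1 := (pow_one p).symm
      _ ≤ _ := Nat.pow_le_pow_right hp.pos (by omega)
  obtain ⟨y, hy⟩ := exists_prime_orderOf_dvd_card' (G := K) t htK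
  have hchar : ringChar (ZMod t) ≠ 2 := by
    rw [ZMod.ringChar_zmod_n]; omega
  have hord : orderOf (-((p ^ f : ℕ) : ZMod t)) = Module.finrank F V := by
    rw [hdim]
    exact orderOf_neg_odd hchar hno (order_card hf hat')
  obtain ⟨hcent, hnc, _⟩ := Cfsg.Agent.H899.Rg.ucent hp hF ρ hinj h B hBl hBr hBsl hBsr hBn hBK ht htp hy hord
  rw [hdim] at hnc
  by_cases hOp : pCore p K = ⊥
  · exact fu_caseA hJ ρ hp hf hn3 hno hS hdim h ht hat' hy hcent hnc hOp h1 h2 h3 hg0 hgN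
  · exact fu_caseB hJ ρ hinj hp hf hn3 hno hS hF hdim h ht hat' hy hcent hOp hr (by rw [ha]; ring) hrK h1 h2
      ((Nat.le_of_dvd (Nat.mul_pos hg0 (by omega)) h3).trans (Nat.mul_le_mul hgN le_rfl))

/-- a primitive prime divides `|K|` -/
theorem dvd_card_of {p f N r k a b n X : ℕ} (hp : p.Prime) (hf : 1 ≤ f) (hr : r.Prime)
    (ho : orderOf ((p : ℕ) : ZMod r) = f * k) (hk : 3 ≤ k)
    (ha : a ∣ 2 * f * Nat.gcd N (p ^ f + 1)) (hb : b ∣ p ^ f + 1)
    (hcard : n * (a * b) = X) (hX : r ∣ X) : r ∣ n := by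
  have hrp : r ≠ p := ne_of_orderOf hp ho (by positivity)
  have hrk := lt_of_orderOf hr hrp hp ho
  have hfk : 3 ≤ f * k := by nlinarith
  have hkk : k ≤ f * k := Nat.le_mul_of_pos_left _ hf
  have hr5 : 5 ≤ r := by
    by_contra hcon
    have : r = 4 := by omega
    rw [this] at hr
    norm_num at hr
  rw [← hcard] at hX
  refine ((hr.dvd_mul).1 hX).resolve_right ?_
  intro h1
  rcases (hr.dvd_mul).1 h1 with h2 | h2
  · rcases (hr.dvd_mul).1 (h2.trans ha) with h3 | h3
    · rcases (hr.dvd_mul).1 h3 with h4 | h4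
      · have := Nat.le_of_dvd two_pos h4; omega
      · have := Nat.le_of_dvd (by omega) h4
        have : f ≤ f * k := Nat.le_mul_of_pos_right _ (by omega)
        omega
    · exact Cfsg.Agent.H370.Rg.not_dvd_q_add hr ho (by omega) hk (h3.trans (Nat.gcd_dvd_right _ _))
  · exact Cfsg.Agent.H370.Rg.not_dvd_q_add hr ho (by omega) hk (h2.trans hb)

/-- **F-U**, all dimensions `N ≥ 4` -/
theorem fu_abs (hJ : OutJ1.{u}) {K : Type u} [Group K] [Finite K] {F V : Type*} [Field F] [Finite F] [AddCommGroup V]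
    [Module F V] [FiniteDimensional F V] {p f N : ℕ} [CharP F p] (ρ : K →* Module.End F V)
    (hinj : Function.Injective ρ) (hp : p.Prime) (hf : 1 ≤ f) (hN : 4 ≤ N) (hS : SzL N (p ^ f))
    (hF : Nat.card F = (p ^ f) ^ 2) (hdim : Module.finrank F V = N) (h : Fpf p ρ) (B : V → V → F)
    (hBl : ∀ u v w, B (u + v) w = B u w + B v w) (hBr : ∀ u v w, B u (v + w) = B u v + B u w)
    (hBsl : ∀ (c : F) v w, B (c • v) w = c * B v w) (hBsr : ∀ (c : F) v w, B v (c • w) = c ^ (p ^ f) * B v w)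
    (hBn : ∀ v, (∀ w, B v w = 0) → v = 0) (hBK : ∀ g v w, B (ρ g v) (ρ g w) = B v w)
    {a b : ℕ} (ha : a ∣ 2 * f * Nat.gcd N (p ^ f + 1)) (hb : b ∣ p ^ f + 1)
    (he : Even N → Nat.card K * (a * b) = p ^ (f * (N - 1)) * (p ^ (f * N) - 1))
    (ho : Odd N → Nat.card K * (a * b) = p ^ (f * (N - 1)) * (p ^ (f * N) + 1)) : False := by
  have hf0 : f ≠ 0 := by omega
  have hpq : ¬ p ∣ p ^ f + 1 := not_dvd_add_one hp hf0
  have hpN : ¬ p ∣ Nat.gcd N (p ^ f + 1) := fun h => hpq (h.trans (Nat.gcd_dvd_right _ _))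
  have hab : (a * b).factorization p ≤ (2 * f).factorization p := fac_mul_le hp (by omega) ha hb hpN hpq
  have hb0 : b ≠ 0 := by rintro rfl; rw [zero_dvd_iff] at hb; omega
  have ha0 : a ≠ 0 := by
    rintro rfl
    rw [zero_dvd_iff] at ha
    have : 0 < 2 * f * Nat.gcd N (p ^ f + 1) := Nat.mul_pos (by omega) (Nat.gcd_pos_of_pos_left _ (by omega))
    omega
  have hg1 : ¬ p ∣ 1 := fun h => hp.one_lt.ne' (Nat.dvd_one.1 h)
  have hfN4 : 4 ≤ f * N := by nlinarith
  have h6 := hS.2.2.2.1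
  rcases Nat.even_or_odd N with hNe | hNo
  · -- even
    obtain ⟨n, hn⟩ := id hNe
    have hn' : N = 2 * n := by omega
    obtain ⟨r, hr, hor, _, _⟩ := Cfsg.Agent.H370.Rg.exists_rk (f := f) (k := N) hp (by omega) (by
      rintro ⟨rfl, h7⟩
      have hN6 : N ∣ 6 := ⟨f, by rw [← h7]; ring⟩
      have : N ≤ 6 := Nat.le_of_dvd (by norm_num) hN6
      have hN6' : N = 6 := by interval_cases N <;> omega
      subst hN6'
      have : f = 1 := by omega
      subst this
      have := h6 rfl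
      norm_num at this)
    have hrX : r ∣ p ^ (f * (N - 1)) * (p ^ (f * N) - 1) := by
      refine Dvd.dvd.mul_left ?_ _
      have h8 : ((p ^ (f * N) : ℕ) : ZMod r) = ((1 : ℕ) : ZMod r) := by
        rw [Nat.cast_pow, Nat.cast_one, ← hor]; exact pow_orderOf_eq_one _
      exact (Nat.modEq_iff_dvd' (Nat.one_le_pow _ _ hp.pos)).1 ((ZMod.natCast_eq_natCast_iff _ _ _).1 h8).symm
    have hrK := dvd_card_of hp hf hr hor (by omega) ha hb (he hNe) hrX
    have hcard : Nat.card K * (a * b) = 1 * (p ^ (f * (N - 1)) * (p ^ (f * N) - 1)) := by rw [one_mul]; exact he hNe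
    by_cases h4 : 4 ∣ N
    · exact fu_four_abs hJ ρ hinj hp hf hN h4 hS hF hdim h B hBl hBr hBsl hBsr hBn hBK hr hor hrK (mul_ne_zero ha0 hb0)
        hcard hab hg1 (by omega)
    have hn3 : 3 ≤ n := by
      by_contra hn3
      have : n = 2 := by omega
      exact h4 ⟨1, by omega⟩
    obtain ⟨t, ht, hot, _, _⟩ := Cfsg.Agent.H370.Rg.exists_rk (f := f) (k := n) hp (by nlinarith) (by
      rintro ⟨rfl, h7⟩
      have hn6 : n ∣ 6 := ⟨f, by rw [← h7]; ring⟩
      have : n ≤ 6 := Nat.le_of_dvd (by norm_num) hn6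
      have hn6' : n = 3 ∨ n = 6 := by interval_cases n <;> omega
      rcases hn6' with rfl | rfl
      · have : f = 2 := by omega
        subst this
        have := h6 hn'
        norm_num at this
      · exact h4 ⟨3, by omega⟩)
    have htX : t ∣ p ^ (f * (N - 1)) * (p ^ (f * N) - 1) := by
      refine Dvd.dvd.mul_left ?_ _
      have h8 : ((p ^ (f * N) : ℕ) : ZMod t) = ((1 : ℕ) : ZMod t) := by
        rw [Nat.cast_pow, Nat.cast_one, show f * N = (f * n) * 2 by rw [hn']; ring, pow_mul, ← hot, pow_orderOf_eq_one, one_pow]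
      exact (Nat.modEq_iff_dvd' (Nat.one_le_pow _ _ hp.pos)).1 ((ZMod.natCast_eq_natCast_iff _ _ _).1 h8).symm
    have htK := dvd_card_of hp hf ht hot hn3 ha hb (he hNe) htX
    exact fu_even_abs hJ ρ hinj hp hf hN hNe hS hF hdim h B hBl hBr hBsl hBsr hBn hBK hr hor hrK ht
      (by rw [hot, hn']; ring) htK (mul_ne_zero ha0 hb0) hcard hab hg1 (by omega)
  · -- odd
    obtain ⟨r, hr, hor, _, hrp⟩ := Cfsg.Agent.H370.Rg.exists_rk (f := f) (k := 2 * N) hp (by nlinarith) (by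
      rintro ⟨_, h7⟩
      have : f * (2 * N) = 2 * (f * N) := by ring
      omega)
    have := Fact.mk hr
    have hor' : orderOf ((p : ℕ) : ZMod r) = 2 * (f * N) := by rw [hor]; ring
    have hrX : r ∣ p ^ (f * (N - 1)) * (p ^ (f * N) + 1) := by
      refine Dvd.dvd.mul_left ?_ _
      have h8 : ((p : ℕ) : ZMod r) ^ (f * N) = -1 := by
        have h9 : ((p : ℕ) : ZMod r) ^ (f * N) * ((p : ℕ) : ZMod r) ^ (f * N) = 1 := by
          rw [← pow_add, ← two_mul, ← hor']; exact pow_orderOf_eq_one _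
        rcases mul_self_eq_one_iff.1 h9 with h10 | h10
        · have h11 := orderOf_dvd_of_pow_eq_one h10
          rw [hor'] at h11
          have := Nat.le_of_dvd (by omega) h11
          omega
        · exact h10
      rw [← ZMod.natCast_eq_zero_iff, Nat.cast_add, Nat.cast_pow, h8]
      push_cast; ring
    have hrK := dvd_card_of hp hf hr hor (by omega) ha hb (ho hNo) hrX
    exact fu_odd_abs hJ ρ hinj hp hf (by omega) hS hF hdim h hr hor' hrK (c := a * b) (g := 1) (mul_ne_zero ha0 hb0)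
      (by rw [one_mul]; exact ho hNo) hab hg1 (by omega)

end Cfsg.Agent.H997.Rg
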